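import Cfsg.Agent.Lib.H2.Unip
import Cfsg.Agent.Lib.H6.Basic
import Cfsg.Agent.Lib.H9.PGroup

/-! Fusion systems of alternating groups, I: a criterion, strongly closed subgroups (helper2). -/

set_option autoImplicit false
set_option linter.style.haveILetI false
set_option linter.unusedSectionVars false
open Cfsg Subgroup

namespace Cfsg.Agent.H2

open Cfsg.FusionSystem Cfsg.Agent.H7 Cfsg.Agent.H8

section Crit

variable {X : Type*} [Group X] {p : ℕ} [hp : Fact p.Prime]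

/-- Simplicity criterion with transfer of information between centric subgroups. -/
theorem isSimple_of_crit2 {H S : Subgroup X} [Finite H] (hS : SylowIn p S H) (h1 : S ≠ ⊥)
    (hsc : ∀ T ≤ S, T ≠ ⊥ → (∀ x ∈ T, ∀ g ∈ H, g * x * g⁻¹ ∈ S → g * x * g⁻¹ ∈ T) → S ≤ T)
    (haut : ∀ A : Subgroup X → Subgroup X, (∀ P ≤ S, pElts p H P ⊆ A P) →
      (∀ P Q, P ≤ Q → Q ≤ S → A Q ⊓ normalizer (P : Set X) ≤ A P) →
      (∀ P Q, P ≤ Q → Q ≤ S → PCentric p H P → A P ⊓ normalizer (Q : Set X) ≤ A Q) →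
      H ⊓ normalizer (S : Set X) ≤ A S) :
    (fusionSystemOfSubgroup H S hS.le).IsSimple p := by
  have hF := fusionSystemOfSubgroup_isSaturated hS
  haveI : Finite S := Finite.of_injective _ (inclusion_injective hS.le)
  refine hF.isSimple_of_autGroup_le h1 (fun T hT => ?_) fun D hD => ?_
  · obtain ⟨h2, h3⟩ := (fusionSystemOfSubgroup_stronglyClosed_iff hS.le).1 hT
    by_cases h : T = ⊥
    · exact Or.inl h
    · exact Or.inr (le_antisymm h2 (hsc T h2 h h3))
  have hi := hasPrimeToPIndexIn_iff.1 (hasPrimeToPIndexIn_of_invariant hF hD.1.2.2)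
  have key := haut (fun P => autPre H P (D.autGroup P)) (fun P hP a ⟨h0, h1, k, h2⟩ =>
    mem_autPre.2 ⟨h0, h1, hi.2 P hP _ (by
      rw [fusionSystemOfSubgroup_autGroup hS.le hP]; exact conjAut_mem_autInducedBy h0 h1) k
      (conjAut_pow_eq_one h1 h2)⟩)
    (fun P Q hPQ hQ g ⟨⟨hg, hn, h2⟩, hn'⟩ => mem_autPre.2 ⟨hg, hn',
      ((isMor_of_mem_autGroup hQ h2).mono hPQ).mem_autGroup fun x => by
        rw [equivFun_conjAut hn (hPQ x.2), coe_conjAut]⟩)
    fun P Q hPQ hQ hc g ⟨⟨hg, hn', h2⟩, hn⟩ => ?_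
  · rw [fusionSystemOfSubgroup_autGroup hS.le le_rfl]
    intro α hα
    obtain ⟨g, hg, hn, e⟩ := mem_autInducedBy_iff'.1 hα
    obtain ⟨-, hn', h2⟩ := key ⟨hg, hn⟩
    convert h2 using 1
    exact mulEquiv_ext_equivFun fun x hx => by rw [e x hx, equivFun_conjAut hn' hx]
  · have hαF : conjAut Q hn ∈ (fusionSystemOfSubgroup H S hS.le).autGroup Q := by
      rw [fusionSystemOfSubgroup_autGroup hS.le hQ]; exact conjAut_mem_autInducedBy hg hn
    exact mem_autPre.2 ⟨hg, hn, (isMor_of_centric_res hF hS.isPGroup hD.1.1 hi.1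
      (isMor_of_mem_autGroup hQ hαF) P hPQ (isCentric_of_pCentric hS (hPQ.trans hQ) hc)
      ((isMor_of_mem_autGroup (hPQ.trans hQ) h2).congr fun x hx => by
        rw [equivFun_conjAut hn' hx, equivFun_conjAut hn (hPQ hx)])).mem_autGroup
          fun x => (equivFun_coe _ x).symm⟩

theorem SimpleFus.isSimple {H S : Subgroup X} [Finite H] (h : SimpleFus p H) (hS : SylowIn p S H) :
    (fusionSystemOfSubgroup H S hS.le).IsSimple p := by
  obtain ⟨P⟩ : Nonempty (Sylow p H) := inferInstance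
  have hP := sylowIn_map_subtype P
  obtain ⟨s, hs⟩ := group_isoVia_map H.subtype H.subtype_injective (K := ⊤) le_top hP.le
    (by rw [← MonoidHom.range_eq_map, range_subtype]) rfl
  refine isSimple_conj hP hS (hs.isSimple ?_)
  rw [← groupFusionSystem_eq_ofSubgroup]
  exact h P

theorem SimpleFus.of_controls {H G S : Subgroup X} [Finite G] (h : SimpleFus p H) (hS : SylowIn p S G)
    (hSH : S ≤ H) (hHG : H ≤ G) (hc : ∀ P ≤ S, ∀ g ∈ G, (∀ x ∈ P, g * x * g⁻¹ ∈ S) →
      ∃ a ∈ H, ∀ x ∈ P, g * x * g⁻¹ = a * x * a⁻¹) : SimpleFus p G := by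
  haveI : Finite H := Finite.of_injective _ (inclusion_injective hHG)
  refine simpleFus_of_sub hS ?_
  convert h.isSimple (hS.mono_right hSH hHG) using 1
  refine ext_isMor fun P f => ?_
  rw [fusionSystemOfSubgroup_isMor, fusionSystemOfSubgroup_isMor]
  refine ⟨fun ⟨h1, h2, g, hg, e⟩ => ⟨h1, h2, ?_⟩, fun ⟨h1, h2, g, hg, e⟩ => ⟨h1, h2, g, hHG hg, e⟩⟩
  obtain ⟨a, ha, e'⟩ := hc P h1 g hg fun x hx => e x hx ▸ h2 x hx
  exact ⟨a, ha, fun x hx => (e x hx).trans (e' x hx)⟩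

end Crit

namespace Alt

open Equiv Equiv.Perm

variable {α : Type*} [Fintype α] [DecidableEq α] {p : ℕ} [hp : Fact p.Prime]

theorem mem_alt_of_pow (h2 : p ≠ 2) {g : Perm α} {k : ℕ} (h : g ^ p ^ k = 1) : g ∈ alternatingGroup α := by
  have h1 := congrArg Perm.sign h
  rw [map_pow, map_one] at h1
  rcases Int.units_eq_one_or (Perm.sign g) with h3 | h3
  · exact h3
  · rw [h3, ((hp.out.odd_of_ne_two h2).pow).neg_one_pow] at h1
    exact absurd h1 (by decide)

theorem simpleFus_succ (h : Fintype.card α % p = 1)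
    (ih : ∀ x : α, SimpleFus p (alternatingGroup {y // y ≠ x})) : SimpleFus p (alternatingGroup α) := by
  obtain ⟨S, hS⟩ := exists_sylowIn p (alternatingGroup α)
  have hfix : ∀ P ≤ S, Nat.card (MulAction.fixedPoints P α) % p = 1 := fun P hP => by
    rw [← (hS.isPGroup.to_le hP).card_modEq_card_fixedPoints α, Nat.card_eq_fintype_card, h]
  obtain ⟨x, hx⟩ := (Nat.card_pos_iff.1 (Nat.pos_of_ne_zero fun h0 => by
    have := hfix S le_rfl
    rw [h0] at this; simp at this)).1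
  have hx' : ∀ s ∈ S, s x = x := fun s hs => hx ⟨s, hs⟩
  have hr : ((ofSubtype (p := (· ≠ x))).comp (alternatingGroup _).subtype).range =
      alternatingGroup α ⊓ MulAction.stabilizer _ x := by
    refine le_antisymm ?_ fun g ⟨h1, h2⟩ => ?_
    · rintro _ ⟨g, rfl⟩
      exact ⟨(sign_ofSubtype g.1).trans g.2, ofSubtype_apply_of_not_mem g.1 (by simp)⟩
    · have h3 : ∀ y, g y ≠ x ↔ y ≠ x := fun y => by
        conv_lhs => rw [← show g x = x from h2]
        simp
      have h4 := ofSubtype_subtypePerm (f := g) (p := (· ≠ x)) h3 fun y hy h => hy (by rw [h]; exact h2)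
      exact ⟨⟨g.subtypePerm h3, by rw [mem_alternatingGroup, ← sign_ofSubtype, h4]; exact h1⟩, h4⟩
  refine SimpleFus.of_controls (H := alternatingGroup α ⊓ MulAction.stabilizer _ x)
    ((ih x).of_equiv ((MonoidHom.ofInjective fun _ _ h => Subtype.ext (ofSubtype_injective h)).trans
      (MulEquiv.subgroupCongr hr))) hS (fun s hs => ⟨hS.le hs, hx' s hs⟩) inf_le_left fun P hP g hg h1 => ?_
  by_cases h2 : g x = x
  · exact ⟨g, ⟨hg, h2⟩, fun _ _ => rfl⟩
  have hy : ∀ s ∈ P, s (g⁻¹ x) = g⁻¹ x := fun s hs => by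
    rw [Perm.eq_inv_iff_eq]; exact hx' _ (h1 s hs)
  have h3 : x ≠ g⁻¹ x := fun h => h2 (Perm.eq_inv_iff_eq.1 h)
  obtain ⟨z, hz, hz1, hz2⟩ : ∃ z, (∀ s ∈ P, s z = z) ∧ z ≠ x ∧ z ≠ g⁻¹ x := by
    by_contra! h4
    have h5 : MulAction.fixedPoints P α = {x, g⁻¹ x} := by
      ext z
      simp only [Set.mem_insert_iff, Set.mem_singleton_iff]
      refine ⟨fun hz => or_iff_not_imp_left.2 (h4 z fun s hs => hz ⟨s, hs⟩), ?_⟩
      rintro (rfl | rfl)
      exacts [fun s => hx' s (hP s.2), fun s => hy s s.2]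
    have h6 := hfix P hP
    rw [h5, Nat.card_coe_set_eq, Set.ncard_pair h3] at h6
    rcases hp.out.two_le.eq_or_lt with h | h
    · rw [← h] at h6; simp at h6
    · rw [Nat.mod_eq_of_lt h] at h6; simp at h6
  refine ⟨g * (swap x (g⁻¹ x) * swap (g⁻¹ x) z), ⟨mul_mem hg (mem_alternatingGroup.2 (by
    rw [map_mul, sign_swap h3, sign_swap hz2.symm]; rfl)), ?_⟩, fun s hs => ?_⟩
  · change g (swap x _ (swap _ z x)) = x
    rw [swap_apply_of_ne_of_ne h3 hz1.symm, swap_apply_left]; simp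
  · have h4 : ∀ a b, s a = a → s b = b → Commute (swap a b) s := fun a b ha hb => by
      rw [Commute, SemiconjBy, mul_swap_eq_swap_mul, ha, hb]
    have h5 := ((h4 _ _ (hx' s (hP hs)) (hy s hs)).mul_left (h4 _ _ (hy s hs) (hz s hs))).eq
    rw [mul_assoc g _ s, h5]; group

/-- The cycle type of the basic elements. -/
def ct (p : ℕ) : Multiset ℕ := if p = 2 then {2, 2} else {p}

omit [Fintype α] in
theorem sameCycle_of_forall [Finite α] {x z : Perm α} (h : ∀ b, x.SameCycle b (z b)) {b c : α}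
    (h1 : z.SameCycle b c) : x.SameCycle b c := by
  obtain ⟨n, -, rfl⟩ := h1.exists_pow_eq'
  clear h1
  induction n with
  | zero => exact SameCycle.rfl
  | succ n ih => rw [pow_succ', Perm.mul_apply]; exact ih.trans (h _)

/-- Elements acting on the cycles of `w` as powers of `w`. -/
def N (w : Perm α) : Subgroup (Perm α) where
  carrier := {g | Commute g w ∧ ∀ b, w.SameCycle b (g b)}
  one_mem' := ⟨Commute.one_left w, fun _ => SameCycle.rfl⟩
  mul_mem' := fun {_ h} hg hh => ⟨hg.1.mul_left hh.1, fun b => (hh.2 b).trans (hg.2 (h b))⟩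
  inv_mem' := fun {g} hg => ⟨hg.1.inv_left, fun b => by simpa using (hg.2 (g⁻¹ b)).symm⟩

theorem N_pow {w g : Perm α} (hw : w ^ p = 1) (hg : g ∈ N w) : g ^ p = 1 := by
  ext b
  obtain ⟨s, hs⟩ := hg.2 b
  have : ∀ n : ℕ, (g ^ n) b = ((w ^ s) ^ n) b := fun n => by
    induction n with
    | zero => rfl
    | succ n ih => rw [pow_succ', Perm.mul_apply, ih, ← Perm.mul_apply, ((hg.1.zpow_right s).pow_right n).eq,
        Perm.mul_apply, ← hs, ← Perm.mul_apply, ← pow_succ]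
  rw [this, ← zpow_natCast, ← zpow_mul, mul_comm, zpow_mul, zpow_natCast, hw, one_zpow]

theorem cycleOf_mem_N (w : Perm α) (a : α) : w.cycleOf a ∈ N w := by
  refine ⟨?_, fun b => ?_⟩
  · ext b
    simp only [Perm.mul_apply, cycleOf_apply, sameCycle_apply_right]
    split_ifs <;> rfl
  · rw [cycleOf_apply]
    split_ifs
    exacts [sameCycle_apply_right.2 SameCycle.rfl, SameCycle.rfl]

theorem cycleType_cycleOf {w : Perm α} (hw : w ^ p = 1) {a : α} (ha : w a ≠ a) :
    (w.cycleOf a).cycleType = {p} := by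
  have h := isCycle_cycleOf w ha
  rw [h.cycleType, ← h.orderOf, orderOf_eq_prime (N_pow hw (cycleOf_mem_N w a)) h.ne_one]

theorem exists_step {x : Perm α} (hx : x ∈ alternatingGroup α) {k : ℕ} (hk : x ^ p ^ k = 1) (h1 : x ≠ 1) :
    ∃ y, ∃ Q : Subgroup (Perm α), IsPGroup p Q ∧ x ∈ Q ∧ y ∈ Q ∧ y ∈ alternatingGroup α ∧ y.cycleType = ct p ∧
      {c : α × α | (y⁻¹ * x).SameCycle c.1 c.2} ⊂ {c : α × α | x.SameCycle c.1 c.2} := by
  let L := MulAction.period (α := α) x
  have hL0 : ∀ b (n : ℕ), (x ^ n) b = b ↔ L b ∣ n := fun b n =>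
    MulAction.pow_smul_eq_iff_period_dvd (m := x) (a := b)
  have hL : ∀ b (n : ℕ), L ((x ^ n) b) = L b := fun b n => by
    have : ∀ m, L ((x ^ n) b) ∣ m ↔ L b ∣ m := fun m => by
      rw [← hL0, ← hL0, ← Perm.mul_apply, pow_mul_comm, Perm.mul_apply, EmbeddingLike.apply_eq_iff_eq]
    exact Nat.dvd_antisymm ((this _).2 dvd_rfl) ((this _).1 dvd_rfl)
  have hL1 : ∀ b, x b ≠ b → p ∣ L b ∧ 0 < L b := fun b hb => by
    obtain ⟨m, -, hm⟩ := (Nat.dvd_prime_pow hp.out).1 ((hL0 b _).1 (by rw [hk]; rfl))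
    refine ⟨hm ▸ dvd_pow_self p fun h0 => hb ((MulAction.period_eq_one_iff (m := x)).1 ?_), hm ▸ pow_pos hp.out.pos m⟩
    simpa [h0] using hm
  have hf : ∀ (n : ℕ) b, (fun b => (x ^ (L b / p)) b)^[n] b = (x ^ (n * (L b / p))) b := fun n b => by
    induction n with
    | zero => simp
    | succ n ih => rw [Function.iterate_succ_apply', ih, hL, ← Perm.mul_apply, ← pow_add, add_mul, one_mul,
        add_comm]
  have hf1 : ∀ b, (fun b => (x ^ (L b / p)) b)^[p] b = b := fun b => by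
    rw [hf, hL0]
    by_cases hb : x b = b
    · rw [show L b = 1 from MulAction.period_eq_one_iff.2 hb]; exact one_dvd _
    · rw [Nat.mul_div_cancel' (hL1 b hb).1]
  obtain ⟨w, hw⟩ : ∃ w : Perm α, ∀ b, w b = (x ^ (L b / p)) b :=
    ⟨Equiv.ofBijective (fun b => (x ^ (L b / p)) b) (Finite.injective_iff_bijective.1
      ((Function.LeftInverse.injective (g := (fun b => (x ^ (L b / p)) b)^[p - 1]) fun b => by
        rw [← Function.iterate_succ_apply, Nat.succ_eq_add_one, Nat.sub_add_cancel hp.out.one_le, hf1]))),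
      fun _ => rfl⟩
  have hw1 : ∀ (n : ℕ) b, (w ^ n) b = (x ^ (n * (L b / p))) b := fun n b => by
    rw [← hf, Perm.coe_pow, show (w : α → α) = _ from funext hw]
  have hw2 : w ^ p = 1 := Equiv.ext fun b => by rw [hw1, ← hf, hf1]; rfl
  have hw3 : Commute x w := Equiv.ext fun b => by
    rw [Perm.mul_apply, Perm.mul_apply, hw, hw, show L (x b) = L b by simpa using hL b 1, ← Perm.mul_apply,
      ← Perm.mul_apply, pow_mul_comm']
  have hw4 : ∀ b, x b ≠ b → w b ≠ b := fun b hb h => by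
    rw [hw, hL0] at h
    exact (Nat.div_lt_self (hL1 b hb).2 hp.out.one_lt).not_ge
      (Nat.le_of_dvd (Nat.div_pos (Nat.le_of_dvd (hL1 b hb).2 (hL1 b hb).1) hp.out.pos) h)
  have hw5 : ∀ b c, w.SameCycle b c → x.SameCycle b c := fun b c =>
    sameCycle_of_forall fun b => ⟨(L b / p : ℕ), by rw [hw, zpow_natCast]⟩
  obtain ⟨a, ha⟩ : ∃ a, x a ≠ a := by by_contra! h; exact h1 (Equiv.ext h)
  obtain ⟨y, hy, hy1, hy2, hy3⟩ : ∃ y ∈ N w, w.cycleOf a * y ∈ alternatingGroup α ∧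
      (w.cycleOf a * y).cycleType = ct p ∧ ∀ b, x.SameCycle a b → y b = b := by
    by_cases h2 : p = 2
    · obtain ⟨a', ha', h3⟩ : ∃ a', x a' ≠ a' ∧ ¬ x.SameCycle a a' := by
        by_contra! h
        have h3 : x.IsCycle := ⟨a, ha, h⟩
        have h4 := h3.sign
        obtain ⟨m, -, hm⟩ := (Nat.dvd_prime_pow hp.out).1 (orderOf_dvd_of_pow_eq_one hk)
        rw [mem_alternatingGroup.1 hx, ← h3.orderOf, hm, h2, Even.neg_one_pow (Nat.even_pow.2 ⟨even_two, by
          rintro rfl; exact h1 (by simpa using hm)⟩)] at h4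
        exact absurd h4 (by decide)
      have h4 : ∀ b, x.SameCycle a b → w.cycleOf a' b = b := fun b hb =>
        cycleOf_apply_of_not_sameCycle fun h => h3 (hb.trans (hw5 _ _ h).symm)
      have h5 : (w.cycleOf a * w.cycleOf a').cycleType = {2, 2} := by
        rw [Disjoint.cycleType_mul, cycleType_cycleOf hw2 (hw4 a ha), cycleType_cycleOf hw2 (hw4 a' ha'), h2]
        · rfl
        · intro b
          by_cases h : w.SameCycle a b
          exacts [Or.inr (h4 b (hw5 _ _ h)), Or.inl (cycleOf_apply_of_not_sameCycle h)]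
      exact ⟨_, cycleOf_mem_N w a', by rw [mem_alternatingGroup, sign_of_cycleType, h5]; rfl,
        by rw [h5, ct, if_pos h2], h4⟩
    · refine ⟨1, one_mem _, mem_alt_of_pow h2 (k := 1) ?_, ?_, fun _ _ => rfl⟩
      · simpa using N_pow hw2 (cycleOf_mem_N w a)
      · rw [mul_one, cycleType_cycleOf hw2 (hw4 a ha), ct, if_neg h2]
  have hy4 := mul_mem (cycleOf_mem_N w a) hy
  refine ⟨_, zpowers x ⊔ N w, H7.isPGroup_sup_of_le_normalizer (H6.isPGroup_zpowers hk)
    (fun g => ⟨1, Subtype.ext (by simpa using N_pow hw2 g.2)⟩) (zpowers_le.2 (mem_normalizer_of_finite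
      fun g hg => ⟨(hw3.mul_left hg.1).mul_left hw3.inv_left, fun b => ?_⟩)),
    mem_sup_left (mem_zpowers x), mem_sup_right hy4, hy1, hy2, fun c hc => sameCycle_of_forall (fun b => ?_) hc,
    fun h => ?_⟩
  · have := (hg.2 (x⁻¹ b)).conj (g := x)
    simpa [hw3.eq] using this
  · exact (sameCycle_apply_right.2 SameCycle.rfl).trans (hw5 _ _ ((inv_mem hy4).2 _))
  obtain ⟨h2, h3⟩ := hL1 a ha
  obtain ⟨q, hq⟩ := h2
  have hq' : L a / p = q := by rw [hq, Nat.mul_div_cancel_left _ hp.out.pos]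
  have hq0 : 0 < q := Nat.pos_of_ne_zero fun h => by simp [hq, h] at h3
  have hD : ∀ i j : ℕ, (x ^ i) a = (x ^ j) a → (q : ℤ) ∣ i - j ∧ (L a : ℤ) ∣ i - j := fun i j h => by
    have : (L a : ℤ) ∣ i - j := MulAction.zpow_smul_eq_iff_period_dvd.1 (by
      rw [sub_eq_neg_add, zpow_add, zpow_neg, zpow_natCast, zpow_natCast, mul_smul, inv_smul_eq_iff]; exact h)
    exact ⟨(Int.natCast_dvd_natCast.2 (Dvd.intro_left p hq.symm)).trans this, this⟩
  obtain ⟨n, -, hn⟩ := SameCycle.exists_pow_eq' (h (a := (a, w a)) (hw5 _ _ (sameCycle_apply_right.2 SameCycle.rfl)))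
  have key : ∀ n : ℕ, ∃ j < q, (((w.cycleOf a * y)⁻¹ * x) ^ n) a = (x ^ j) a := fun n => by
    induction n with
    | zero => exact ⟨0, hq0, rfl⟩
    | succ n ih =>
      obtain ⟨j, hj, e⟩ := ih
      rw [pow_succ', Perm.mul_apply, e, Perm.mul_apply, ← Perm.mul_apply x, ← pow_succ']
      simp only [Perm.inv_eq_iff_eq, Perm.mul_apply]
      rcases (Nat.succ_le_of_lt hj).lt_or_eq with h4 | h4
      · refine ⟨j + 1, h4, ?_⟩
        rw [hy3 _ ⟨(j + 1 : ℕ), by rw [zpow_natCast]⟩, cycleOf_apply_of_not_sameCycle fun h => ?_]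
        obtain ⟨m, -, hm⟩ := h.exists_pow_eq'
        rw [hw1, hq'] at hm
        have h5 := (hD _ _ hm.symm).1
        rw [Nat.cast_mul, dvd_sub_left (dvd_mul_left _ _), Int.natCast_dvd_natCast] at h5
        exact h4.not_ge (Nat.le_of_dvd j.succ_pos h5)
      · refine ⟨0, hq0, ?_⟩
        rw [pow_zero, Perm.one_apply, hy3 a SameCycle.rfl, cycleOf_apply_self, hw, hq', ← h4]
  obtain ⟨j, hj, e⟩ := key n
  have h4 := (hD _ _ ((hq' ▸ hw a).symm.trans (hn.symm.trans e))).2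
  have h5 := Int.le_of_dvd (by omega) h4
  have h6 : 2 * q ≤ L a := hq ▸ Nat.mul_le_mul_right q hp.out.two_le
  omega

theorem le_of_basic {S T : Subgroup (Perm α)} (hS : SylowIn p S (alternatingGroup α))
    (hT : ∀ x ∈ T, ∀ g ∈ alternatingGroup α, g * x * g⁻¹ ∈ S → g * x * g⁻¹ ∈ T)
    (hn : (ct p).sum + 2 ≤ Fintype.card α) {t : Perm α} (ht : t ∈ T) (ht' : t ∈ alternatingGroup α)
    (h : t.cycleType = ct p) : S ≤ T := by
  suffices key : ∀ n, ∀ x ∈ alternatingGroup α, {c : α × α | x.SameCycle c.1 c.2}.ncard = n →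
      (∃ k, x ^ p ^ k = 1) → ∀ g ∈ alternatingGroup α, g * x * g⁻¹ ∈ S → g * x * g⁻¹ ∈ T from fun x hx => by
    simpa using key _ x (hS.le hx) rfl ((hS.isPGroup ⟨x, hx⟩).imp fun k hk => congrArg Subtype.val hk) 1
      (one_mem _) (by simpa)
  intro n
  induction n using Nat.strong_induction_on with
  | h n ih =>
  rintro x hx rfl ⟨k, hk⟩ g hg hg'
  by_cases h1 : x = 1
  · simp [h1]
  obtain ⟨y, Q, hQ, hxQ, hyQ, hy, hy', h2⟩ := exists_step hx hk h1
  obtain ⟨b, hb, h3⟩ := hS.exists_conj (hQ.to_inf_left (K := alternatingGroup α)) inf_le_right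
  have h4 := mul_mem (inv_mem hyQ) hxQ
  have h5 := ih _ (Set.ncard_lt_ncard h2) _ (mul_mem (inv_mem hy) hx) rfl
    ((hQ ⟨_, h4⟩).imp fun k hk => congrArg Subtype.val hk) b hb (h3 _ ⟨h4, mul_mem (Subgroup.inv_mem _ hy) hx⟩)
  obtain ⟨c, hc⟩ := isConj_iff.1 (alternatingGroup.isConj_of (σ := ⟨t, ht'⟩)
    (τ := ⟨_, mul_mem (mul_mem hb hy) (inv_mem hb)⟩) (isConj_of_cycleType_eq (by simp [h, hy']))
    (by rwa [← sum_cycleType, h]))
  replace hc : c.1 * t * c.1⁻¹ = b * y * b⁻¹ := congrArg Subtype.val hc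
  have h6 := hT t ht c c.2 (hc ▸ h3 y ⟨hyQ, hy⟩)
  rw [hc] at h6
  have h7 := hT _ (mul_mem h6 h5) (g * b⁻¹) (mul_mem hg (inv_mem hb)) (by simpa [mul_assoc] using hg')
  simpa [mul_assoc] using h7

theorem exists_basic_two {S T : Subgroup (Perm α)} (hS : SylowIn 2 S (alternatingGroup α))
    (hT : ∀ x ∈ T, ∀ g ∈ alternatingGroup α, g * x * g⁻¹ ∈ S → g * x * g⁻¹ ∈ T) (hTS : T ≤ S) (h0 : T ≠ ⊥) :
    ∃ t ∈ T, t.cycleType = ct 2 := by
  obtain ⟨t, ht, ht1, htp, -⟩ := H9.exists_mem_centralizer_ne_one (hS.isPGroup.to_le hTS)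
    (hS.isPGroup.to_le hTS) le_normalizer h0
  have htA := hS.le (hTS ht)
  have ht2 : ∀ x, t (t x) = x := fun x => by rw [← Perm.mul_apply, ← pow_two, htp]; rfl
  obtain ⟨a, ha⟩ : ∃ a, t a ≠ a := by by_contra! h; exact ht1 (Equiv.ext h)
  obtain ⟨c, hc, h1, h2⟩ : ∃ c, t c ≠ c ∧ c ≠ a ∧ c ≠ t a := by
    by_contra! h
    have : t = swap a (t a) := Equiv.ext fun x => by
      by_cases h1 : x = a
      · simp [h1]
      by_cases h2 : x = t a
      · simp [h2, ht2]
      rw [swap_apply_of_ne_of_ne h1 h2]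
      by_contra h3
      exact h2 (h x h3 h1)
    rw [this, mem_alternatingGroup, sign_swap ha.symm] at htA
    exact absurd htA (by decide)
  have h3 : a ≠ t c := fun h => h2 (by rw [h, ht2])
  have h4 : t a ≠ t c := fun h => h1 (t.injective h).symm
  have hd : Disjoint (swap (t a) c) (swap a (t c)) := fun x => by
    by_cases h : x = a ∨ x = t c
    · left; rcases h with rfl | rfl
      exacts [swap_apply_of_ne_of_ne ha.symm h1.symm, swap_apply_of_ne_of_ne h4.symm hc]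
    · push Not at h
      exact Or.inr (swap_apply_of_ne_of_ne h.1 h.2)
  set u := swap (t a) c * swap a (t c) with hu
  have h5 : Commute t u := by
    rw [Commute, SemiconjBy, hu, ← mul_assoc, mul_swap_eq_swap_mul t, mul_assoc, mul_swap_eq_swap_mul t, ht2,
      ht2, ← mul_assoc, hd.commute.eq]
  have h6 : u ^ 2 ^ 1 = 1 := by rw [pow_one, hu, hd.commute.mul_pow]; simp [pow_two]
  have huA : u ∈ alternatingGroup α := by simp [hu, h2.symm, h3]
  obtain ⟨b, hb, h7⟩ := hS.exists_conj (H7.isPGroup_sup_of_le_normalizer (H6.isPGroup_zpowers (k := 1) htp)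
    (H6.isPGroup_zpowers h6) (zpowers_le.2 (centralizer_le_normalizer _ (by
      rintro _ ⟨n, rfl⟩; exact (h5.symm.zpow_left n).eq)))) (sup_le (zpowers_le.2 htA) (zpowers_le.2 huA))
  have h8 : u * t = (swap (t a) c * swap a (t a)) * t * (swap (t a) c * swap a (t a))⁻¹ := by
    rw [eq_mul_inv_iff_mul_eq, hu, mul_assoc, ← mul_assoc t, mul_swap_eq_swap_mul t, mul_assoc _ t,
      mul_swap_eq_swap_mul t, ht2, swap_comm (t a) a]
    simp [mul_assoc]
  have h9 := hT t ht (b * (swap (t a) c * swap a (t a))) (mul_mem hb (by simp [h2.symm, ha.symm])) (by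
    have := h7 _ (mul_mem (mem_sup_right (mem_zpowers u)) (mem_sup_left (mem_zpowers t)))
    rw [h8] at this
    simpa only [mul_assoc, mul_inv_rev] using this)
  refine ⟨b * u * b⁻¹, ?_, ?_⟩
  · rw [← mul_mem_cancel_right (hT t ht b hb (h7 _ (mem_sup_left (mem_zpowers t))))]
    convert h9 using 1
    rw [show b * u * b⁻¹ * (b * t * b⁻¹) = b * (u * t) * b⁻¹ by group, h8]; group
  · rw [cycleType_conj, hu, hd.cycleType_mul, (isCycle_swap h2.symm).cycleType, (isCycle_swap h3).cycleType,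
      card_support_swap h2.symm, card_support_swap h3]; rfl

end Alt

end Cfsg.Agent.H2
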