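import Cfsg.Agent.Lib.H2.AltFus1

/-! Fusion systems of alternating groups, II: the wreath product model (helper2). -/

set_option autoImplicit false
set_option linter.style.haveILetI false
set_option linter.unusedSectionVars false
open Cfsg Subgroup

namespace Cfsg.Agent.H2

open Cfsg.FusionSystem Cfsg.Agent.H7

namespace Alt

open Equiv Equiv.Perm

variable {ι : Type*} [Fintype ι] [DecidableEq ι] {p : ℕ} [hp : Fact p.Prime]

/-- Translations. -/
def tr (f : ι → ZMod p) : Perm (ι × ZMod p) := prodCongrRight fun i => Equiv.addRight (f i)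

/-- Dilations. -/
def dil : (ι → (ZMod p)ˣ) →* Perm (ι × ZMod p) where
  toFun u := prodCongrRight fun i => (u i).mulLeft
  map_one' := by ext x <;> simp [prodCongrRight]
  map_mul' u v := Equiv.ext fun x => Prod.ext rfl (mul_assoc (u x.1 : ZMod p) (v x.1) x.2)

variable (p) in
/-- Permutations of the blocks. -/
def pm : Perm ι →* Perm (ι × ZMod p) where
  toFun π := prodCongrLeft fun _ => π
  map_one' := rfl
  map_mul' _ _ := rfl

@[simp] theorem tr_apply (f : ι → ZMod p) (x : ι × ZMod p) : tr f x = (x.1, x.2 + f x.1) := rfl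

@[simp] theorem dil_apply (u : ι → (ZMod p)ˣ) (x : ι × ZMod p) : dil u x = (x.1, u x.1 * x.2) := rfl

@[simp] theorem pm_apply (π : Perm ι) (x : ι × ZMod p) : pm p π x = (π x.1, x.2) := rfl

theorem tr_add (f g : ι → ZMod p) : tr (f + g) = tr f * tr g := by
  ext x <;> simp [add_assoc, add_comm (f _)]

theorem tr_zero : tr (0 : ι → ZMod p) = 1 := by ext x <;> simp

theorem tr_neg (f : ι → ZMod p) : tr (-f) = (tr f)⁻¹ := by
  rw [eq_inv_iff_mul_eq_one, ← tr_add, neg_add_cancel, tr_zero]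

theorem tr_pow (f : ι → ZMod p) (n : ℕ) : tr f ^ n = tr (n • f) := by
  induction n with
  | zero => simp [tr_zero]
  | succ n ih => rw [pow_succ, ih, succ_nsmul, tr_add]

theorem tr_pow_p (f : ι → ZMod p) : tr f ^ p ^ 1 = 1 := by
  rw [tr_pow, ← Nat.cast_smul_eq_nsmul (ZMod p), pow_one, ZMod.natCast_self, zero_smul, tr_zero]

theorem dil_conj (u : ι → (ZMod p)ˣ) (f : ι → ZMod p) :
    dil u * tr f * (dil u)⁻¹ = tr fun i => (u i : ZMod p) * f i := by
  rw [mul_inv_eq_iff_eq_mul]; ext x <;> simp [mul_add]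

theorem pm_conj (π : Perm ι) (f : ι → ZMod p) : pm p π * tr f * (pm p π)⁻¹ = tr (f ∘ ⇑π⁻¹) := by
  rw [mul_inv_eq_iff_eq_mul]; ext x <;> simp

theorem pm_dil_conj (π : Perm ι) (u : ι → (ZMod p)ˣ) : pm p π * dil u * (pm p π)⁻¹ = dil (u ∘ ⇑π⁻¹) := by
  rw [mul_inv_eq_iff_eq_mul]; ext x <;> simp

theorem sign_pm (π : Perm ι) : sign (pm p π) = sign π ^ p := by
  exact (sign_prodCongrLeft fun _ : ZMod p => π).trans (by simp)

theorem sign_two {σ : ι → Perm (ZMod p)} {i j : ι} (h : i ≠ j) (h1 : σ i = σ j)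
    (h2 : ∀ l, l ≠ i → l ≠ j → σ l = 1) : prodCongrRight σ ∈ alternatingGroup (ι × ZMod p) := by
  rw [mem_alternatingGroup, sign_prodCongrRight, Finset.prod_eq_mul i j h (fun l _ hl => by
    rw [h2 l hl.1 hl.2, map_one]) (by simp) (by simp), h1, Int.units_mul_self]

variable (ι p) in
/-- The even translations. -/
def E : Subgroup (Perm (ι × ZMod p)) :=
  { carrier := Set.range tr
    one_mem' := ⟨0, tr_zero⟩
    mul_mem' := by rintro _ _ ⟨f, rfl⟩ ⟨g, rfl⟩; exact ⟨_, tr_add f g⟩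
    inv_mem' := by rintro _ ⟨f, rfl⟩; exact ⟨_, tr_neg f⟩ } ⊓ alternatingGroup _

theorem mem_E {g : Perm (ι × ZMod p)} : g ∈ E ι p ↔ (∃ f, tr f = g) ∧ g ∈ alternatingGroup _ := Iff.rfl

theorem isPGroup_E : IsPGroup p (E ι p) := by
  rintro ⟨_, ⟨f, rfl⟩, h⟩
  exact ⟨1, Subtype.ext (tr_pow_p f)⟩

theorem tr2_mem {i j : ι} (h : i ≠ j) (a : ZMod p) : tr (Pi.single i a + Pi.single j a) ∈ E ι p :=
  ⟨⟨_, rfl⟩, sign_two h (by simp [h, h.symm]) fun l h1 h2 => by simp [h1, h2]⟩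

theorem mem_normalizer_E {g : Perm (ι × ZMod p)} (h : ∀ f, ∃ f', tr f' = g * tr f * g⁻¹) :
    g ∈ normalizer (E ι p : Set (Perm (ι × ZMod p))) :=
  mem_normalizer_of_finite (by
    rintro _ ⟨⟨f, rfl⟩, h1⟩
    exact ⟨h f, (alternatingGroup.normal).conj_mem _ h1 g⟩)

theorem tr_mem_N (f : ι → ZMod p) : tr f ∈ normalizer (E ι p : Set (Perm (ι × ZMod p))) :=
  mem_normalizer_E fun g => ⟨g, by rw [← tr_add, add_comm, tr_add, mul_inv_cancel_right]⟩

theorem dil_mem_N (u : ι → (ZMod p)ˣ) : dil u ∈ normalizer (E ι p : Set (Perm (ι × ZMod p))) :=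
  mem_normalizer_E fun g => ⟨_, (dil_conj u g).symm⟩

theorem pm_mem_N (π : Perm ι) : pm p π ∈ normalizer (E ι p : Set (Perm (ι × ZMod p))) :=
  mem_normalizer_E fun g => ⟨_, (pm_conj π g).symm⟩

theorem exists_third (h : 3 ≤ Fintype.card ι) (i j : ι) : ∃ l, l ≠ i ∧ l ≠ j := by
  by_contra! h1
  have : Fintype.card ι ≤ ({i, j} : Finset ι).card :=
    Finset.card_le_card fun l _ => by simpa [or_iff_not_imp_left] using h1 l
  have := this.trans Finset.card_le_two
  omega

variable (h3 : 3 ≤ Fintype.card ι)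
include h3

theorem exists_aff {g : Perm (ι × ZMod p)} (hg : g ∈ normalizer (E ι p : Set (Perm (ι × ZMod p)))) :
    ∃ f u π, g = tr f * dil u * pm p π := by
  have key : ∀ i, ∃ u : (ZMod p)ˣ, ∀ a, g (i, a) = ((g (i, 0)).1, (g (i, 0)).2 + u * a) := fun i => by
    obtain ⟨l, hl, -⟩ := exists_third h3 i i
    obtain ⟨⟨f, hf⟩, -⟩ := conj_mem_of_mem_normalizer hg (tr2_mem hl.symm 1)
    have h1 : ∀ a, g (i, a) = ((g (i, 0)).1, (g (i, 0)).2 + f (g (i, 0)).1 * a) := fun a => by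
      have h2 := congrArg (· ^ a.val) hf
      simp only [conj_pow, tr_pow, ← Nat.cast_smul_eq_nsmul (ZMod p), ZMod.natCast_zmod_val] at h2
      have := Perm.congr_fun h2 (g (i, 0))
      simpa [hl.symm, mul_comm] using this.symm
    refine ⟨Units.mk0 _ fun h => ?_, h1⟩
    have h2 := h1 1
    rw [h, zero_mul, add_zero] at h2
    simpa using g.injective h2
  choose u hu using key
  have hπ : Function.Injective fun i => (g (i, 0)).1 := fun i j h => by
    have h1 := hu i ((u i)⁻¹ * ((g (j, 0)).2 - (g (i, 0)).2))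
    rw [Units.mul_inv_cancel_left, add_sub_cancel, show (g (i, 0)).1 = _ from h] at h1
    exact congrArg Prod.fst (g.injective h1)
  let π : Perm ι := Equiv.ofBijective _ (Finite.injective_iff_bijective.1 hπ)
  refine ⟨fun i => (g (π⁻¹ i, 0)).2, fun i => u (π⁻¹ i), π, Equiv.ext fun x => ?_⟩
  rw [hu x.1 x.2]
  simp [add_comm]; rfl

theorem pCentric_E : PCentric p (alternatingGroup _) (E ι p) := by
  rintro c hc hc' -
  have h1 : ∀ i, (c (i, 0)).1 = i := fun i => by
    by_contra h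
    obtain ⟨l, h1, h2⟩ := exists_third h3 i (c (i, 0)).1
    have h4 := Perm.congr_fun (hc' _ (tr2_mem h2.symm 1)) (i, 0)
    simp [Prod.ext_iff, h1.symm, h2.symm, Ne.symm h] at h4
  refine ⟨⟨fun i => (c (i, 0)).2, Equiv.ext fun x => ?_⟩, hc⟩
  obtain ⟨l, h2, -⟩ := exists_third h3 x.1 x.1
  have h4 := Perm.congr_fun (hc' _ (tr2_mem h2.symm x.2)) (x.1, 0)
  simpa [h1, h2.symm, add_comm] using h4

theorem normalizer_le {S : Subgroup (Perm (ι × ZMod p))} (hS : IsPGroup p S) (hE : E ι p ≤ S)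
    (hS1 : S ≤ alternatingGroup _ ⊓ normalizer (E ι p : Set (Perm (ι × ZMod p)))) :
    normalizer (S : Set (Perm (ι × ZMod p))) ≤ normalizer (E ι p : Set (Perm (ι × ZMod p))) := by
  have h0 : ∀ s ∈ S, ∀ x y : ι × ZMod p, x.1 = y.1 → (s x).1 = (s y).1 := fun s hs x y h => by
    obtain ⟨f, u, π, rfl⟩ := exists_aff h3 (hS1 hs).2
    simp [h]
  have h1 : ∀ g ∈ normalizer (S : Set (Perm (ι × ZMod p))), ∀ x y : ι × ZMod p, x.1 = y.1 →
      (g x).1 = (g y).1 := fun g hg x y h => by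
    by_contra h2
    obtain ⟨b, hb⟩ : ∃ b, (g⁻¹ ((g x).1, b)).1 ≠ x.1 := by
      by_contra! h4
      obtain ⟨b, hb⟩ := (Finite.injective_iff_surjective (f := fun b => (g⁻¹ ((g x).1, b)).2)).1
        (fun b b' e => congrArg Prod.snd (g⁻¹.injective (Prod.ext ((h4 b).trans (h4 b').symm) e))) y.2
      refine h2 ?_
      rw [← show g⁻¹ ((g x).1, b) = y from Prod.ext ((h4 b).trans h) hb]; simp
    obtain ⟨l, h4, h5⟩ := exists_third h3 x.1 (g⁻¹ ((g x).1, b)).1
    have h6 := h0 _ (conj_mem_of_mem_normalizer hg (hE (tr2_mem h4.symm (y.2 - x.2)))) (g x) ((g x).1, b) rfl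
    simp only [Perm.mul_apply, tr_apply, Pi.add_apply, Pi.single_eq_of_ne hb, Pi.single_eq_of_ne h5.symm,
      add_zero, Prod.mk.eta] at h6
    simp only [Perm.coe_inv, symm_apply_apply, apply_symm_apply, Pi.single_eq_same,
      Pi.single_eq_of_ne h4.symm, add_zero, add_sub_cancel] at h6
    rw [h] at h6
    exact h2 h6.symm
  intro g hg
  refine mem_normalizer_of_finite fun e he => ?_
  have h2 := conj_mem_of_mem_normalizer hg (hE he)
  obtain ⟨⟨f₀, rfl⟩, -⟩ := he
  have h4 : ∀ x, ((g * tr f₀ * g⁻¹) x).1 = x.1 := fun x => by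
    simpa using h1 g hg (tr f₀ (g⁻¹ x)) (g⁻¹ x) rfl
  obtain ⟨k, hk⟩ := hS ⟨_, h2⟩
  replace hk : (g * tr f₀ * g⁻¹) ^ p ^ k = 1 := congrArg Subtype.val hk
  refine ⟨?_, (hS1 h2).1⟩
  obtain ⟨f, u, π, e⟩ := exists_aff h3 (hS1 h2).2
  rw [e] at h4 hk ⊢
  obtain rfl : π = 1 := Equiv.ext fun i => h4 (i, 0)
  have h5 : ∀ n : ℕ, ∃ f', (tr f * dil u * pm p 1) ^ n = tr f' * dil (u ^ n) := fun n => by
    induction n with
    | zero => exact ⟨0, by simp [tr_zero]⟩
    | succ n ih =>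
      obtain ⟨f', e⟩ := ih
      exact ⟨f + fun i => u i * f' i, by rw [pow_succ', e, tr_add, ← dil_conj, pow_succ', map_mul]; simp [mul_assoc]⟩
  obtain ⟨f', e'⟩ := h5 (p ^ k)
  obtain rfl : u = 1 := funext fun i => Units.ext (eq_one_of_pow_char_pow (p := p) (k := k) (by
    have h6 := Perm.congr_fun (hk.symm.trans e') (i, 0)
    have h7 := Perm.congr_fun (hk.symm.trans e') (i, 1)
    simp only [Perm.one_apply, Perm.mul_apply, tr_apply, dil_apply, Prod.mk.injEq, true_and, mul_zero,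
      zero_add, mul_one] at h6 h7
    simpa [← h6] using h7.symm))
  exact ⟨f, by simp⟩

omit h3 in
theorem conj_mem_X {g x : Perm (ι × ZMod p)} (hg : g ∈ normalizer (E ι p : Set (Perm (ι × ZMod p))))
    (hx : x ∈ closure (pElts p (alternatingGroup _) (E ι p))) :
    g * x * g⁻¹ ∈ closure (pElts p (alternatingGroup _) (E ι p)) := by
  refine (closure_le ((Subgroup.closure _).comap (MulAut.conj g).toMonoidHom)).2 ?_ hx
  rintro y ⟨h1, h2, k, h4⟩
  exact subset_closure ⟨(alternatingGroup.normal).conj_mem _ h1 g, mul_mem (mul_mem hg h2) (inv_mem hg), k, by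
    rw [← map_pow, h4, map_one]⟩

theorem N_le_two : alternatingGroup _ ⊓ normalizer (E ι 2 : Set (Perm (ι × ZMod 2))) ≤
    closure (pElts 2 (alternatingGroup _) (E ι 2)) := by
  rintro g ⟨h1, h2⟩
  obtain ⟨f, u, π, rfl⟩ := exists_aff h3 h2
  have h4 : ∀ π : Perm ι, pm 2 π ∈ alternatingGroup _ := fun π => by
    rw [mem_alternatingGroup, sign_pm, pow_two, Int.units_mul_self]
  rw [Subsingleton.elim u 1, map_one, mul_one] at h1 ⊢
  refine mul_mem (subset_closure ⟨(mul_mem_cancel_right (h4 π)).1 h1, tr_mem_N f, 1, tr_pow_p f⟩) ?_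
  clear h1 h2
  induction π using swap_induction_on with
  | one => rw [map_one]; exact one_mem _
  | swap_mul π x y _ ih =>
    rw [map_mul]
    exact mul_mem (subset_closure ⟨h4 _, pm_mem_N _, 1, by rw [← map_pow]; simp [pow_two]⟩) ih

theorem exists_basic_odd (h2 : p ≠ 2) {S T : Subgroup (Perm (ι × ZMod p))}
    (hS : SylowIn p S (alternatingGroup _)) (hE : E ι p ≤ S)
    (hT : ∀ x ∈ T, ∀ g ∈ alternatingGroup _, g * x * g⁻¹ ∈ S → g * x * g⁻¹ ∈ T) (hTS : T ≤ S) (h0 : T ≠ ⊥) :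
    ∃ t ∈ T, t.cycleType = ct p := by
  obtain ⟨t, ht, ht1, htp, htc⟩ := H9.exists_mem_centralizer_ne_one (hS.isPGroup.to_le hTS)
    hS.isPGroup (fun s hs => mem_normalizer_of_finite fun x hx => hT x hx s (hS.le hs)
      (mul_mem (mul_mem hs (hTS hx)) (inv_mem hs))) h0
  obtain ⟨⟨f, rfl⟩, -⟩ := pCentric_E h3 t (hS.le (hTS ht)) (fun r hr => htc r (hE hr)) ⟨1, by rwa [pow_one]⟩
  obtain ⟨i, hi⟩ : ∃ i, f i ≠ 0 := by
    by_contra! h; exact ht1 (by rw [show f = 0 from funext h, tr_zero])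
  have key : ∀ f, tr f ∈ T → ∀ j, j ≠ i → tr (Pi.single i (2 * f i) + Pi.single j (2 * f j)) ∈ T :=
    fun f hf j hj => by
      have h4 := hT _ hf (dil (Pi.mulSingle i (-1) * Pi.mulSingle j (-1))) (sign_two
        (σ := fun l => Units.mulLeft ((Pi.mulSingle i (-1) * Pi.mulSingle j (-1) : ι → (ZMod p)ˣ) l)) hj.symm
        (by simp [hj, hj.symm]) fun l h1 h2 => by ext; simp [h1, h2]) (by
          rw [dil_conj]; exact hE ⟨⟨_, rfl⟩, mem_alt_of_pow h2 (tr_pow_p _)⟩)
      have h5 := mul_mem hf (inv_mem h4)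
      rw [dil_conj, ← tr_neg, ← tr_add] at h5
      convert h5 using 2
      ext l
      by_cases h6 : l = i
      · simp [h6, hj.symm, two_mul]
      by_cases h7 : l = j
      · simp [h7, hj, two_mul]
      simp [h6, h7]
  obtain ⟨j, hj, -⟩ := exists_third h3 i i
  obtain ⟨l, hl, hl'⟩ := exists_third h3 i j
  have h4 := key _ (key f ht j hj) l hl
  simp only [Pi.add_apply, Pi.single_eq_same, Pi.single_eq_of_ne hj.symm, Pi.single_eq_of_ne hl,
    Pi.single_eq_of_ne hl', add_zero, mul_zero, Pi.single_zero] at h4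
  have h5 : (2 : ZMod p) ≠ 0 := Ring.two_ne_zero (by rwa [ZMod.ringChar_zmod_n])
  refine ⟨_, h4, ?_⟩
  have h6 : orderOf (tr (Pi.single i (2 * (2 * f i))) : Perm (ι × ZMod p)) = p :=
    orderOf_eq_prime (by simpa using tr_pow_p _) fun h => by
      simpa [h5, hi] using Perm.congr_fun h (i, 0)
  have h7 := isCycle_of_prime_order (h6.symm ▸ hp.out) (by
    rw [h6]
    refine (Finset.card_le_card (t := {i} ×ˢ Finset.univ) fun x hx => ?_).trans_lt (by simp [hp.out.pos])
    by_contra h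
    simp [show x.1 ≠ i from fun e => h (by simp [← e])] at hx)
  rw [h7.cycleType, ← h7.orderOf, h6, ct, if_neg h2]

theorem pm_mem_X (h2 : p ≠ 2) (hp' : p ≤ Fintype.card ι) {π : Perm ι} (h : π ∈ alternatingGroup ι) :
    pm p π ∈ closure (pElts p (alternatingGroup _) (E ι p)) := by
  obtain ⟨c, hc⟩ := (exists_with_cycleType_iff ι (m := {p})).2 (by simp [hp', hp.out.two_le])
  have h4 : c.IsCycle := card_cycleType_eq_one.1 (by simp [hc])
  have h5 : orderOf c = p := by rw [← lcm_cycleType, hc]; simp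
  have h6 : ∀ s : Perm ι, pm p (s * c * s⁻¹) ∈ closure (pElts p (alternatingGroup _) (E ι p)) := fun s => by
    have h6 : pm p (s * c * s⁻¹) ^ p ^ 1 = 1 := by
      rw [← map_pow, conj_pow, pow_one, ← h5, pow_orderOf_eq_one]; simp
    exact subset_closure ⟨mem_alt_of_pow h2 h6, pm_mem_N _, 1, h6⟩
  obtain ⟨a, ha, -⟩ := id h4
  have h7 : c (c a) ≠ a := fun h => by
    have := (h4.pow_eq_one_iff' ha (n := 2)).2 h
    exact h2 ((Nat.prime_dvd_prime_iff_eq hp.out Nat.prime_two).1 (h5 ▸ orderOf_dvd_of_pow_eq_one this))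
  have h8 := mul_mem (h6 1) (inv_mem (h6 (swap a (c a))))
  rw [← map_inv, ← map_mul, show 1 * c * 1⁻¹ * (swap a (c a) * c * (swap a (c a))⁻¹)⁻¹ =
    swap (c a) (c (c a)) * swap (c a) a by
      rw [swap_apply_apply c a (c a), swap_comm (c a) a]; simp [mul_assoc]] at h8
  have h9 := isThreeCycle_swap_mul_swap_same (a := c a) (b := c (c a)) (c := a) (c.injective.ne ha.symm) ha h7
  rw [← closure_three_cycles_eq_alternating] at h
  refine (closure_le ((Subgroup.closure _).comap (pm p))).2 (fun σ hσ => ?_) h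
  obtain ⟨s, rfl⟩ := isConj_iff.1 (isConj_of_cycleType_eq (h9.cycleType.trans hσ.cycleType.symm))
  simpa using conj_mem_X (pm_mem_N s) h8

theorem dil_mem_X (h2 : p ≠ 2) (hp' : p ≤ Fintype.card ι) (i : ι) (u : ι → (ZMod p)ˣ) :
    dil u * (dil (Pi.mulSingle i (∏ j, u j)))⁻¹ ∈ closure (pElts p (alternatingGroup _) (E ι p)) := by
  rw [← map_inv, ← map_mul]
  induction u using Pi.mulSingle_induction with
  | one => simp
  | mul u v hu hv =>
    have := mul_mem hu hv
    rw [← map_mul] at this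
    convert this using 2
    simp only [Pi.mul_apply, Finset.prod_mul_distrib, Pi.mulSingle_mul, mul_inv]
    exact mul_mul_mul_comm _ _ _ _
  | mulSingle j t =>
    by_cases h : j = i
    · simp [h]
    obtain ⟨l, h4, h5⟩ := exists_third h3 i j
    have h6 := pm_mem_X h3 h2 hp' (π := swap i j * swap j l) (by simp [h5.symm, Ne.symm h])
    convert mul_mem h6 (conj_mem_X (dil_mem_N (Pi.mulSingle i t)) (inv_mem h6)) using 1
    rw [← mul_assoc, ← mul_assoc, pm_dil_conj, map_mul, map_inv, Finset.prod_pi_mulSingle']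
    congr 2
    · ext x
      simp only [Pi.mulSingle_apply, Function.comp_apply, Perm.inv_eq_iff_eq, Perm.mul_apply,
        swap_apply_of_ne_of_ne (Ne.symm h) h4.symm, swap_apply_left]
    · simp

theorem N_le_odd (h2 : p ≠ 2) (hp' : p ≤ Fintype.card ι) (i : ι) {A : Subgroup (Perm (ι × ZMod p))}
    (hA : closure (pElts p (alternatingGroup _) (E ι p)) ≤ A)
    (h : ∀ t : (ZMod p)ˣ, ∃ u π, ∏ j, u j = t ∧ dil u * pm p π ∈ alternatingGroup _ ⊓ A) :
    alternatingGroup _ ⊓ normalizer (E ι p : Set (Perm (ι × ZMod p))) ≤ A := by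
  rintro g ⟨h4, h5⟩
  obtain ⟨f, u, π, rfl⟩ := exists_aff h3 h5
  obtain ⟨u', π', e, h6⟩ := h (∏ j, u j)
  have hX : closure (pElts p (alternatingGroup _) (E ι p)) ≤ alternatingGroup _ ⊓ A :=
    le_inf ((closure_le _).2 fun _ h => h.1) hA
  have h7 := mul_mem (mul_mem (hX (subset_closure ⟨mem_alt_of_pow h2 (tr_pow_p f), tr_mem_N f, 1, tr_pow_p f⟩))
    (mul_mem (hX (dil_mem_X h3 h2 hp' i u)) (inv_mem (hX (dil_mem_X h3 h2 hp' i u'))))) h6
  rw [e] at h7
  have h8 : tr f * dil u * pm p π = tr f * (dil u * (dil (Pi.mulSingle i (∏ j, u j)))⁻¹ *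
      (dil u' * (dil (Pi.mulSingle i (∏ j, u j)))⁻¹)⁻¹) * (dil u' * pm p π') * pm p (π'⁻¹ * π) := by
    rw [map_mul, map_inv]; group
  rw [h8] at h4 ⊢
  refine mul_mem h7.2 (hA (pm_mem_X h3 h2 hp' ?_))
  have h9 := ((alternatingGroup _).mul_mem_cancel_left h7.1).1 h4
  rw [mem_alternatingGroup, sign_pm] at h9
  rcases Int.units_eq_one_or (sign (π'⁻¹ * π)) with h | h
  · exact h
  · rw [h, (hp.out.odd_of_ne_two h2).neg_one_pow] at h9
    exact absurd h9 (by decide)

omit h3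

variable {κ : Type*} [Fintype κ] [DecidableEq κ]

variable (p κ) in
/-- Translations, regular on the first `p` blocks. -/
def rho : Multiplicative (ZMod p × ZMod p × (κ → ZMod p)) →* Perm ((ZMod p ⊕ κ) × ZMod p) :=
  MonoidHom.mk' (fun x => pm p (Equiv.sumCongr (Equiv.addRight x.toAdd.1) 1) *
    tr (Sum.elim (fun _ => x.toAdd.2.1) x.toAdd.2.2)) fun x y => by
      ext ⟨i | i, a⟩ <;> simp [add_assoc, add_comm (Multiplicative.toAdd x).1, add_comm (Multiplicative.toAdd x).2.1,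
        add_comm ((Multiplicative.toAdd x).2.2 _)]

@[simp] theorem rho_inl (x) (a b : ZMod p) :
    rho p κ x (Sum.inl a, b) = (Sum.inl (a + x.toAdd.1), b + x.toAdd.2.1) := rfl

@[simp] theorem rho_inr (x) (a : κ) (b : ZMod p) :
    rho p κ x (Sum.inr a, b) = (Sum.inr a, b + x.toAdd.2.2 a) := rfl

theorem rho_pow (x) : rho p κ x ^ p ^ 1 = 1 := by
  rw [← map_pow, ← ofAdd_toAdd x, ← ofAdd_nsmul, ← Nat.cast_smul_eq_nsmul (ZMod p), pow_one,
    ZMod.natCast_self, zero_smul, ofAdd_zero, map_one]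

theorem pCentric_R : PCentric p (alternatingGroup _) (rho p κ).range := by
  rintro c - hc -
  have key := fun x y => Perm.congr_fun (hc _ ⟨Multiplicative.ofAdd x, rfl⟩) y
  obtain ⟨s, hs⟩ : ∃ s, (c (Sum.inl 0, 0)).1 = Sum.inl s := by
    rcases h : c (Sum.inl 0, 0) with ⟨s | j, b⟩
    · exact ⟨s, rfl⟩
    · have := key (1, 0, 0) (Sum.inl 0, 0)
      simp [h] at this
      simpa using c.injective (h.trans this)
  have h1 : ∀ j, (c (Sum.inr j, 0)).1 = Sum.inr j := fun j => by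
    have := key (0, 0, Pi.single j 1) (Sum.inr j, 0)
    rcases h : c (Sum.inr j, 0) with ⟨s | j', b⟩
    · simp [h] at this
      simpa using c.injective (h.trans this)
    · by_contra h2
      simp [h, show j' ≠ j by simpa using h2] at this
      simpa using c.injective (h.trans this)
  refine ⟨Multiplicative.ofAdd (s, (c (Sum.inl 0, 0)).2, fun j => (c (Sum.inr j, 0)).2), Equiv.ext ?_⟩
  rintro ⟨a | j, b⟩
  · have := key (a, b, 0) (Sum.inl 0, 0)
    rw [Perm.mul_apply, show c (Sum.inl 0, 0) = (Sum.inl s, _) from Prod.ext hs rfl] at this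
    simpa [add_comm] using this
  · have := key (0, 0, Pi.single j b) (Sum.inr j, 0)
    rw [Perm.mul_apply, show c (Sum.inr j, 0) = (Sum.inr j, _) from Prod.ext (h1 j) rfl] at this
    simpa [add_comm] using this

variable (p κ) in
/-- Permutations of the first `p` blocks. -/
def ext : Perm (ZMod p × ZMod p) →* Perm ((ZMod p ⊕ κ) × ZMod p) :=
  (sumProdDistrib _ _ _).symm.permCongrHom.toMonoidHom.comp ((sumCongrHom _ _).comp (MonoidHom.inl _ _))

@[simp] theorem ext_inl (σ) (a b : ZMod p) : ext p κ σ (Sum.inl a, b) = (Sum.inl (σ (a, b)).1, (σ (a, b)).2) :=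
  rfl

@[simp] theorem ext_inr (σ) (a : κ) (b : ZMod p) : ext p κ σ (Sum.inr a, b) = (Sum.inr a, b) := rfl

theorem ext_mem (h2 : p ≠ 2) {σ : Perm (ZMod p × ZMod p)} (h : ∀ x y, σ (x + y) = σ x + σ y)
    (h' : σ ^ p ^ 1 = 1) : ext p κ σ ∈ closure (pElts p (alternatingGroup _) (rho p κ).range) := by
  have h1 : ext p κ σ ^ p ^ 1 = 1 := by rw [← map_pow, h', map_one]
  refine subset_closure ⟨mem_alt_of_pow h2 h1, mem_normalizer_of_finite ?_, 1, h1⟩
  rintro _ ⟨x, rfl⟩
  refine ⟨Multiplicative.ofAdd ((σ (x.toAdd.1, x.toAdd.2.1)).1, (σ (x.toAdd.1, x.toAdd.2.1)).2, x.toAdd.2.2),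
    ?_⟩
  rw [eq_mul_inv_iff_mul_eq]
  refine Equiv.ext ?_
  rintro ⟨a | j, b⟩
  · simp [← Prod.mk_add_mk, h]
  · simp

theorem torus_mem (h2 : p ≠ 2) (t : (ZMod p)ˣ) :
    dil (Sum.elim (fun _ => t) 1) * pm p (Equiv.sumCongr t⁻¹.mulLeft 1) ∈
      closure (pElts p (alternatingGroup _) (rho p κ).range) := by
  have hA := fun s : ZMod p => ext_mem (κ := κ) h2 (σ := tr fun a => s * a)
    (fun x y => by simp [mul_add, add_add_add_comm]) (tr_pow_p _)
  have hB := fun s : ZMod p => ext_mem (κ := κ) h2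
    (σ := (prodComm _ _ : Perm _) * (tr fun a => s * a) * (prodComm _ _ : Perm _)⁻¹)
    (fun x y => by simp [mul_add, add_add_add_comm]) (by rw [conj_pow, tr_pow_p]; simp)
  convert mul_mem (mul_mem (mul_mem (hA (t - 1)) (hB 1)) (hA ((t : ZMod p)⁻¹ - 1))) (hB (-t)) using 1
  refine Equiv.ext ?_
  rintro ⟨a | j, b⟩
  · have := t.ne_zero
    simp only [Perm.mul_apply, pm_apply, dil_apply, ext_inl, tr_apply, Perm.coe_inv, prodComm_symm,
      prodComm_apply, Prod.swap_prod_mk, Equiv.sumCongr_apply, Sum.map_inl, Sum.elim_inl, Units.mulLeft_apply,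
      Units.val_inv_eq_inv_val, Prod.mk.injEq, Sum.inl.injEq]
    constructor <;> field_simp <;> ring
  · simp only [Perm.mul_apply, pm_apply, dil_apply, ext_inr, Equiv.sumCongr_apply, Sum.map_inr, Sum.elim_inr,
      Perm.one_apply, Pi.one_apply, Units.val_one, one_mul]

theorem simpleFus_model (h3 : 3 ≤ p + Fintype.card κ) :
    SimpleFus p (alternatingGroup ((ZMod p ⊕ κ) × ZMod p)) := by
  replace h3 : 3 ≤ Fintype.card (ZMod p ⊕ κ) := by simpa
  set G := alternatingGroup ((ZMod p ⊕ κ) × ZMod p)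
  have hR : (rho p κ).range ≤ normalizer (E (ZMod p ⊕ κ) p : Set (Perm ((ZMod p ⊕ κ) × ZMod p))) := by
    rintro _ ⟨x, rfl⟩; exact mul_mem (pm_mem_N _) (tr_mem_N _)
  obtain ⟨S, hS, hRS⟩ := exists_sylowIn_ge (p := p) (K := G ⊓ (rho p κ).range)
    (IsPGroup.to_inf_right (by rintro ⟨_, x, rfl⟩; exact ⟨1, Subtype.ext (rho_pow x)⟩))
    (inf_le_inf_left _ hR)
  have hE : E _ p ≤ S := hS.le_of_le_normalizer isPGroup_E (le_inf inf_le_right le_normalizer)
    (hS.le.trans inf_le_right)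
  have hN := normalizer_le h3 hS.isPGroup hE hS.le
  have hS' : SylowIn p S G := by
    by_contra h
    obtain ⟨b, h1, h2, h4, k, h5⟩ := exists_mem_normalizer_of_not_sylowIn hS.isPGroup
      (hS.le.trans inf_le_left) h
    exact h2 (hS.mem_of_mem_normalizer ⟨h1, hN h4⟩ h4 h5)
  refine simpleFus_of_sub hS' (isSimple_of_crit2 hS' (fun h => ?_) (fun T h1 h2 h4 => ?_)
    fun A hA1 hA2 hA3 g hg => hA3 _ _ hE le_rfl (pCentric_E h3) ⟨?_, hg.2⟩)
  · obtain ⟨j, hj, -⟩ := exists_third h3 (Sum.inl 0) (Sum.inl 0)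
    have h1 := hE (tr2_mem hj.symm 1)
    rw [h, mem_bot] at h1
    simpa [hj.symm] using Perm.congr_fun h1 (Sum.inl 0, 0)
  · obtain ⟨t, ht, h5⟩ : ∃ t ∈ T, t.cycleType = ct p := by
      by_cases h : p = 2
      · subst h; exact exists_basic_two hS' h4 h1 h2
      · exact exists_basic_odd h3 h hS' hE h4 h1 h2
    refine le_of_basic hS' h4 ?_ ht (hS'.le (h1 ht)) h5
    rw [Fintype.card_prod, ZMod.card, ct]
    have := hp.out.two_le
    split_ifs with h
    · simp only [Multiset.insert_eq_cons, Multiset.sum_cons, Multiset.sum_singleton]; nlinarith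
    · rw [Multiset.sum_singleton]; nlinarith
  · have hX := (closure_le _).2 (hA1 _ hE)
    by_cases h : p = 2
    · subst h; exact hX (N_le_two h3 ⟨hg.1, hN hg.2⟩)
    refine N_le_odd h3 h (by simp) (Sum.inl 0) hX (fun t => ?_) ⟨hg.1, hN hg.2⟩
    have hR' : (rho p κ).range ≤ S := fun x hx => hRS ⟨by
      obtain ⟨x, rfl⟩ := hx; exact mem_alt_of_pow h (rho_pow x), hx⟩
    have h1 := torus_mem (κ := κ) h t
    have h2 := mul_mem (dil_mem_N (Sum.elim (fun _ => t) 1)) (pm_mem_N (Equiv.sumCongr t⁻¹.mulLeft (1 : Perm κ)))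
    refine ⟨_, _, ?_, (closure_le _).2 (fun _ h => h.1) h1, hA2 _ _ le_sup_right (sup_le hR' hE)
      ⟨hA3 _ _ le_sup_left (sup_le hR' hE) pCentric_R ⟨(closure_le _).2 (hA1 _ hR') h1,
        mem_normalizer_sup ((closure_le _).2 (fun _ h => h.2.1) h1) h2⟩, h2⟩⟩
    simp [Units.ext_iff]

theorem simpleFus_of_card {α β : Type*} [Fintype α] [DecidableEq α] [Fintype β] [DecidableEq β]
    (h : Fintype.card α = Fintype.card β) (h1 : SimpleFus p (alternatingGroup α)) :
    SimpleFus p (alternatingGroup β) := by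
  let e := (Fintype.equivOfCardEq h).permCongrHom
  refine h1.of_equiv ((e.subgroupMap _).trans (MulEquiv.subgroupCongr ?_))
  ext g
  refine mem_map_equiv.trans ?_
  rw [mem_alternatingGroup, mem_alternatingGroup]
  simp [e]

theorem simpleFus_alt (n : ℕ) (hn : 6 ≤ n) (hnp : p ^ 2 ≤ n) (hb : n % p ≤ 1) :
    SimpleFus p (alternatingGroup (Fin n)) := by
  have h1 : p ≤ n / p := (Nat.le_div_iff_mul_le hp.out.pos).2 (by rwa [← pow_two])
  have h2 := simpleFus_model (p := p) (κ := Fin (n / p - p)) (by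
    rw [Fintype.card_fin, Nat.add_sub_cancel' h1]
    rcases hp.out.two_le.eq_or_lt with h | h
    · subst h; omega
    · omega)
  have h3 : Fintype.card ((ZMod p ⊕ Fin (n / p - p)) × ZMod p) = n - n % p := by
    simp only [Fintype.card_prod, Fintype.card_sum, ZMod.card, Fintype.card_fin, Nat.add_sub_cancel' h1]
    have := Nat.div_add_mod' n p
    omega
  rcases hb.eq_or_lt with h | h
  · exact simpleFus_succ (by simpa) fun x => simpleFus_of_card (by simp [h3, h]) h2
  · exact simpleFus_of_card (by rw [h3, Fintype.card_fin]; omega) h2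

end Alt

end Cfsg.Agent.H2
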