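import Cfsg.Agent.Lib.H2.Herm4

/-! The fusion system of `PSL_n` in the defining characteristic is simple (helper2). -/

set_option autoImplicit false
set_option linter.style.haveILetI false
set_option linter.unusedSectionVars false
open Cfsg Subgroup
open scoped Matrix

namespace Cfsg.Agent.H2

open Cfsg.FusionSystem Cfsg.Agent.H7

namespace SLF

variable {K V : Type*} [Field K] [AddCommGroup V] [Module K V]

/-- The special linear group. -/
noncomputable abbrev G (K V : Type*) [Field K] [AddCommGroup V] [Module K V] : Subgroup (V ≃ₗ[K] V) :=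
  (LinearEquiv.det (R := K) (M := V)).ker

open Classical in
/-- Transvections. -/
noncomputable def tv (f : Module.Dual K V) (v : V) : V ≃ₗ[K] V :=
  if h : f v = 0 then LinearEquiv.transvection h else 1

theorem tv_apply {f : Module.Dual K V} {v : V} (h : f v = 0) (x : V) : tv f v x = x + f x • v := by
  rw [tv, dif_pos h]; rfl

theorem tv_mul {f f' : Module.Dual K V} {v : V} (h : f v = 0) (h' : f' v = 0) :
    tv f v * tv f' v = tv (f + f') v := by
  ext x
  rw [LinearEquiv.mul_apply, tv_apply h, tv_apply h', tv_apply (by simp [h, h'])]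
  simp [h]; module

theorem tv_zero (v : V) : tv (0 : Module.Dual K V) v = 1 := by
  ext x; rw [tv_apply (by simp)]; simp

theorem tv_inv {f : Module.Dual K V} {v : V} (h : f v = 0) : (tv f v)⁻¹ = tv (-f) v := by
  rw [inv_eq_iff_mul_eq_one, tv_mul h (by simp [h]), add_neg_cancel, tv_zero]

theorem tv_conj {f : Module.Dual K V} {v : V} (h : f v = 0) (g : V ≃ₗ[K] V) :
    g * tv f v * g⁻¹ = tv (f ∘ₗ g⁻¹.toLinearMap) (g v) := by
  ext x
  rw [LinearEquiv.mul_apply, LinearEquiv.mul_apply, tv_apply h, tv_apply (by simpa)]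
  simp

theorem exists_dual {W : Submodule K V} {x : V} (h : x ∉ W) :
    ∃ f : Module.Dual K V, f x = 1 ∧ ∀ w ∈ W, f w = 0 := by
  obtain ⟨f, h1, h2⟩ := W.exists_le_ker_of_notMem h
  exact ⟨(f x)⁻¹ • f, by simp [h1], fun w hw => by simp [LinearMap.mem_ker.1 (h2 hw)]⟩

/-- The unipotent radical of the stabiliser of `E`. -/
def U (E : Submodule K V) : Subgroup (V ≃ₗ[K] V) where
  carrier := {g | (∀ x ∈ E, g x = x) ∧ ∀ x, g x - x ∈ E}
  one_mem' := by simp
  mul_mem' := fun {g h} hg hh => ⟨fun x hx => by rw [LinearEquiv.mul_apply, hh.1 x hx, hg.1 x hx],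
    fun x => by simpa using E.add_mem (hg.2 (h x)) (hh.2 x)⟩
  inv_mem' := fun {g} hg => ⟨fun x hx => by
    conv_lhs => rw [← hg.1 x hx]
    simp, fun x => by simpa using E.neg_mem (hg.2 (g⁻¹ x))⟩

theorem tv_mem_U {E : Submodule K V} {f : Module.Dual K V} {v : V} (h : ∀ x ∈ E, f x = 0) (hv : v ∈ E) :
    tv f v ∈ U E :=
  ⟨fun x hx => by rw [tv_apply (h v hv), h x hx]; simp,
    fun x => by rw [tv_apply (h v hv)]; simpa using E.smul_mem _ hv⟩

theorem tv_mem_R {f : Module.Dual K V} {v : V} (h : f v = 0) : tv f v ∈ U (K ∙ v) :=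
  tv_mem_U (fun x hx => by
    obtain ⟨a, rfl⟩ := Submodule.mem_span_singleton.1 hx
    simp [h]) (Submodule.mem_span_singleton_self v)

theorem R_eq {v : V} (hv : v ≠ 0) {r : V ≃ₗ[K] V} (hr : r ∈ U (K ∙ v)) : ∃ f, f v = 0 ∧ r = tv f v := by
  obtain ⟨φ, h1, -⟩ := exists_dual (K := K) (W := ⊥) (x := v) (by simpa)
  have h2 : (φ ∘ₗ (r.toLinearMap - LinearMap.id)) v = 0 := by
    simp [hr.1 v (Submodule.mem_span_singleton_self v)]
  refine ⟨_, h2, LinearEquiv.ext fun x => ?_⟩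
  obtain ⟨a, ha⟩ := Submodule.mem_span_singleton.1 (hr.2 x)
  rw [tv_apply h2, ← sub_eq_iff_eq_add', ← ha]
  simp only [LinearMap.comp_apply, LinearMap.sub_apply, LinearEquiv.coe_coe, LinearMap.id_apply, ← ha,
    map_smul, h1, smul_eq_mul, mul_one]

theorem mem_normalizer_U [Finite V] {E : Submodule K V} {g : V ≃ₗ[K] V} (h : ∀ x ∈ E, g x ∈ E) :
    g ∈ normalizer (U E : Set (V ≃ₗ[K] V)) := by
  have h' : ∀ z ∈ E, g⁻¹ z ∈ E := fun z hz => by
    obtain ⟨n, hn, h4⟩ := (isOfFinOrder_of_finite g).exists_pow_eq_one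
    obtain ⟨n, rfl⟩ := Nat.exists_eq_succ_of_ne_zero hn.ne'
    rw [pow_succ, mul_eq_one_iff_eq_inv] at h4
    rw [← h4]
    clear h4 hn
    induction n with
    | zero => exact hz
    | succ n ih => rw [pow_succ', LinearEquiv.mul_apply]; exact h _ ih
  refine mem_normalizer_of_finite fun r hr => ⟨fun x hx => ?_, fun x => ?_⟩
  · rw [LinearEquiv.mul_apply, LinearEquiv.mul_apply, hr.1 _ (h' x hx)]; simp
  · simpa using h _ (hr.2 (g⁻¹ x))

theorem span_mem {v : V} {g : V ≃ₗ[K] V} {a : K} (h : g v = a • v) : ∀ x ∈ K ∙ v, g x ∈ K ∙ v := by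
  intro x hx
  obtain ⟨b, rfl⟩ := Submodule.mem_span_singleton.1 hx
  exact Submodule.mem_span_singleton.2 ⟨b * a, by simp [h, smul_smul]⟩

theorem exists_notMem [FiniteDimensional K V] (h : 3 ≤ Module.finrank K V) (x y : V) :
    ∃ z, z ∉ Submodule.span K {x, y} := by
  by_contra! h1
  have h2 := finrank_le_of_span_eq_top (R := K) (v := ![x, y]) (eq_top_iff.2 fun z _ => by
    simpa [Matrix.range_cons, Set.pair_comm] using h1 z)
  simp at h2; omega

variable {p : ℕ} [hp : Fact p.Prime] [CharP K p]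

theorem U_pow {E : Submodule K V} {g : V ≃ₗ[K] V} (hg : g ∈ U E) : g ^ p ^ 2 = 1 := by
  refine pow_eq_one_of_chain (fun i x => match i with
    | 0 => True
    | 1 => x ∈ E
    | _ => x = 0) (fun _ => trivial) (fun i hi x hx => ?_) fun _ h => h
  interval_cases i
  exacts [hg.2 x, sub_eq_zero.2 (hg.1 x hx)]

theorem isPGroup_U (E : Submodule K V) : IsPGroup p (U E) := fun g => ⟨2, Subtype.ext (U_pow g.2)⟩

include hp in
theorem U_le_G (E : Submodule K V) : U E ≤ G K V := fun _ hg => det_eq_one_of_pow (p := p) (U_pow hg)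

theorem pCentric_U {E : Submodule K V} (h0 : E ≠ ⊥) (h1 : E ≠ ⊤) : PCentric p (G K V) (U E) := by
  rintro c - hc ⟨k, hk⟩
  have key : ∀ z ∈ E, ∀ f : Module.Dual K V, (∀ w ∈ E, f w = 0) → ∀ x, f x • c z = f (c x) • z :=
    fun z hz f hf x => by
      have h2 := LinearEquiv.congr_fun (hc _ (tv_mem_U hf hz)) x
      rw [LinearEquiv.mul_apply, LinearEquiv.mul_apply, tv_apply (hf z hz), tv_apply (hf z hz), map_add,
        map_smul] at h2
      exact (add_left_cancel h2).symm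
  have h2 : ∀ z ∈ E, c z = z := fun z hz => by
    obtain ⟨x, hx⟩ : ∃ x, x ∉ E := by by_contra! h; exact h1 (eq_top_iff.2 fun x _ => h x)
    obtain ⟨f, h3, h4⟩ := exists_dual hx
    exact apply_eq_of_eigen hk (by simpa [h3] using key z hz f h4 x)
  refine ⟨h2, fun x => ?_⟩
  by_contra h3
  obtain ⟨f, h4, h5⟩ := exists_dual h3
  obtain ⟨z, hz, hz0⟩ := (Submodule.ne_bot_iff _).1 h0
  have h6 := key z hz f h5 x
  rw [h2 z hz] at h6
  rw [map_sub, ← smul_left_injective K hz0 h6, sub_self] at h4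
  exact zero_ne_one h4

variable (p) in
/-- The group generated by the `p`-elements fixing `W` pointwise. -/
def Y (W : Submodule K V) : Subgroup (V ≃ₗ[K] V) :=
  closure {g | (∀ x ∈ W, g x = x) ∧ ∃ k, g ^ p ^ k = 1}

theorem Y_le_G (W : Submodule K V) : Y p W ≤ G K V :=
  (closure_le _).2 fun _ ⟨_, _, h⟩ => det_eq_one_of_pow h

omit hp [CharP K p] in
theorem Y_fix {W : Submodule K V} {g : V ≃ₗ[K] V} (hg : g ∈ Y p W) {x : V} (hx : x ∈ W) : g x = x :=
  (closure_le (MulAction.stabilizer _ x)).2 (fun _ h => h.1 x hx) hg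

theorem tv_mem_Y {W : Submodule K V} {f : Module.Dual K V} {v : V} (h : f v = 0) (h' : ∀ w ∈ W, f w = 0) :
    tv f v ∈ Y p W :=
  subset_closure ⟨fun x hx => by rw [tv_apply h, h' x hx]; simp, 2, U_pow (tv_mem_R h)⟩

theorem exists_Y_apply {W : Submodule K V} {x y : V} (hx : x ∉ W) (hy : y ∉ W) (h : W ⊔ K ∙ x ≠ ⊤) :
    ∃ r ∈ Y p W, r x = y := by
  have key : ∀ x y : V, x ∉ W → y ∉ W ⊔ K ∙ x → ∃ r ∈ Y p W, r x = y := fun x y hx hy => by
    obtain ⟨f, h1, h2⟩ := exists_dual (W := W ⊔ K ∙ (y - x)) (x := x) fun h => by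
      obtain ⟨w, hw, z, hz, e⟩ := Submodule.mem_sup.1 h
      obtain ⟨a, rfl⟩ := Submodule.mem_span_singleton.1 hz
      have ha : a ≠ 0 := by rintro rfl; exact hx (by rw [← e]; simpa)
      refine hy (Submodule.mem_sup.2 ⟨-a⁻¹ • w, W.smul_mem _ hw, (1 + a⁻¹) • x,
        Submodule.smul_mem _ _ (Submodule.mem_span_singleton_self x), ?_⟩)
      refine smul_right_injective V ha ?_
      simp only [smul_add, smul_smul, mul_neg, mul_add, mul_inv_cancel₀ ha]
      linear_combination (norm := module) -e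
    have h3 := h2 _ (Submodule.mem_sup_right (Submodule.mem_span_singleton_self _))
    exact ⟨_, tv_mem_Y h3 fun w hw => h2 w (Submodule.mem_sup_left hw), by simp [tv_apply h3, h1]⟩
  by_cases h1 : y ∈ W ⊔ K ∙ x
  · obtain ⟨z, hz⟩ : ∃ z, z ∉ W ⊔ K ∙ x := by by_contra! h2; exact h (eq_top_iff.2 fun x _ => h2 x)
    obtain ⟨r, hr, e⟩ := key x z hx hz
    obtain ⟨r', hr', e'⟩ := key y z hy fun h2 => hz
      (sup_le le_sup_left ((Submodule.span_singleton_le_iff_mem _ _).2 h1) h2)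
    exact ⟨r'⁻¹ * r, mul_mem (inv_mem hr') hr, by rw [LinearEquiv.mul_apply, e, ← e']; simp⟩
  · exact key x y hx h1

theorem mem_Y [FiniteDimensional K V] {W : Submodule K V} {g : V ≃ₗ[K] V} (hg : g ∈ G K V)
    (h : ∀ x ∈ W, g x = x) : g ∈ Y p W := by
  induction W using WellFoundedGT.induction generalizing g with
  | ind W ih =>
  by_cases h1 : W = ⊤
  · rw [show g = 1 from LinearEquiv.ext fun x => h x (h1 ▸ trivial)]; exact one_mem _
  obtain ⟨x, hx⟩ : ∃ x, x ∉ W := by by_contra! h2; exact h1 (eq_top_iff.2 fun x _ => h2 x)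
  by_cases h2 : W ⊔ K ∙ x = ⊤
  · obtain ⟨f, h3, h4⟩ := exists_dual hx
    have h5 : g.toLinearMap = LinearMap.transvection f (g x - x) := by
      ext y
      obtain ⟨w, hw, z, hz, rfl⟩ := Submodule.mem_sup.1 (h2 ▸ trivial : y ∈ W ⊔ K ∙ x)
      obtain ⟨a, rfl⟩ := Submodule.mem_span_singleton.1 hz
      simp [LinearMap.transvection.apply, h w hw, h4 w hw, h3, smul_sub]
    have h6 := congrArg LinearMap.det h5
    rw [← LinearEquiv.coe_det, show LinearEquiv.det g = 1 from hg, LinearMap.transvection.det,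
      Units.val_one, left_eq_add] at h6
    rw [show g = tv f (g x - x) from LinearEquiv.ext fun y => by
      rw [tv_apply h6]; exact LinearMap.congr_fun h5 y]
    exact tv_mem_Y h6 h4
  · obtain ⟨r, hr, e⟩ := exists_Y_apply (p := p) hx (y := g x) (fun h3 => hx (by
      rwa [← g.injective (h _ h3)])) h2
    have h3 := ih (W ⊔ K ∙ x) (left_lt_sup.2 fun h => hx (h (Submodule.mem_span_singleton_self x)))
      (mul_mem (inv_mem (Y_le_G W hr)) hg) fun y hy => by
        obtain ⟨w, hw, z, hz, rfl⟩ := Submodule.mem_sup.1 hy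
        obtain ⟨a, rfl⟩ := Submodule.mem_span_singleton.1 hz
        rw [LinearEquiv.mul_apply, map_add, map_smul, h w hw, ← e, map_add, Y_fix (inv_mem hr) hw]
        simp
    rw [← mul_mem_cancel_left (inv_mem hr)]
    refine Subgroup.closure_mono ?_ h3
    exact fun y hy => ⟨fun z hz => hy.1 z (Submodule.mem_sup_left hz), hy.2⟩

variable [Finite V]

theorem exists_fixed_mod {P : Subgroup (V ≃ₗ[K] V)} (hP : IsPGroup p P) {W : Submodule K V}
    (hW : ∀ g ∈ P, ∀ x ∈ W, g x ∈ W) (h : W ≠ ⊤) : ∃ x, x ∉ W ∧ ∀ g ∈ P, g x - x ∈ W := by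
  letI : MulAction P (V ⧸ W) :=
    { smul := fun g => W.mapQ W g.1.toLinearMap (hW g g.2)
      one_smul := fun x => by induction x using Submodule.Quotient.induction_on; rfl
      mul_smul := fun _ _ x => by induction x using Submodule.Quotient.induction_on; rfl }
  haveI : Finite (V ⧸ W) := Finite.of_surjective _ W.mkQ_surjective
  obtain ⟨w, hw⟩ : ∃ x, x ∉ W := by by_contra! h2; exact h (eq_top_iff.2 fun x _ => h2 x)
  have h1 : addOrderOf (Submodule.Quotient.mk w : V ⧸ W) = p := addOrderOf_eq_prime (by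
    rw [← Nat.cast_smul_eq_nsmul K, CharP.cast_eq_zero, zero_smul]) (by simpa)
  obtain ⟨v, hv, hv0⟩ := hP.exists_fixed_point_of_prime_dvd_card_of_fixed_point (V ⧸ W)
    (h1 ▸ addOrderOf_dvd_natCard _) (a := 0) fun g => map_zero (W.mapQ W g.1.toLinearMap (hW g g.2))
  induction v using Submodule.Quotient.induction_on with
  | H v => exact ⟨v, fun h => hv0 ((Submodule.Quotient.mk_eq_zero W).2 h).symm,
      fun g hg => (Submodule.Quotient.eq W).1 (hv ⟨g, hg⟩)⟩

variable {S : Subgroup (V ≃ₗ[K] V)} (hS : SylowIn p S (G K V))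
include hS

theorem U_le {W : Submodule K V} (hW : ∀ g ∈ S, ∀ x ∈ W, g x ∈ W) : U W ≤ S :=
  hS.le_of_le_normalizer (isPGroup_U W) (U_le_G (p := p) W) fun g hg => mem_normalizer_U (hW g hg)

theorem le_of_tv {T : Subgroup (V ≃ₗ[K] V)} (hT : ∀ f w, f w = 0 → tv f w ∈ S → tv f w ∈ T) : S ≤ T := by
  haveI : Finite (Submodule K V) := Finite.of_injective _ SetLike.coe_injective
  suffices key : ∀ W : Submodule K V, (∀ g ∈ S, ∀ x ∈ W, g x ∈ W) → ∀ s ∈ S, (∀ x ∈ W, s x = x) → s ∈ T from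
    fun s hs => key ⊥ (by simp) s hs (by simp)
  intro W
  induction W using WellFoundedGT.induction with
  | ind W ih =>
  intro hW s hs h
  by_cases h1 : W = ⊤
  · rw [show s = 1 from LinearEquiv.ext fun x => h x (h1 ▸ trivial)]; exact one_mem _
  obtain ⟨x, hx, h2⟩ := exists_fixed_mod hS.isPGroup hW h1
  obtain ⟨f, h3, h4⟩ := exists_dual hx
  have h5 := tv_mem_U h4 (h2 s hs)
  rw [← mul_mem_cancel_left (inv_mem (hT _ _ (h4 _ (h2 s hs)) (U_le hS hW h5)))]
  refine ih (W ⊔ K ∙ x) (left_lt_sup.2 fun h => hx (h (Submodule.mem_span_singleton_self x)))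
    (fun g hg y hy => ?_) _ (mul_mem (inv_mem (U_le hS hW h5)) hs) fun y hy => ?_ <;>
  obtain ⟨w, hw, z, hz, rfl⟩ := Submodule.mem_sup.1 hy <;>
  obtain ⟨a, rfl⟩ := Submodule.mem_span_singleton.1 hz
  · refine Submodule.mem_sup.2 ⟨g w + a • (g x - x), add_mem (hW g hg w hw) (W.smul_mem _ (h2 g hg)), _, hz, ?_⟩
    simp [smul_sub, add_assoc]
  · rw [LinearEquiv.mul_apply, LinearEquiv.coe_inv, LinearEquiv.symm_apply_eq, tv_apply (h4 _ (h2 s hs))]
    simp [h w hw, h4 w hw, h3, smul_sub]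

variable (h3 : 3 ≤ Module.finrank K V) {v : V} (hv0 : v ≠ 0) (hv : ∀ g ∈ S, g v = v)
include h3 hv0 hv

theorem sc {T : Subgroup (V ≃ₗ[K] V)} (hTS : T ≤ S) (h0 : T ≠ ⊥)
    (hT : ∀ x ∈ T, ∀ y ∈ G K V, y * x * y⁻¹ ∈ S → y * x * y⁻¹ ∈ T) : S ≤ T := by
  have hR : U (K ∙ v) ≤ S := U_le hS fun g hg => span_mem (a := 1) (by simpa using hv g hg)
  have hne : ∀ x : V, (K ∙ x) ≠ ⊤ := fun x h => by
    obtain ⟨z, hz⟩ := exists_notMem h3 x x
    exact hz (by simp [h])
  obtain ⟨t, ht, ht1, htp, htc⟩ := H9.exists_mem_centralizer_ne_one (hS.isPGroup.to_le hTS)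
    hS.isPGroup (fun s hs => mem_normalizer_of_finite fun x hx => hT x hx s (hS.le hs)
      (mul_mem (mul_mem hs (hTS hx)) (inv_mem hs))) h0
  obtain ⟨f, hf, rfl⟩ := R_eq hv0 (pCentric_U (by simpa) (hne v) t (hS.le (hTS ht))
    (fun r hr => htc r (hR hr)) ⟨1, by rwa [pow_one]⟩)
  obtain ⟨u, hu⟩ : ∃ u, f u = 1 := by
    obtain ⟨u, hu⟩ : ∃ u, f u ≠ 0 := by
      by_contra! h; exact ht1 (by rw [show f = 0 from LinearMap.ext h, tv_zero])
    exact ⟨(f u)⁻¹ • u, by simp [hu]⟩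
  obtain ⟨z, hz⟩ := exists_notMem h3 v u
  obtain ⟨h', h4, h5⟩ := exists_dual hz
  have h6 := h5 v (Submodule.subset_span (by simp))
  have h7 := h5 u (Submodule.subset_span (by simp))
  have k1 : ∀ h : Module.Dual K V, h v = 0 → h (z - f z • u) ≠ 0 → tv h v ∈ T := fun h h1 h2 => by
    obtain ⟨w, h8, h9⟩ : ∃ w, h w = 0 ∧ f w = 1 :=
      ⟨u - (h u / h (z - f z • u)) • (z - f z • u), by
        rw [map_sub, map_smul, smul_eq_mul, div_mul_cancel₀ _ h2, sub_self], by simp [hu]⟩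
    have h10 := tv_conj hf (tv h w)⁻¹
    rw [inv_inv, tv_inv h8, tv_apply (by simpa), show f ∘ₗ (tv h w).toLinearMap = h + f from
      LinearMap.ext fun x => by simp [tv_apply h8, h9, add_comm], ← tv_inv h8] at h10
    simp only [LinearMap.neg_apply, h1, neg_zero, zero_smul, add_zero] at h10
    have h11 := hT _ ht (tv h w)⁻¹ (inv_mem (U_le_G (p := p) _ (tv_mem_R h8))) (by
      rw [inv_inv, h10]; exact hR (tv_mem_R (by simp [h1, hf])))
    rwa [inv_inv, h10, ← tv_mul h1 hf, mul_mem_cancel_right ht] at h11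
  have k2 : U (K ∙ v) ≤ T := fun r hr => by
    obtain ⟨h, h1, rfl⟩ := R_eq hv0 hr
    by_cases h2 : h (z - f z • u) = 0
    · have h8 := k1 (h + h') (by simp [h1, h6]) (by rw [LinearMap.add_apply, h2]; simp [h4, h7])
      rwa [← tv_mul h1 h6, mul_mem_cancel_right (k1 h' h6 (by simp [h4, h7]))] at h8
    · exact k1 h h1 h2
  refine le_of_tv hS fun h w hw h1 => ?_
  by_cases hw0 : w = 0
  · rw [show tv h w = 1 from LinearEquiv.ext fun x => by rw [tv_apply hw, hw0]; simp]; exact one_mem _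
  obtain ⟨r, hr, e⟩ := exists_Y_apply (p := p) (W := ⊥) (x := w) (y := v) (by simpa) (by simpa)
    (by simpa using hne w)
  have h2 := tv_conj hw r
  simpa [mul_assoc] using hT _ (k2 (x := r * tv h w * r⁻¹) (by
    rw [h2, e]; exact tv_mem_R (by simpa [← e]))) r⁻¹ (inv_mem (Y_le_G _ hr)) (by simpa [mul_assoc])

theorem aut {A : Subgroup (V ≃ₗ[K] V)}
    (hA : ∀ R ≤ S, PCentric p (G K V) R →
      closure (pElts p (G K V) R) ⊓ normalizer (S : Set (V ≃ₗ[K] V)) ≤ A) :
    G K V ⊓ normalizer (S : Set (V ≃ₗ[K] V)) ≤ A := by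
  rintro x ⟨hx, hn⟩
  have hS1 : ∀ g ∈ S, ∀ x ∈ K ∙ v, g x ∈ K ∙ v := fun g hg => span_mem (a := 1) (by simpa using hv g hg)
  have hR : U (K ∙ v) ≤ S := U_le hS hS1
  have hne : (K ∙ v) ≠ ⊤ := fun h => by
    obtain ⟨z, hz⟩ := exists_notMem h3 v v
    exact hz (by simp [h])
  obtain ⟨a, ha⟩ : ∃ a : K, a • v = x v := by
    rw [← Submodule.mem_span_singleton]
    by_contra h
    obtain ⟨f, h1, h2⟩ := exists_dual h
    have h4 := h2 v (Submodule.mem_span_singleton_self v)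
    have h5 := hv _ (inv_conj_mem_of_mem_normalizer hn (hR (tv_mem_R h4)))
    rw [LinearEquiv.mul_apply, LinearEquiv.mul_apply, tv_apply h4, h1] at h5
    exact hv0 (by simpa using h5)
  have ha0 : a ≠ 0 := by
    rintro rfl
    exact hv0 (by simpa using ha.symm)
  obtain ⟨e, he0, he1⟩ := exists_fixed_mod hS.isPGroup hS1 hne
  set E : Submodule K V := Submodule.span K {v, e} with hE
  have hvE : v ∈ E := Submodule.subset_span (by simp)
  have he : e ∈ E := Submodule.subset_span (by simp)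
  have hN : ∀ y : V ≃ₗ[K] V, y v ∈ E → y e ∈ E → ∀ z ∈ E, y z ∈ E := fun y h1 h2 z hz => by
    obtain ⟨s, t, rfl⟩ := Submodule.mem_span_pair.1 hz
    rw [map_add, map_smul, map_smul]
    exact E.add_mem (E.smul_mem _ h1) (E.smul_mem _ h2)
  have hSE : ∀ s ∈ S, ∀ z ∈ E, s z ∈ E := fun s hs =>
    hN s (by rwa [hv s hs]) (by
      simpa using E.add_mem ((Submodule.span_singleton_le_iff_mem _ _).2 hvE (he1 s hs)) he)
  have hA1 := hA _ (U_le hS hSE) (pCentric_U ((Submodule.ne_bot_iff _).2 ⟨v, hvE, hv0⟩) fun h => by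
    obtain ⟨z, hz⟩ := exists_notMem h3 v e
    exact hz (by rw [← hE, h]; trivial))
  have hA2 := hA _ hR (pCentric_U (by simpa) hne)
  set X := closure (pElts p (G K V) (U E))
  obtain ⟨h, hh, h1⟩ : ∃ h ∈ X, h v = a • v := by
    have k : ∀ v e : V, e ∉ K ∙ v → ∀ t : K, ∃ r ∈ U (K ∙ v), r v = v ∧ r e = e + t • v := fun v e h t => by
      obtain ⟨f, h1, h2⟩ := exists_dual h
      have h4 : (t • f) v = 0 := by simp [h2 v (Submodule.mem_span_singleton_self v)]
      exact ⟨_, tv_mem_R h4, by simp [tv_apply h4, h4], by simp [tv_apply h4, h1]⟩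
    have k1 : ∀ t : K, ∃ r ∈ X, r v = v ∧ r e = e + t • v := fun t => by
      obtain ⟨r, hr, h1, h2⟩ := k v e he0 t
      exact ⟨r, subset_closure ⟨U_le_G (p := p) _ hr, mem_normalizer_U (hN r (by rwa [h1])
        (h2 ▸ E.add_mem he (E.smul_mem _ hvE))), 2, U_pow hr⟩, h1, h2⟩
    have k2 : ∀ t : K, ∃ r ∈ X, r e = e ∧ r v = v + t • e := fun t => by
      obtain ⟨r, hr, h1, h2⟩ := k e v (fun h => he0 (by
        obtain ⟨b, rfl⟩ := Submodule.mem_span_singleton.1 h
        rw [Submodule.span_singleton_smul_eq (Ne.isUnit (left_ne_zero_of_smul hv0))]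
        exact Submodule.mem_span_singleton_self e)) t
      exact ⟨r, subset_closure ⟨U_le_G (p := p) _ hr, mem_normalizer_U (hN r
        (h2 ▸ E.add_mem hvE (E.smul_mem _ he)) (by rwa [h1])), 2, U_pow hr⟩, h1, h2⟩
    obtain ⟨r1, hr1, -, h1⟩ := k2 1
    obtain ⟨r2, hr2, h2, h3⟩ := k1 (a - 1)
    obtain ⟨r3, hr3, h4, h5⟩ := k2 (-a⁻¹)
    refine ⟨r3 * r2 * r1, mul_mem (mul_mem hr3 hr2) hr1, ?_⟩
    simp only [LinearEquiv.mul_apply, h1, h2, h3, h4, h5, map_add, map_smul]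
    match_scalars <;> field_simp <;> ring
  have hXG : X ≤ G K V := (closure_le _).2 fun _ h => h.1
  have hS' : SylowIn p S (X ⊓ MulAction.stabilizer _ v) := hS.mono_right (fun s hs =>
    ⟨subset_closure ⟨hS.le hs, mem_normalizer_U (hSE s hs),
      (hS.isPGroup ⟨s, hs⟩).imp fun k hk => congrArg Subtype.val hk⟩, hv s hs⟩) (inf_le_left.trans hXG)
  obtain ⟨n, hn1, hn2⟩ := hS'.frattini (b := h) (mem_normalizer_inf (le_normalizer hh)
    (mem_normalizer_of_finite fun y hy => by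
      have h2 : h⁻¹ v = a⁻¹ • v := by
        rw [eq_inv_smul_iff₀ ha0, ← map_smul, ← h1]; simp
      change h (y (h⁻¹ v)) = v
      rw [h2, map_smul, show y v = v from hy, map_smul, h1, smul_smul, inv_mul_cancel₀ ha0, one_smul]))
  have h2 : n⁻¹ * h ∈ X := mul_mem (inv_mem hn1.1) hh
  rw [← mul_mem_cancel_left (inv_mem (hA1 ⟨h2, hn2⟩))]
  refine hA2 ⟨Subgroup.closure_mono ?_ (mem_Y (p := p) (W := K ∙ v) (mul_mem (inv_mem (hXG h2)) hx)
    fun y hy => ?_), mul_mem (Subgroup.inv_mem _ hn2) hn⟩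
  · rintro y ⟨h4, k, h5⟩
    exact ⟨det_eq_one_of_pow h5, mem_normalizer_U fun z hz => by rwa [h4 z hz], k, h5⟩
  obtain ⟨b, rfl⟩ := Submodule.mem_span_singleton.1 hy
  have h3 : n v = v := hn1.2
  rw [map_smul, mul_inv_rev, inv_inv, LinearEquiv.mul_apply, LinearEquiv.mul_apply, ← ha, map_smul, h3, ← h1]
  simp

omit hS hv0 hv in
theorem simpleFus : SimpleFus p (G K V) ∧ (Nat.card (center (G K V))).Coprime p := by
  obtain ⟨S, hS⟩ := exists_sylowIn p (G K V)
  obtain ⟨z, hz⟩ := exists_notMem h3 0 0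
  obtain ⟨v, -, hv0, hv⟩ := exists_fixed_vector hS.isPGroup (W := ⊤) (fun _ _ _ _ => trivial) (w := z) trivial
    (by simpa using hz)
  have hne : ∀ x : V, (K ∙ x) ≠ ⊤ := fun x h => by
    obtain ⟨z, hz⟩ := exists_notMem h3 x x
    exact hz (by simp [h])
  obtain ⟨w, hw⟩ := exists_notMem h3 v v
  rw [Set.pair_eq_singleton] at hw
  obtain ⟨f, h1, h2⟩ := exists_dual hw
  have h4 := h2 v (Submodule.mem_span_singleton_self v)
  refine ⟨simpleFus_of_sub hS (isSimple_of_crit hS (fun h5 => ?_)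
    (fun T h1 h2 h4 => sc hS h3 hv0 hv h1 h2 h4) fun A _ _ hA => aut hS h3 hv0 hv hA),
    coprime_card_of_forall fun c hc => ?_⟩
  · have h6 := U_le hS (fun g hg => span_mem (a := 1) (by simpa using hv g hg)) (tv_mem_R h4)
    rw [h5, mem_bot] at h6
    have h7 := LinearEquiv.congr_fun h6 w
    simp [tv_apply h4, h1, hv0] at h7
  · have key : ∀ z : V, z ≠ 0 → c.1.1 ∈ U (K ∙ z) := fun z hz0 =>
      pCentric_U (by simpa) (hne z) _ c.1.2
        (fun r hr => congrArg Subtype.val (mem_center_iff.1 c.2 ⟨r, U_le_G (p := p) _ hr⟩))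
        ⟨1, by rw [pow_one]; exact congrArg (·.1.1) hc⟩
    refine Subtype.ext (Subtype.ext (LinearEquiv.ext fun x => ?_))
    obtain ⟨a, ha⟩ := Submodule.mem_span_singleton.1 ((key w fun h => hw (h ▸ zero_mem _)).2 x)
    have h5 := h2 _ ((key v hv0).2 x)
    rw [← ha, map_smul, h1, smul_eq_mul, mul_one] at h5
    rw [h5, zero_smul] at ha
    exact sub_eq_zero.1 ha.symm

end SLF

theorem simpleFus_PSL {K : Type*} [Field K] [Fintype K] (p : ℕ) [Fact p.Prime] [CharP K p] (n : ℕ)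
    (hn : 3 ≤ n) : SimpleFus p (Matrix.ProjectiveSpecialLinearGroup (Fin n) K) := by
  refine simpleFus_quotient_of_range (SLF.simpleFus (K := K) (V := Fin n → K) (by simpa))
    (matRep (slToMat n K)) (matRep_injective fun x y e => Subtype.ext e) ?_
  refine le_antisymm ?_ fun g hg => ?_
  · rintro _ ⟨A, rfl⟩
    exact Units.ext ((det_matRep _ _).trans A.2)
  · refine ⟨⟨LinearMap.toMatrix' g.toLinearMap, ?_⟩, LinearEquiv.ext fun x => ?_⟩
    · rw [LinearMap.det_toMatrix', ← LinearEquiv.coe_det, show LinearEquiv.det g = 1 from hg]; rfl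
    · change LinearMap.toMatrix' g.toLinearMap *ᵥ x = g x
      rw [← Matrix.toLin'_apply, Matrix.toLin'_toMatrix']; rfl

end Cfsg.Agent.H2
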