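import Cfsg.Agent.Lib.H5.Third
import Cfsg.Agent.Lib.H3.Cover
import Cfsg.Agent.Lib.H4.Misc2

/-! General block lemmas used for symmetric and alternating groups (helper2). -/

set_option autoImplicit false
set_option linter.style.haveILetI false
set_option linter.unusedSectionVars false

namespace Cfsg.Agent.H2.Blk

open MonoidAlgebra Cfsg Cfsg.Agent.H3 Cfsg.Agent.H5 Subgroup
open Cfsg.Agent.H6 (cj SylIn mem_cj conj_mem_cj cj_cj cj_one cj_inv_cj cj_cj_inv cj_mono cj_le_iff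
  cj_le_iff_le_cj card_cj isPGroup_cj cj_centralizer cj_centralizer_singleton)
open scoped ComplexConjugate

variable {p : ℕ} {M : Ideal AlgInt} [PMod p M] [hp : Fact p.Prime] {G : Type*} [Group G] [Finite G]

/-- Osima's criterion. -/
theorem blockIdem_mem_of_orth {A : Set (IrrCharacter G)}
    (h : ∀ x y : G, p ∣ orderOf x → ¬ p ∣ orderOf y →
      ∑ χ ∈ fs A, (χ : G → ℂ) x * conj ((χ : G → ℂ) y) = 0) : blockIdem A ∈ OG M G := by
  refine mem_OG.2 fun g => ?_
  rw [coeff_blockIdem, blockCoeff_eq]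
  by_cases hg : p ∣ orderOf g
  · have h1 := congrArg conj (h g 1 hg pReg_one)
    simp only [map_sum, map_mul, Complex.conj_conj, map_zero, mul_comm (conj _)] at h1
    rw [h1, mul_zero]; exact zero_mem _
  obtain ⟨P⟩ : Nonempty (Sylow p G) := inferInstance
  have := Fintype.ofFinite (P : Subgroup G)
  have h1 : ∑ χ ∈ fs A, (χ : G → ℂ) 1 * conj ((χ : G → ℂ) g) = Nat.card P * ∑ χ ∈ fs A,
      ((Nat.card P : ℂ)⁻¹ * ∑ x : (P : Subgroup G), (χ : G → ℂ) (1 * x)) * conj ((χ : G → ℂ) g) := by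
    simp only [mul_assoc, ← Finset.mul_sum, one_mul]
    rw [mul_inv_cancel_left₀ (card_ne_zero_complex _)]
    simp only [Finset.sum_mul]
    rw [Finset.sum_comm, Finset.sum_eq_single (1 : (P : Subgroup G))
      (fun x _ hx => h x g ?_ hg) (by simp)]
    · rfl
    · by_contra h2
      exact hx (Subtype.ext (eq_one_of_pElt_of_pReg (pElt_of_mem P.isPGroup' x.2) h2))
  rw [h1, ← mul_assoc, inv_mul_eq_div]
  refine mul_mem ((natCast_div_mem_locRing_iff Nat.card_pos.ne' Nat.card_pos.ne').2 ?_)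
    (sum_mem fun χ _ => mul_mem (mem_locRing_of_isIntegral
      (isIntegral_avg (irr_isCharacter χ) (one_mem _))) (irr_conj_mem χ g))
  rw [P.card_eq_multiplicity, hp.out.factorization_pow, Finsupp.single_eq_same]

theorem mem_centralizer_of_coeff {π : G} (hπ : ∃ k : ℕ, orderOf π = p ^ k)
    {E : Subgroup (centralizer ({π} : Set G))} [E.Normal] (hE : IsPGroup p E)
    {B : Set (IrrCharacter G)} (hB : IsPBlock M B) {z : centralizer ({π} : Set G)}
    (hz : res M (blockCoeff B z) ≠ 0) : z ∈ centralizer (E : Set (centralizer ({π} : Set G))) := by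
  have h1 := (blk_idem_mem hB)
  have h2 := red_resS_br_idem (isPGroup_zpowers hπ) (centralizer_zpowers π).le (ZO.og h1)
    (cen_le_fixSub _ (ZO.cen h1)) (blockIdem_mul_self B)
  have h3 : red M (resS (centralizer ({π} : Set G)) (br (zpowers π) (blockIdem B))) ∈ cen _ _ :=
    red_mem_cen (ZO.cen (resS_br_mem_ZO ((centralizer_zpowers π).ge.trans
      (centralizer_le_normalizer _)) h1))
  have h4 := br_eq_self_of_idem hE (cen_le_fixSub _ h3) h2 (cen_comm h3 _)
  by_contra h5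
  have h6 := congrArg (fun a => a.coeff z) h4
  simp only [coeff_br, if_neg h5, coeff_red, coeff_resS, coeff_blockIdem] at h6
  rw [if_pos ((centralizer_zpowers π).ge z.2)] at h6
  exact hz h6.symm

section coset

variable {L : Type*} [Group L] [Finite L] (φ : L →* G)

/-- The restriction of the block idempotent along `φ`. -/
noncomputable def zB (B : Set (IrrCharacter G)) : ℂ[L] := ofFun fun y => blockCoeff B (φ y)

theorem zB_mem {B : Set (IrrCharacter G)} (hB : IsPBlock M B) : zB φ B ∈ ZO M L :=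
  mem_ZO.2 ⟨mem_OG.2 fun y => by simpa [zB] using blk_coeff_mem hB _,
    ofFun_mem_cen fun g h => by simp [blockCoeff_conj]⟩

variable {φ} (hφ : Function.Injective φ) {π : G} (hπ : ∃ k : ℕ, orderOf π = p ^ k)
  (hc : ∀ y, Commute π (φ y))

include hφ hc in
theorem br_eq_push {B : Set (IrrCharacter G)}
    (hs : ∀ z, Commute π z → res M (blockCoeff B z) ≠ 0 → z ∈ φ.range) :
    br (zpowers π) (red M (blockIdem B)) = push _ φ (red M (zB φ B)) := by
  refine ga_ext fun x => ?_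
  rw [coeff_br, centralizer_zpowers]
  by_cases hx : x ∈ φ.range
  · obtain ⟨y, rfl⟩ := hx
    rw [if_pos (mem_centralizer_singleton_iff.2 (hc y).symm.eq), coeff_push_of_injective hφ]
    simp [zB]
  · rw [coeff_push_of_notMem _ _ hx]
    split_ifs with h
    · by_contra h1
      exact hx (hs x (mem_centralizer_singleton_iff.1 h).symm (by simpa using h1))
    · rfl

include hφ hπ hc in
theorem lam_zB_ne_zero {B : Set (IrrCharacter G)} (hB : IsPBlock M B)
    (hs : ∀ z, Commute π z → res M (blockCoeff B z) ≠ 0 → z ∈ φ.range) {γ : IrrCharacter L}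
    (hγ : blockIdem {γ} ∈ OG M L) {χ : IrrCharacter G} (hχ : χ ∈ B) {c : ℂ} (hc0 : c ≠ 0)
    (h : ∀ y, χ.1 (π * φ y) = c * γ.1 y) : lam M γ (zB φ B) ≠ 0 := by
  intro h0
  have := Fintype.ofFinite L
  have := Fintype.ofFinite G
  set f := push ℂ φ (blockIdem {γ}) with hf
  have hfO : f ∈ OG M G := push_mem_OG φ hγ
  have hB1 := blk_idem_mem hB
  have hfs : ∀ x, x ∉ centralizer ({π} : Set G) → f.coeff x = 0 := fun x hx =>
    coeff_push_of_notMem _ _ (by
      rintro ⟨y, rfl⟩; exact hx (mem_centralizer_singleton_iff.2 (hc y).symm.eq))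
  have hf1 : f ∈ fixSub ℂ (zpowers π) := by
    rw [eq_sum_single f]
    refine Subalgebra.sum_mem _ fun x _ => ?_
    by_cases hx : x ∈ centralizer ({π} : Set G)
    · exact single_mem_fixSub (by rwa [centralizer_zpowers]) _
    · rw [hfs x hx, single_zero]; exact zero_mem _
  have he1 : blockIdem B * f ∈ fixSub ℂ (zpowers π) :=
    mul_mem (cen_le_fixSub _ (ZO.cen hB1)) hf1
  have h1 : zB φ B * blockIdem {γ} = om γ (zB φ B) • blockIdem {γ} := by
    refine cen_ext_om (mul_mem (ZO.cen (zB_mem φ hB)) (blockIdem_mem_cen _))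
      (Subalgebra.smul_mem _ (blockIdem_mem_cen _) _) fun ψ => ?_
    rw [om_mul ψ (ZO.cen (zB_mem φ hB)), map_smul, smul_eq_mul]
    by_cases hψ : ψ = γ
    · rw [hψ]
    · rw [om_blockIdem_of_notMem (by simpa using hψ), mul_zero, mul_zero]
  have h2 : br (zpowers π) (red M (blockIdem B * f)) = 0 := by
    rw [red_mul (ZO.og hB1) hfO, br_mul (resField_p_eq_zero M) (isPGroup_zpowers hπ)
      (red_mem_fixSub (cen_le_fixSub _ (ZO.cen hB1))) (red_mem_fixSub hf1), br_eq_push hφ hc hs,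
      ← red_br, br, trunc_eq_self (by simpa [centralizer_zpowers] using hfs), hf, red_push φ hγ,
      ← map_mul, ← red_mul (ZO.og (zB_mem φ hB)) hγ, h1, red_smul (om_mem γ (zB_mem φ hB)) hγ,
      ← lam_def, h0, zero_smul, map_zero]
  have h3 := ev_idem_mul_eq_zero (p := p) (g := π) (mul_mem (ZO.og hB1) hfO) (by
      rw [mul_assoc, ← mul_assoc f, ← cen_comm (ZO.cen hB1), mul_assoc, ← mul_assoc,
        blockIdem_mul_self, hf, ← map_mul, blockIdem_mul_self])
    (mem_fixSub.1 he1 π (mem_zpowers π)) (fun z hz => by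
      rw [pPart_of_pElt hπ] at hz
      simpa using br_eq_zero_iff.1 h2 z (by
        rw [centralizer_zpowers]; exact mem_centralizer_singleton_iff.2 hz.symm.eq))
    (irr_isClassFunction χ)
  rw [mul_assoc, ev_blockIdem_mul_of_mem hχ, ev_mul_comm (irr_isClassFunction χ), hf,
    eq_sum_single (blockIdem {γ})] at h3
  simp only [map_sum, push_single, Finset.mul_sum, single_mul_single, ev_single, h, one_mul,
    mul_left_comm _ c] at h3
  rw [← Finset.mul_sum, ← ev_eq_sum, ← mul_one (blockIdem _), ev_blockIdem_mul_of_mem (Set.mem_singleton _), ev_one] at h3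
  exact mul_ne_zero hc0 (irr_one_ne_zero γ) h3

include hφ hπ hc in
theorem eq_of_lam_zB {B B' : Set (IrrCharacter G)} (hB : IsPBlock M B) (hB' : IsPBlock M B')
    (hs : ∀ z, Commute π z → res M (blockCoeff B z) ≠ 0 → z ∈ φ.range)
    (hs' : ∀ z, Commute π z → res M (blockCoeff B' z) ≠ 0 → z ∈ φ.range) {γ : IrrCharacter L}
    (h : lam M γ (zB φ B) ≠ 0) (h' : lam M γ (zB φ B') ≠ 0) : B = B' := by
  by_contra hne
  have h1 : B ∩ B' = ∅ := Set.eq_empty_of_forall_notMem fun χ hχ =>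
    hne (blk_eq_of_mem hB hB' hχ.1 hχ.2)
  have hB1 := blk_idem_mem hB
  have hB2 := blk_idem_mem hB'
  have h2 := br_mul (resField_p_eq_zero M) (isPGroup_zpowers hπ)
    (red_mem_fixSub (M := M) (cen_le_fixSub _ (ZO.cen hB1)))
    (red_mem_fixSub (M := M) (cen_le_fixSub _ (ZO.cen hB2)))
  rw [← red_mul (ZO.og hB1) (ZO.og hB2), blockIdem_mul, h1, blockIdem_empty, red_zero, map_zero,
    br_eq_push hφ hc hs, br_eq_push hφ hc hs', ← map_mul,
    ← red_mul (ZO.og (zB_mem φ hB)) (ZO.og (zB_mem φ hB'))] at h2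
  refine mul_ne_zero h h' ?_
  rw [← lam_mul γ (zB_mem φ hB) (zB_mem φ hB')]
  refine lam_eq_zero_of_red γ (mul_mem (zB_mem φ hB) (zB_mem φ hB')) (ga_ext fun y => ?_)
  rw [← coeff_push_of_injective hφ, ← h2]; rfl

end coset

theorem exists_contribution (χ ψ : IrrCharacter G) [Fintype G] : ∃ z : ℤ,
    (p ^ (Nat.card G).factorization p : ℕ) * classInner (pRegularPart p χ.1) ψ.1 = z ∧
    (lam M χ (zreg p ψ.1) ≠ 0 →
      z ≠ 0 ∧ z.natAbs.factorization p = (charDegree χ.1).factorization p) := by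
  set c := p ^ (Nat.card G).factorization p with hc
  obtain ⟨z, hz⟩ := IsGeneralized_classInner (IsGeneralized_smul_pRegularPart hp.out
    (IsIrrCharacter_isGeneralized χ.2) (c := c) dvd_rfl) (IsIrrCharacter_isGeneralized ψ.2)
  have h1 : pRegularPart p ((c : ℂ) • χ.1) = (c : ℂ) • pRegularPart p χ.1 := by
    ext x; simp only [pRegularPart, Pi.smul_apply]; split_ifs <;> simp
  rw [h1, classInner_smul_left] at hz
  refine ⟨z, hz, fun h => ?_⟩
  have hc0 : c ≠ 0 := pow_ne_zero _ hp.out.ne_zero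
  have hc1 : (c : ℂ) ≠ 0 := by exact_mod_cast hc0
  rw [lam_def, om_eq, ev_zreg_eq _ (IsIrrCharacter_isGeneralized ψ.2), ← irr_charDegree,
    (eq_inv_mul_iff_mul_eq₀ hc1).2 hz] at h
  have hz0 : z ≠ 0 := by rintro rfl; simp at h
  have h2 : res M (((Nat.card G * z.natAbs : ℕ) : ℂ) / ((c * charDegree χ.1 : ℕ) : ℂ)) ≠ 0 := by
    rcases Int.natAbs_eq z with h2 | h2
    · convert h using 2
      conv_rhs => rw [h2, Int.cast_natCast]
      push_cast; field_simp
    · have h3 := neg_ne_zero.2 h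
      rw [← res_neg (mem_locRing_of_res_ne_zero h)] at h3
      convert h3 using 2
      conv_rhs => rw [h2, Int.cast_neg, Int.cast_natCast]
      push_cast; field_simp
  have h3 := charDegree_ne_zero χ
  have h4 : z.natAbs ≠ 0 := Int.natAbs_ne_zero.2 hz0
  rw [res_natCast_div_ne_zero_iff (mul_ne_zero Nat.card_pos.ne' h4) (mul_ne_zero hc0 h3),
    Nat.factorization_mul hc0 h3, Nat.factorization_mul Nat.card_pos.ne' h4, Finsupp.add_apply,
    Finsupp.add_apply, hc, hp.out.factorization_pow, Finsupp.single_eq_same] at h2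
  exact ⟨hz0, by omega⟩

/-- Brauer--Feit for small `2`-blocks. -/
theorem height_zero_of_defect_le_two {M : Ideal AlgInt} [PMod 2 M] {B : Set (IrrCharacter G)}
    (hB : IsPBlock M B) (hd : blockDefect 2 B ≤ 2) {χ : IrrCharacter G} (hχ : χ ∈ B) :
    blockHeight 2 B χ.1 = 0 := by
  have := Fintype.ofFinite G
  by_contra h0
  obtain ⟨ψ, hψ, hψ0⟩ := exists_height_zero (p := 2) hB
  choose z hz hz' using fun φ => exists_contribution (p := 2) (M := M) ψ φ
  obtain ⟨y, hy, hy'⟩ := exists_contribution (p := 2) (M := M) χ ψ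
  obtain ⟨hy0, hy1⟩ := hy' ((lam_zreg_ne_zero_iff hB hχ).2 ⟨hψ, hψ0⟩)
  obtain ⟨hz0, hz1⟩ := hz' ψ ((lam_zreg_ne_zero_iff hB hψ).2 ⟨hψ, hψ0⟩)
  have h1 : y = z χ := by
    have h1 := ev_zreg_comm (p := 2) χ.1 ψ.1
    rw [ev_zreg_eq _ (IsIrrCharacter_isGeneralized ψ.2),
      ev_zreg_eq _ (IsIrrCharacter_isGeneralized χ.2), mul_right_inj' (card_ne_zero_complex G)] at h1
    exact_mod_cast hy.symm.trans (h1 ▸ hz χ)
  subst h1
  set c := 2 ^ (Nat.card G).factorization 2 with hc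
  have h2 : (c : ℤ) * z ψ = ∑ φ, z φ * z φ := by
    have h2 : classInner (pRegularPart 2 ψ.1) ψ.1 =
        classInner (pRegularPart 2 ψ.1) (pRegularPart 2 ψ.1) := by
      unfold classInner
      congr 1
      refine Finset.sum_congr rfl fun g _ => ?_
      simp only [pRegularPart]; split_ifs <;> simp
    have h3 := classInner_eq_sum_irr (pRegularPart_isClassFunction (p := 2) (irr_isClassFunction ψ))
      (pRegularPart 2 ψ.1)
    have h4 : ∀ φ : IrrCharacter G, (c : ℂ) * classInner φ.1 (pRegularPart 2 ψ.1) = z φ := by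
      intro φ
      have := congrArg conj (hz φ)
      rwa [map_mul, conj_classInner, map_natCast, map_intCast] at this
    have h5 : ((c * z ψ : ℤ) : ℂ) = (∑ φ, z φ * z φ : ℤ) := by
      push_cast
      rw [← hz ψ, h2, h3, Finset.mul_sum, Finset.mul_sum]
      exact Finset.sum_congr rfl fun φ _ => by
        rw [show (z φ : ℂ) * z φ = _ from congrArg₂ _ (hz φ).symm (h4 φ).symm]; ring
    exact_mod_cast h5
  have h3 : z ψ * z ψ + z χ * z χ ≤ c * z ψ := by
    rw [h2, ← Finset.sum_pair (f := fun φ => z φ * z φ) (by rintro rfl; exact h0 hψ0)]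
    exact Finset.sum_le_sum_of_subset_of_nonneg (Finset.subset_univ _) fun _ _ _ => mul_self_nonneg _
  have h4 := minDeg_add_blockDefect (p := 2) ⟨χ, hχ⟩
  rw [blockHeight_eq] at h0
  rw [(height_zero_iff hψ).1 hψ0] at hz1
  set m := minDeg 2 B
  have h5 : ∀ (a : ℤ) k, a ≠ 0 → ((2 : ℤ) ^ k ∣ a ↔ k ≤ a.natAbs.factorization 2) := by
    intro a k ha
    rw [← Nat.prime_two.pow_dvd_iff_le_factorization (Int.natAbs_ne_zero.2 ha), ← Int.natCast_dvd]
    simp
  obtain ⟨u, hu⟩ := (h5 _ m hz0).2 hz1.ge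
  obtain ⟨t, ht⟩ := (h5 _ (m + 1) hy0).2 (by omega)
  have hu2 : u ≠ 2 := by
    rintro rfl
    have := (h5 _ (m + 1) hz0).1 ⟨1, by rw [hu]; ring⟩
    omega
  have ht0 : 1 ≤ t * t := by
    have : t ≠ 0 := by rintro rfl; simp [hy0] at ht
    nlinarith [Int.natAbs_pos.2 this, mul_self_pos.2 this]
  have h6 : (c : ℤ) = 2 ^ m * 2 ^ blockDefect 2 B := by rw [hc, ← h4]; push_cast; ring
  have h7 : u * u + 4 * (t * t) ≤ 2 ^ blockDefect 2 B * u := by
    rw [hu, ht, h6] at h3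
    refine le_of_mul_le_mul_left (a := (2 : ℤ) ^ m * 2 ^ m) ?_ (by positivity)
    linear_combination h3
  have h8 : (u - 2) * (u - 2) ≠ 0 := mul_self_ne_zero.2 (sub_ne_zero.2 hu2)
  have h9 := mul_self_nonneg (u - 2)
  interval_cases blockDefect 2 B
  · nlinarith
  · nlinarith [mul_self_nonneg (u - 1)]
  · exact h8 (by nlinarith)

theorem exists_twist_idem (h2 : p ≠ 2) (μ : G →* ℂˣ) (hμ : ∀ g, μ g = 1 ∨ μ g = -1)
    {B : Set (IrrCharacter G)} (hB : IsPBlock M B) : ∃ z ∈ ZO M G,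
      (∀ g, z.coeff g = (1 + μ g) * blockCoeff B g) ∧ ∀ χ : IrrCharacter G, lam M χ z ≠ 0 ↔
        χ ∈ B ∨ (⟨_, IsIrrCharacter_mul_linear χ.2 μ⟩ : IrrCharacter G) ∈ B := by
  have := Fintype.ofFinite G
  let e : ℂ[G] := ofFun fun g => μ g * blockCoeff B g
  have he : e ∈ ZO M G := mem_ZO.2 ⟨mem_OG.2 fun g => by
    rcases hμ g with h | h <;> simpa [e, h] using blk_coeff_mem hB g,
    ofFun_mem_cen fun g h => by rw [blockCoeff_conj]; simp [mul_assoc]⟩
  refine ⟨_, add_mem (blk_idem_mem hB) he, fun g => by simp [e, add_mul], fun χ => ?_⟩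
  have h1 : om χ e = om (⟨_, IsIrrCharacter_mul_linear χ.2 μ⟩ : IrrCharacter G) (blockIdem B) := by
    simp [om_eq, ev_eq_sum, e, mul_left_comm, mul_assoc]
  have h3 : res M (1 + 1) ≠ 0 := by
    rw [one_add_one_eq_two]
    exact res_natCast_ne_zero (n := 2) fun h =>
      h2 ((Nat.prime_dvd_prime_iff_eq hp.out Nat.prime_two).1 h)
  rw [lam_def, map_add, h1, om_blockIdem, om_blockIdem]
  split_ifs <;> simp [*]

theorem exists_defectClass_ker (h2 : p ≠ 2) (μ : G →* ℂˣ) (hμ : ∀ g, μ g = 1 ∨ μ g = -1)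
    {B : Set (IrrCharacter G)} (hB : IsPBlock M B) : ∃ g, μ g = 1 ∧ IsDefectClass M B g := by
  obtain ⟨χ, hχ⟩ := blk_nonempty hB
  obtain ⟨z, hz, h1, h3⟩ := exists_twist_idem h2 μ hμ hB
  obtain ⟨g, hg, hg'⟩ := exists_class_of_lam_ne_zero hz ((h3 χ).2 (.inl hχ))
  rcases hμ g with h | h
  · refine ⟨g, h, (isDefectClass_iff hB hχ).2 ⟨fun h0 => hg ?_, hg'⟩⟩
    simp [h1, h, add_mul, res_add (blk_coeff_mem hB g) (blk_coeff_mem hB g), h0]
  · simp [h1, h] at hg

variable {N : Subgroup G} [N.Normal] [Fintype N]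

theorem exists_cj_le_of_cover {b : Set (IrrCharacter N)} (hb : IsPBlock M b) {D : Subgroup N}
    (hD : IsDefectGroup p M b D) {B : Set (IrrCharacter G)} (hB : IsPBlock M B)
    {χ : IrrCharacter G} (hχ : χ ∈ B) {θ : IrrCharacter N} (hθ : θ ∈ b)
    (h : classInner (fun n : N => χ.1 n) θ.1 ≠ 0) {g : N} (hg : IsDefectClass M B g)
    {Q : Subgroup G} (hQ : IsDefectGroup p M B Q) : ∃ x, cj x (D.map N.subtype) ≤ Q := by
  have h1 := defectClass_lam hg hχ
  rw [(covers_iff hB hb).1 ⟨χ, hχ, θ, hθ, h⟩ χ hχ θ hθ g] at h1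
  obtain ⟨y, hy, hy'⟩ := exists_class_of_lam_ne_zero (resS_mem_ZO N (classSum_mem_ZO _)) h1
  have h2 : IsConj (g : G) y := by
    by_contra h2; rw [coeff_resS, coeff_classSum, if_neg h2, res_zero] at hy; exact hy rfl
  obtain ⟨R, hR⟩ := H6.exists_sylIn p (centralizer ({y} : Set N))
  obtain ⟨x, hx⟩ := defectGroup_le_of_lam hb hD hθ hy' hR
  obtain ⟨R', hR', h3⟩ := H6.exists_sylIn_ge (H := centralizer ({(y : G)} : Set G))
    (hR.isPGroup.map N.subtype) (by
      rintro _ ⟨a, ha, rfl⟩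
      exact mem_centralizer_singleton_iff.2
        (congrArg Subtype.val (mem_centralizer_singleton_iff.1 (hR.le ha))))
  obtain ⟨x', hx'⟩ := defectGroup_conj hB
    (isDefectGroup_iff.2 ⟨y, defectClass_isConj hB hg h2, hR'⟩) hQ
  refine ⟨x' * x, ?_⟩
  rw [← cj_cj, ← hx']
  refine cj_mono _ (le_trans (cj_le_iff.2 ?_) h3)
  rintro _ ⟨a, ha, rfl⟩
  exact ⟨_, cj_le_iff.1 hx a ha, rfl⟩

theorem exists_over_mem (h2 : p ≠ 2) (μ : G →* ℂˣ) (hμ : ∀ g, μ g = 1 ∨ μ g = -1)
    (hN : ∀ g, g ∈ N ↔ μ g = 1) {b : Set (IrrCharacter N)} (hb : IsPBlock M b)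
    {B : Set (IrrCharacter G)} (hB : IsPBlock M B)
    {χ : IrrCharacter G} (hχ : χ ∈ B) {θ : IrrCharacter N} (hθ : θ ∈ b)
    (h : classInner (fun n : N => χ.1 n) θ.1 ≠ 0) {φ : IrrCharacter N} (hφ : φ ∈ b) :
    ∃ ψ ∈ B, classInner (fun n : N => ψ.1 n) φ.1 ≠ 0 := by
  obtain ⟨z, hz, h1, h3⟩ := exists_twist_idem h2 μ hμ hB
  have h4 : ∀ g, g ∉ N → z.coeff g = 0 := fun g hg => by
    simp [h1, (hμ g).resolve_left (mt (hN g).2 hg)]
  obtain ⟨ψ, hψ⟩ := exists_over φ
  have h5 := (h3 χ).2 (.inl hχ)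
  rw [lam_eq_lam_resS_of_under h (ZO.cen hz) h4, blk_lam_eq hb hθ hφ (resS_mem_ZO N hz),
    ← lam_eq_lam_resS_of_under hψ (ZO.cen hz) h4, h3] at h5
  rcases h5 with h5 | h5
  · exact ⟨ψ, h5, hψ⟩
  · exact ⟨_, h5, by simpa [(hN _).1 (Subtype.prop _)] using hψ⟩

theorem charDegree_le_of_under {χ : IrrCharacter G} {θ : IrrCharacter N}
    (h : classInner (fun n : N => χ.1 n) θ.1 ≠ 0) :
    charDegree χ.1 ≤ N.index * charDegree θ.1 := by
  have := Fintype.ofFinite G
  rw [← H4.charDegree_indFun N (irr_isCharacter θ)]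
  refine H4.charDegree_le_of_const (H4.isCharacter_indFun N (irr_isCharacter θ)) χ.2 ?_
  rwa [H4.frobenius_reciprocity N _ (irr_isClassFunction χ), Ne, H4.classInner_eq_zero_comm]

end Cfsg.Agent.H2.Blk
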