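import Mathlib

/-! Characters of symmetric groups, I: alternants and power sums (helper2). -/

set_option autoImplicit false
set_option linter.style.haveILetI false
set_option linter.unusedSectionVars false

namespace Cfsg.Agent.H2.Sym

open MvPolynomial Equiv Equiv.Perm Function Finset

variable {ι : Type*} [Fintype ι] [DecidableEq ι]

/-- Exponent vectors. -/
noncomputable def ex (β : ι → ℕ) : ι →₀ ℕ := Finsupp.equivFunOnFinite.symm β

@[simp] theorem ex_apply (β : ι → ℕ) (i : ι) : ex β i = β i := rfl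

@[simp] theorem ex_coe (β : ι →₀ ℕ) : ex β = β := by ext; rfl

theorem ex_inj {β γ : ι → ℕ} : ex β = ex γ ↔ β = γ :=
  Finsupp.equivFunOnFinite.symm.injective.eq_iff

/-- Coefficients. -/
noncomputable def cf (v : MvPolynomial ι ℤ) (β : ι → ℕ) : ℤ := coeff (ex β) v

theorem cf_ext {u v : MvPolynomial ι ℤ} (h : ∀ β, cf u β = cf v β) : u = v := by
  ext β; simpa [cf] using h β

@[simp] theorem cf_zero (β : ι → ℕ) : cf (0 : MvPolynomial ι ℤ) β = 0 := rfl

theorem cf_add (u v : MvPolynomial ι ℤ) (β) : cf (u + v) β = cf u β + cf v β := coeff_add _ _ _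

theorem cf_sub (u v : MvPolynomial ι ℤ) (β) : cf (u - v) β = cf u β - cf v β := coeff_sub _ _ _ _

theorem cf_smul (c : ℤ) (v : MvPolynomial ι ℤ) (β) : cf (c • v) β = c * cf v β := coeff_smul _ _ _

theorem cf_sum {κ : Type*} (s : Finset κ) (v : κ → MvPolynomial ι ℤ) (β) :
    cf (∑ k ∈ s, v k) β = ∑ k ∈ s, cf (v k) β := coeff_sum _ _ _

theorem cf_monomial (γ β : ι → ℕ) (c : ℤ) : cf (monomial (ex γ) c) β = if γ = β then c else 0 := by
  simp only [cf, coeff_monomial, ex_inj]

theorem cf_monomial_mul (γ β : ι → ℕ) (v : MvPolynomial ι ℤ) :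
    cf (monomial (ex γ) 1 * v) β = if ∀ i, γ i ≤ β i then cf v (β - γ) else 0 := by
  have h : ex β - ex γ = ex (β - γ) := by ext; simp
  simp only [cf, coeff_monomial_mul', one_mul, h]
  exact if_congr Iff.rfl rfl rfl

theorem cf_psum_mul (k : ℕ) (v : MvPolynomial ι ℤ) (β : ι → ℕ) :
    cf (psum ι ℤ k * v) β = ∑ i, if k ≤ β i then cf v (update β i (β i - k)) else 0 := by
  rw [psum, sum_mul, cf_sum]
  refine sum_congr rfl fun i _ => ?_
  have h : Finsupp.single i k = ex (Pi.single i k) := by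
    ext j; simp [Finsupp.single_apply, Pi.single_apply, eq_comm]
  rw [X_pow_eq_monomial, h, cf_monomial_mul]
  refine if_congr ?_ ?_ rfl
  · refine ⟨fun h => by simpa using h i, fun h j => ?_⟩
    by_cases hj : j = i
    · subst hj; simpa
    · simp [hj]
  · congr 1; ext j; by_cases hj : j = i
    · subst hj; simp
    · simp [hj]

/-- Lowering operators. -/
noncomputable def dn (k : ℕ) (v : MvPolynomial ι ℤ) : MvPolynomial ι ℤ :=
  ∑ i, v.divMonomial (Finsupp.single i k)

theorem cf_dn (k : ℕ) (v : MvPolynomial ι ℤ) (β : ι → ℕ) :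
    cf (dn k v) β = ∑ i, cf v (update β i (β i + k)) := by
  rw [dn, cf_sum]
  refine sum_congr rfl fun i _ => ?_
  simp only [cf, coeff_divMonomial]
  congr 1; ext j; by_cases hj : j = i
  · subst hj; simp [add_comm]
  · simp [hj]

theorem dn_smul (k : ℕ) (c : ℤ) (v : MvPolynomial ι ℤ) : dn k (c • v) = c • dn k v :=
  cf_ext fun β => by simp only [cf_dn, cf_smul, mul_sum]

/-- Antisymmetric polynomials. -/
def Anti (v : MvPolynomial ι ℤ) : Prop := ∀ (τ : Perm ι) (β : ι → ℕ), cf v (β ∘ τ) = sign τ * cf v β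

/-- Homogeneous polynomials. -/
def Hom (d : ℕ) (v : MvPolynomial ι ℤ) : Prop := ∀ β, cf v β ≠ 0 → ∑ i, β i = d

theorem Anti.inj {v : MvPolynomial ι ℤ} (h : Anti v) {β : ι → ℕ} (hβ : cf v β ≠ 0) :
    Injective β := fun i j hij => by
  by_contra hne
  have h1 := h (swap i j) β
  have h2 : β ∘ swap i j = β := by
    ext l; simp only [comp_apply, swap_apply_def]; split_ifs <;> simp_all
  rw [h2, sign_swap hne] at h1
  simp at h1
  omega

theorem anti_aux {v : MvPolynomial ι ℤ} (h : Anti v) (τ : Perm ι) (β : ι → ℕ) (F : ℕ → Prop)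
    [DecidablePred F] (G : ℕ → ℕ) :
    ∑ i, (if F ((β ∘ τ) i) then cf v (update (β ∘ τ) i (G ((β ∘ τ) i))) else 0) =
      sign τ * ∑ i, if F (β i) then cf v (update β i (G (β i))) else 0 := by
  rw [mul_sum, ← Equiv.sum_comp τ (fun i => (sign τ : ℤ) * _)]
  refine sum_congr rfl fun i _ => ?_
  rw [← update_comp_eq_of_injective _ τ.injective, h]
  simp

theorem Anti.psum_mul {v : MvPolynomial ι ℤ} (h : Anti v) (k : ℕ) : Anti (psum ι ℤ k * v) :=
  fun τ β => by
    rw [cf_psum_mul, cf_psum_mul]; exact anti_aux h τ β (k ≤ ·) (· - k)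

theorem Anti.dn {v : MvPolynomial ι ℤ} (h : Anti v) (k : ℕ) : Anti (dn k v) :=
  fun τ β => by
    rw [cf_dn, cf_dn]; simpa using anti_aux h τ β (fun _ => True) (· + k)

theorem Anti.sub {u v : MvPolynomial ι ℤ} (hu : Anti u) (hv : Anti v) : Anti (u - v) :=
  fun τ β => by rw [cf_sub, cf_sub, hu, hv, mul_sub]

theorem sum_update' (β : ι → ℕ) (i : ι) (x : ℕ) : ∑ j, update β i x j + β i = ∑ j, β j + x := by
  rw [sum_update_of_mem (mem_univ i), ← add_sum_erase _ _ (mem_univ i), sdiff_singleton_eq_erase]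
  ring

theorem Hom.psum_mul {d : ℕ} {v : MvPolynomial ι ℤ} (h : Hom d v) (k : ℕ) :
    Hom (d + k) (psum ι ℤ k * v) := fun β hβ => by
  rw [cf_psum_mul] at hβ
  obtain ⟨i, -, hi⟩ := exists_ne_zero_of_sum_ne_zero hβ
  split_ifs at hi with h1
  · have := h _ hi; have := sum_update' β i (β i - k); omega
  · exact absurd rfl hi

theorem Hom.of_dn {d : ℕ} {v : MvPolynomial ι ℤ} (h : Hom d v) (k : ℕ) {β : ι → ℕ}
    (hβ : cf (dn k v) β ≠ 0) : ∑ i, β i + k = d := by
  rw [cf_dn] at hβ
  obtain ⟨i, -, hi⟩ := exists_ne_zero_of_sum_ne_zero hβ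
  have := h _ hi; have := sum_update' β i (β i + k); omega

/-- Alternants. -/
noncomputable def alt (γ : ι → ℕ) : MvPolynomial ι ℤ :=
  ∑ τ : Perm ι, monomial (ex (γ ∘ τ)) (sign τ : ℤ)

theorem cf_alt (γ β : ι → ℕ) :
    cf (alt γ) β = ∑ τ : Perm ι, if γ ∘ τ = β then (sign τ : ℤ) else 0 := by
  simp only [alt, cf_sum, cf_monomial]

theorem anti_alt (γ : ι → ℕ) : Anti (alt γ) := fun σ β => by
  rw [cf_alt, cf_alt, mul_sum, ← Equiv.sum_comp (Equiv.mulRight σ)]
  refine sum_congr rfl fun τ _ => ?_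
  have : γ ∘ ⇑(τ * σ) = β ∘ σ ↔ γ ∘ τ = β := by
    rw [coe_mul, ← comp_assoc]; exact σ.surjective.right_cancellable
  simp only [coe_mulRight, this]
  split_ifs <;> simp [mul_comm]

theorem hom_alt (γ : ι → ℕ) : Hom (∑ i, γ i) (alt γ) := fun β hβ => by
  rw [cf_alt] at hβ
  obtain ⟨τ, -, hτ⟩ := exists_ne_zero_of_sum_ne_zero hβ
  split_ifs at hτ with h1
  · subst h1; exact Equiv.sum_comp τ γ
  · exact absurd rfl hτ

theorem cf_alt_self {γ : ι → ℕ} (h : Injective γ) : cf (alt γ) γ = 1 := by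
  rw [cf_alt, sum_eq_single 1] <;> simp
  intro τ hτ h1
  exact hτ (Equiv.ext fun i => h (congrFun h1 i))

theorem choose_le_sum (s : Finset ℕ) : s.card.choose 2 ≤ ∑ x ∈ s, x := by
  induction s using Finset.induction_on_max with
  | empty => simp
  | insert a s ha ih =>
    have h : a ∉ s := fun h => lt_irrefl _ (ha a h)
    have h1 : s.card ≤ a := by
      simpa using card_le_card (show s ⊆ range a from fun x hx => mem_range.2 (ha x hx))
    rw [card_insert_of_notMem h, sum_insert h, Nat.choose_succ_succ' _ 1, Nat.choose_one_right]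
    simp only [Nat.reduceAdd]
    omega

theorem choose_le_of_inj {β : ι → ℕ} (h : Injective β) :
    (Fintype.card ι).choose 2 ≤ ∑ i, β i := by
  have := choose_le_sum (univ.image β)
  rwa [card_image_of_injective _ h, sum_image h.injOn] at this

theorem exists_eq_of_inj {β : ι → ℕ} (h : Injective β) {j : ℕ}
    (hj : ∑ i, β i + j < (Fintype.card ι).choose 2 + Fintype.card ι) : ∃ i, β i = j := by
  by_contra! h1
  have h2 : j ∉ univ.image β := by simpa using h1
  have := choose_le_sum (insert j (univ.image β))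
  rw [card_insert_of_notMem h2, sum_insert h2, card_image_of_injective _ h, sum_image h.injOn,
    Nat.choose_succ_succ' _ 1, Nat.choose_one_right, card_univ] at this
  simp only [Nat.reduceAdd] at this
  omega

theorem cf_comm (v : MvPolynomial ι ℤ) (k l : ℕ) (γ : ι → ℕ) :
    cf (dn k (psum ι ℤ l * v) - psum ι ℤ l * dn k v) γ =
      ∑ i, if γ i < l ∧ l ≤ γ i + k then cf v (update γ i (γ i + k - l)) else 0 := by
  have h : ∀ j, (if l ≤ γ j then ∑ i, cf v (update (update γ j (γ j - l)) i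
      (update γ j (γ j - l) i + k)) else 0) = ∑ i, if l ≤ γ j then cf v (update
        (update γ j (γ j - l)) i (update γ j (γ j - l) i + k)) else 0 := by
    intro j; split_ifs <;> simp
  simp only [cf_sub, cf_dn, cf_psum_mul, h]
  rw [sum_comm (f := fun j i => if l ≤ γ j then _ else _), ← sum_sub_distrib]
  refine sum_congr rfl fun i _ => ?_
  rw [← sum_sub_distrib, sum_eq_single i]
  · simp only [update_self, update_idem]
    by_cases h1 : l ≤ γ i
    · rw [if_pos (by omega), if_pos h1, if_neg (by omega), Nat.sub_add_comm h1, sub_self]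
    · rw [if_neg h1, sub_zero]; exact if_congr (by omega) rfl rfl
  · intro j _ hj
    rw [update_of_ne hj, update_of_ne hj.symm, update_comm hj, sub_self]
  · simp

/-- The commutation relation. -/
theorem dn_psum_mul {v : MvPolynomial ι ℤ} (hv : Anti v) {k l : ℕ}
    (hL : ∀ β, cf v β ≠ 0 → ∀ j < l, ∃ i, β i = j) :
    dn k (psum ι ℤ l * v) = psum ι ℤ l * dn k v + (if k = l then (k : ℤ) else 0) • v := by
  rw [← sub_eq_iff_eq_add']
  refine cf_ext fun γ => ?_
  split_ifs with hkl
  · subst hkl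
    rw [cf_comm, cf_smul]
    simp only [Nat.add_sub_cancel, update_eq_self, le_add_iff_nonneg_left, Nat.zero_le, and_true]
    by_cases h0 : cf v γ = 0
    · simp [h0]
    rw [← sum_filter, sum_const, nsmul_eq_mul]
    congr 2
    rw [← card_image_of_injective _ (hv.inj h0)]
    convert card_range k
    ext j
    simp only [mem_image, mem_filter, mem_univ, true_and, mem_range]
    exact ⟨by rintro ⟨i, h, rfl⟩; exact h, fun h => by
      obtain ⟨i, rfl⟩ := hL _ h0 j h; exact ⟨i, h, rfl⟩⟩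
  · rw [zero_smul, cf_zero]
    by_contra h0
    have hinj := (((hv.psum_mul l).dn k).sub ((hv.dn k).psum_mul l)).inj h0
    rw [cf_comm] at h0
    obtain ⟨i, -, hi⟩ := exists_ne_zero_of_sum_ne_zero h0
    split_ifs at hi with h1
    · obtain ⟨j, hj⟩ := hL _ hi (γ i) h1.1
      by_cases hji : j = i
      · subst hji; rw [update_self] at hj; omega
      · rw [update_of_ne hji] at hj; exact hji (hinj hj)
    · exact hi rfl

/-- Weighted inner products. -/
noncomputable def ipw (w : (ι → ℕ) → ℤ) (v : MvPolynomial ι ℤ) : MvPolynomial ι ℤ →ₗ[ℤ] ℤ :=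
  (basisMonomials ι ℤ).constr ℤ fun β => w β * cf v β

theorem ipw_monomial (w : (ι → ℕ) → ℤ) (v : MvPolynomial ι ℤ) (β : ι → ℕ) (c : ℤ) :
    ipw w v (monomial (ex β) c) = c * (w β * cf v β) := by
  have : (monomial (ex β) c : MvPolynomial ι ℤ) = c • basisMonomials ι ℤ (ex β) := by
    simp [smul_monomial]
  rw [this, map_smul, ipw, Module.Basis.constr_basis]; rfl

theorem ipw_eq_sum (w : (ι → ℕ) → ℤ) (u v : MvPolynomial ι ℤ) (T : Finset (ι → ℕ))
    (hT : ∀ β, cf u β ≠ 0 → β ∈ T) : ipw w v u = ∑ β ∈ T, w β * (cf u β * cf v β) := by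
  have : u = ∑ β ∈ T, monomial (ex β) (cf u β) := cf_ext fun γ => by
    simp only [cf_sum, cf_monomial, sum_ite_eq']
    exact (ite_eq_left_iff.2 fun h => by by_contra h1; exact h (hT _ (Ne.symm h1))).symm
  conv_lhs => rw [this]
  simp only [map_sum, ipw_monomial]
  exact sum_congr rfl fun _ _ => by ring

theorem exists_supp (u : MvPolynomial ι ℤ) : ∃ T : Finset (ι → ℕ), ∀ β, cf u β ≠ 0 → β ∈ T :=
  ⟨u.support.image (↑), fun β h => mem_image.2 ⟨ex β, mem_support_iff.2 h, rfl⟩⟩

theorem ipw_comm (w : (ι → ℕ) → ℤ) (u v : MvPolynomial ι ℤ) : ipw w v u = ipw w u v := by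
  obtain ⟨T, hT⟩ := exists_supp u
  obtain ⟨T', hT'⟩ := exists_supp v
  rw [ipw_eq_sum w u v (T ∪ T') fun β h => mem_union_left _ (hT β h),
    ipw_eq_sum w v u (T ∪ T') fun β h => mem_union_right _ (hT' β h)]
  simp only [mul_comm]

theorem ipw_psum_mul {w : (ι → ℕ) → ℤ} {k : ℕ} (hw : ∀ β i, w (update β i (β i + k)) = w β)
    (u v : MvPolynomial ι ℤ) : ipw w v (psum ι ℤ k * u) = ipw w (dn k v) u := by
  induction u using MvPolynomial.induction_on' with
  | add p q hp hq => rw [mul_add, map_add, map_add, hp, hq]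
  | monomial β c =>
    rw [← ex_coe β, ipw_monomial, cf_dn, psum, sum_mul, map_sum, mul_sum, mul_sum]
    refine sum_congr rfl fun i _ => ?_
    have : Finsupp.single i k + ex β = ex (update β i (β i + k)) := by
      ext j; by_cases hj : j = i
      · subst hj; simp [add_comm]
      · simp [hj]
    rw [X_pow_eq_monomial, monomial_mul, this, ipw_monomial, hw, one_mul]

/-- Products of power sums. -/
noncomputable def pM (ι : Type*) [Fintype ι] (μ : Multiset ℕ) : MvPolynomial ι ℤ :=
  (μ.map (psum ι ℤ)).prod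

@[simp] theorem pM_zero : pM ι 0 = 1 := by simp [pM]

theorem pM_cons (k : ℕ) (μ : Multiset ℕ) : pM ι (k ::ₘ μ) = psum ι ℤ k * pM ι μ := by simp [pM]

theorem pM_add (μ ν : Multiset ℕ) : pM ι (μ + ν) = pM ι μ * pM ι ν := by simp [pM]

theorem pM_replicate (w k : ℕ) : pM ι (Multiset.replicate w k) = psum ι ℤ k ^ w := by simp [pM]

theorem Anti.pM_mul {v : MvPolynomial ι ℤ} (h : Anti v) (μ : Multiset ℕ) : Anti (pM ι μ * v) := by
  induction μ using Multiset.induction_on with
  | empty => simpa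
  | cons k μ ih => rw [pM_cons, mul_assoc]; exact ih.psum_mul k

theorem Hom.pM_mul {d : ℕ} {v : MvPolynomial ι ℤ} (h : Hom d v) (μ : Multiset ℕ) :
    Hom (d + μ.sum) (pM ι μ * v) := by
  induction μ using Multiset.induction_on with
  | empty => simpa
  | cons k μ ih =>
    rw [pM_cons, mul_assoc, Multiset.sum_cons, add_comm k, ← add_assoc]; exact ih.psum_mul k

/-- The Frobenius vectors. -/
noncomputable def V (N : ℕ) (μ : Multiset ℕ) : MvPolynomial (Fin N) ℤ :=
  pM (Fin N) μ * alt Fin.val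

theorem anti_V (N : ℕ) (μ : Multiset ℕ) : Anti (V N μ) := (anti_alt _).pM_mul μ

theorem sum_val (N : ℕ) : ∑ i : Fin N, (i : ℕ) = N.choose 2 := by
  rw [Fin.sum_univ_eq_sum_range (fun i => i), sum_range_id, Nat.choose_two_right]

theorem hom_V (N : ℕ) (μ : Multiset ℕ) : Hom (N.choose 2 + μ.sum) (V N μ) := by
  rw [← sum_val]; exact (hom_alt _).pM_mul μ

theorem V_cons (N k : ℕ) (μ : Multiset ℕ) : V N (k ::ₘ μ) = psum _ ℤ k * V N μ := by
  rw [V, pM_cons, mul_assoc, V]

theorem V_add (N : ℕ) (μ ν : Multiset ℕ) : V N (μ + ν) = pM _ μ * V N ν := by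
  rw [V, pM_add, mul_assoc, V]

theorem dn_V {N k : ℕ} (hk : 0 < k) (μ : Multiset ℕ) (hμ : μ.sum ≤ N) :
    dn k (V N μ) = ((k : ℤ) * μ.count k) • V N (μ.erase k) := by
  induction μ using Multiset.induction_on with
  | empty =>
    refine cf_ext fun β => ?_
    rw [Multiset.count_zero, Nat.cast_zero, mul_zero, zero_smul, cf_zero]
    by_contra h
    have h1 := (hom_V N 0).of_dn k h
    have h2 := choose_le_of_inj (((anti_V N 0).dn k).inj h)
    simp at h1 h2
    omega
  | cons l μ ih =>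
    rw [Multiset.sum_cons] at hμ
    rw [V_cons, dn_psum_mul (anti_V N μ), ih (by omega), mul_smul_comm, ← V_cons]
    · by_cases hkl : k = l
      · subst hkl
        rw [if_pos rfl, Multiset.erase_cons_head, Multiset.count_cons_self]
        by_cases hm : k ∈ μ
        · rw [Multiset.cons_erase hm, ← add_smul]; congr 1
        · simp [Multiset.count_eq_zero_of_notMem hm]
      · rw [if_neg hkl, zero_smul, add_zero, Multiset.count_cons_of_ne hkl,
          Multiset.erase_cons_tail _ (Ne.symm hkl)]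
    · intro β hβ j hj
      refine exists_eq_of_inj ((anti_V N μ).inj hβ) ?_
      rw [hom_V N μ β hβ, Fintype.card_fin]; omega

/-- Centraliser orders. -/
def zz (μ : Multiset ℕ) : ℕ := μ.prod * ∏ k ∈ μ.toFinset, (μ.count k).factorial

theorem zz_cons (k : ℕ) (μ : Multiset ℕ) : zz (k ::ₘ μ) = k * (μ.count k + 1) * zz μ := by
  have h : ∏ j ∈ μ.toFinset, (μ.count j).factorial =
      ∏ j ∈ insert k μ.toFinset, (μ.count j).factorial :=
    prod_subset (subset_insert _ _) fun j _ hj => by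
      simp [Multiset.count_eq_zero_of_notMem (by simpa using hj : j ∉ μ)]
  rw [zz, zz, h, Multiset.toFinset_cons, ← mul_prod_erase _ _ (mem_insert_self k _),
    ← mul_prod_erase _ _ (mem_insert_self k _), Multiset.count_cons_self, Multiset.prod_cons,
    prod_congr rfl fun j hj => by rw [Multiset.count_cons_of_ne (ne_of_mem_erase hj)],
    Nat.factorial_succ]
  ring

theorem ipw_smul_left (w : (ι → ℕ) → ℤ) (c : ℤ) (u v : MvPolynomial ι ℤ) :
    ipw w (c • v) u = c * ipw w v u := by
  rw [ipw_comm, map_smul, ipw_comm, smul_eq_mul]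

theorem ipw_V_V {N : ℕ} (μ ν : Multiset ℕ) (hμ : ∀ k ∈ μ, 0 < k) (hν : ∀ k ∈ ν, 0 < k)
    (hN : ν.sum ≤ N) :
    ipw 1 (V N ν) (V N μ) = if μ = ν then (N.factorial * zz μ : ℕ) else 0 := by
  induction μ using Multiset.induction_on generalizing ν with
  | empty =>
    induction ν using Multiset.induction_on with
    | empty =>
      simp only [V, pM_zero, one_mul, if_true, zz, Multiset.prod_zero, Multiset.toFinset_zero,
        prod_empty, mul_one]
      conv_lhs => enter [2]; rw [alt]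
      simp only [map_sum, ipw_monomial, anti_alt _ _ _, cf_alt_self Fin.val_injective]
      simp [← Units.val_mul, Fintype.card_perm]
    | cons l ν _ =>
      rw [ipw_comm, V_cons, ipw_psum_mul fun _ _ => rfl,
        dn_V (hν l (Multiset.mem_cons_self _ _)) _ (by simp), if_neg (Multiset.zero_ne_cons),
        ipw_smul_left]
      simp
  | cons k μ ih =>
    have h1 : (ν.erase k).sum ≤ N := by
      obtain ⟨t, ht⟩ := Multiset.le_iff_exists_add.1 (Multiset.erase_le k ν)
      rw [ht, Multiset.sum_add] at hN; omega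
    rw [V_cons, ipw_psum_mul fun _ _ => rfl, dn_V (hμ k (Multiset.mem_cons_self _ _)) _ hN,
      ipw_smul_left, ih _ (fun j hj => hμ j (Multiset.mem_cons_of_mem hj))
        (fun j hj => hν j (Multiset.mem_of_mem_erase hj)) h1]
    by_cases h : k ::ₘ μ = ν
    · subst h
      simp only [Multiset.erase_cons_head, if_true, zz_cons, Multiset.count_cons_self]
      push_cast; ring
    · rw [if_neg h]
      by_cases hk : k ∈ ν
      · rw [if_neg (by rintro rfl; exact h (Multiset.cons_erase hk))]; simp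
      · simp [Multiset.count_eq_zero_of_notMem hk]

theorem ipw_V_V_eq_zero {N k : ℕ} {w : (Fin N → ℕ) → ℤ}
    (hw : ∀ β i, w (update β i (β i + k)) = w β) (hk : 0 < k) {μ ν : Multiset ℕ} (hμ : k ∈ μ)
    (hν : k ∉ ν) (hN : ν.sum ≤ N) : ipw w (V N ν) (V N μ) = 0 := by
  rw [← Multiset.cons_erase hμ, V_cons, ipw_psum_mul hw, dn_V hk _ hN, ipw_smul_left]
  simp [Multiset.count_eq_zero_of_notMem hν]

end Cfsg.Agent.H2.Sym
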