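import Cfsg.Agent.Lib.H2.SymChar1
import Cfsg.Agent.Lib.H3.Equiv
import Cfsg.Agent.Lib.H4.Const

/-! Characters of symmetric groups, II: the Frobenius formula (helper2). -/

set_option autoImplicit false
set_option linter.style.haveILetI false
set_option linter.unusedSectionVars false

namespace Cfsg.Agent.H2.Sym

open MvPolynomial Equiv Equiv.Perm Function Finset Cfsg
open scoped ComplexConjugate

variable {ι : Type*} [Fintype ι] [DecidableEq ι] {Ω : Type*} [Fintype Ω] [DecidableEq Ω]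

/-- All cycle lengths, fixed points included. -/
def pt (σ : Perm Ω) : Multiset ℕ :=
  σ.cycleType + Multiset.replicate (Fintype.card Ω - σ.cycleType.sum) 1

theorem pt_pos (σ : Perm Ω) : ∀ k ∈ pt σ, 0 < k := fun k hk => by
  rcases Multiset.mem_add.1 hk with h | h
  · exact lt_of_lt_of_le two_pos (two_le_of_mem_cycleType h)
  · rw [Multiset.eq_of_mem_replicate h]; exact one_pos

theorem sum_pt (σ : Perm Ω) : (pt σ).sum = Fintype.card Ω := by
  have := σ.sum_cycleType_le
  simp [pt]; omega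

theorem pt_one : pt (1 : Perm Ω) = Multiset.replicate (Fintype.card Ω) 1 := by simp [pt]

theorem one_notMem_cycleType (σ : Perm Ω) : 1 ∉ σ.cycleType := fun h => by
  have := two_le_of_mem_cycleType h; omega

theorem filter_pt (σ : Perm Ω) : (pt σ).filter (· ≠ 1) = σ.cycleType := by
  rw [pt, Multiset.filter_add, Multiset.filter_eq_self.2, Multiset.filter_eq_nil.2, add_zero]
  · intro a ha; simp [Multiset.eq_of_mem_replicate ha]
  · rintro a ha rfl; exact one_notMem_cycleType σ ha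

theorem pt_eq_iff {σ τ : Perm Ω} : pt σ = pt τ ↔ IsConj σ τ := by
  rw [isConj_iff_cycleType_eq]
  exact ⟨fun h => by rw [← filter_pt, h, filter_pt], fun h => by rw [pt, pt, h]⟩

theorem zz_pt (σ : Perm Ω) : zz (pt σ) = Nat.card (Subgroup.centralizer ({σ} : Set (Perm Ω))) := by
  have h : ∀ f, zz (σ.cycleType + Multiset.replicate f 1) = f.factorial * zz σ.cycleType := by
    intro f
    induction f with
    | zero => simp
    | succ f ih =>
      rw [Multiset.replicate_succ, Multiset.add_cons, zz_cons, ih, Multiset.count_add,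
        Multiset.count_eq_zero_of_notMem (one_notMem_cycleType σ), Nat.factorial_succ]
      simp [mul_assoc]
  rw [nat_card_centralizer, pt, h, zz, mul_assoc]

theorem apply_eq_of_sameCycle {σ : Perm Ω} {κ : Type*} {f : Ω → κ} (hf : f ∘ σ = f) {a b : Ω}
    (h : σ.SameCycle a b) : f a = f b := by
  obtain ⟨i, -, rfl⟩ := h.exists_pow_eq'
  clear h
  induction i with
  | zero => rfl
  | succ i ih => rw [pow_succ', Perm.mul_apply]; exact ih.trans (congrFun hf _).symm

theorem sum_fixed_aux (σ : Perm Ω) {Q : Type*} [Fintype Q] [DecidableEq Q] (q : Ω → Q)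
    (hq : Surjective q) (h : ∀ a b, q a = q b ↔ σ.SameCycle a b) :
    ∑ f : Ω → ι with f ∘ σ = f, ∏ a, (X (f a) : MvPolynomial ι ℤ) =
      ∏ x, psum ι ℤ #{a | q a = x} := by
  simp only [psum]
  rw [prod_univ_sum, Fintype.piFinset_univ]
  symm
  refine sum_bij (fun g _ => g ∘ q) (fun g _ => ?_) (fun g _ g' _ hg => hq.right_cancellable.1 hg)
    (fun f hf => ⟨f ∘ surjInv hq, mem_univ _, funext fun a => ?_⟩) fun g _ => ?_
  · simp only [mem_filter, mem_univ, true_and]
    ext a
    exact congrArg g ((h _ _).2 (sameCycle_apply_left.2 (SameCycle.refl _ _)))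
  · exact apply_eq_of_sameCycle (mem_filter.1 hf).2 ((h _ _).1 (surjInv_eq hq _))
  · simpa using prod_fiberwise' univ q fun x => (X (g x) : MvPolynomial ι ℤ)

theorem sum_fixed (σ : Perm Ω) :
    ∑ f : Ω → ι with f ∘ σ = f, ∏ a, (X (f a) : MvPolynomial ι ℤ) = pM ι (pt σ) := by
  let q : Ω → σ.cycleFactorsFinset ⊕ fixedPoints σ := fun a =>
    if h : σ a = a then .inr ⟨a, h⟩ else
      .inl ⟨σ.cycleOf a, cycleOf_mem_cycleFactorsFinset_iff.2 (mem_support.2 h)⟩
  have h1 : ∀ c a, q a = .inl c ↔ a ∈ c.1.support := by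
    intro c a
    by_cases h : σ a = a
    · simp only [q, dif_pos h, reduceCtorEq, false_iff]
      exact fun h1 => mem_support.1 (mem_cycleFactorsFinset_support_le c.2 h1) h
    · simp only [q, dif_neg h, Sum.inl.injEq, Subtype.ext_iff]
      rw [eq_comm, eq_cycleOf_of_mem_cycleFactorsFinset_iff _ _ c.2]
  have h2 : ∀ b a, q a = .inr b ↔ a = b.1 := by
    intro b a
    by_cases h : σ a = a
    · simp only [q, dif_pos h, Sum.inr.injEq, Subtype.ext_iff]
    · simp only [q, dif_neg h, reduceCtorEq, false_iff]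
      rintro rfl; exact h b.2
  rw [sum_fixed_aux σ q, Fintype.prod_sum_type, pt, pM_add, pM_replicate]
  · congr 1
    · simp only [h1, filter_univ_mem]
      rw [prod_coe_sort _ fun c : Perm Ω => psum ι ℤ #c.support, pM, cycleType_def, Multiset.map_map]
      rfl
    · simp [h2, filter_eq', ← card_fixedPoints]
  · rintro (c | b)
    · obtain ⟨a, ha⟩ := (mem_cycleFactorsFinset_iff.1 c.2).1.nonempty_support
      exact ⟨a, (h1 c a).2 ha⟩
    · exact ⟨b, (h2 b b).2 rfl⟩
  · intro a b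
    by_cases h : σ b = b
    · have : q b = .inr ⟨b, h⟩ := (h2 _ _).2 rfl
      rw [this, h2]
      exact ⟨by rintro rfl; exact SameCycle.refl _ _, fun h1 => h1.eq_of_right h⟩
    · have : q b = .inl ⟨σ.cycleOf b, cycleOf_mem_cycleFactorsFinset_iff.2 (mem_support.2 h)⟩ :=
        dif_neg h
      rw [this, h1, mem_support_cycleOf_iff' h, sameCycle_comm]

variable (Ω) in
/-- Colourings with given content. -/
def Cont (η : ι → ℕ) : Type _ := {f : Ω → ι // (fun i => #{a | f a = i}) = η}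

instance instFiniteCont (η : ι → ℕ) : Finite (Cont Ω η) := by unfold Cont; infer_instance

instance instMulActionCont (η : ι → ℕ) : MulAction (Perm Ω) (Cont Ω η) where
  smul σ f := ⟨f.1 ∘ ⇑σ⁻¹, by
    refine Eq.trans (funext fun i => ?_) f.2
    exact card_equiv σ⁻¹ (by simp)⟩
  one_smul _ := rfl
  mul_smul _ _ _ := rfl

theorem cf_pM_pt (σ : Perm Ω) (η : ι → ℕ) :
    (cf (pM ι (pt σ)) η : ℂ) = H3.permChar (Perm Ω) (Cont Ω η) σ := by
  have h : ∀ f : Ω → ι, ∏ a, (X (f a) : MvPolynomial ι ℤ) =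
      monomial (ex fun i => #{a | f a = i}) 1 := by
    intro f
    rw [← prod_fiberwise' univ f fun x => (X x : MvPolynomial ι ℤ), monomial_eq,
      Finsupp.prod_fintype _ _ (by simp)]
    simp
  rw [← sum_fixed, cf_sum, H3.permChar]
  simp only [h, cf_monomial, sum_boole, filter_filter, Int.cast_natCast, Nat.cast_inj]
  rw [← Nat.card_eq_finsetCard]
  refine Nat.card_congr ⟨fun f => ⟨⟨f.1, (mem_filter.1 f.2).2.2⟩, Subtype.ext ?_⟩,
    fun f => ⟨f.1.1, mem_filter.2 ⟨mem_univ _, ?_, f.1.2⟩⟩, fun _ => rfl, fun _ => rfl⟩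
  · ext a
    have := congrFun (mem_filter.1 f.2).2.1 (σ⁻¹ a)
    exact this.symm.trans (congrArg f.1 (σ.apply_symm_apply a))
  · ext a
    have := congrFun (congrArg Subtype.val f.2) (σ a)
    exact this.symm.trans (congrArg f.1.1 (σ.symm_apply_apply a))

theorem cf_mul_alt (u : MvPolynomial ι ℤ) (γ β : ι → ℕ) :
    cf (u * alt γ) β = ∑ τ : Perm ι, sign τ *
      if ∀ i, γ (τ i) ≤ β i then cf u (β - γ ∘ τ) else 0 := by
  rw [alt, mul_sum, cf_sum]
  refine sum_congr rfl fun τ _ => ?_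
  have : (monomial (ex (γ ∘ τ)) (sign τ : ℤ) : MvPolynomial ι ℤ) =
      (sign τ : ℤ) • monomial (ex (γ ∘ τ)) 1 := by simp [smul_monomial]
  rw [this, mul_smul_comm, cf_smul, mul_comm u, cf_monomial_mul]
  rfl

/-- The Frobenius character. -/
noncomputable def chi (N : ℕ) (β : Fin N → ℕ) (σ : Perm Ω) : ℤ := cf (V N (pt σ)) β

theorem isGen_chi (N : ℕ) (β : Fin N → ℕ) :
    IsGeneralizedCharacter (Perm Ω) fun σ => (chi N β σ : ℂ) := by
  have : (fun σ : Perm Ω => (chi N β σ : ℂ)) = ∑ τ : Perm (Fin N), ((sign τ : ℤ) : ℂ) •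
      if ∀ i, (τ i : ℕ) ≤ β i then H3.permChar (Perm Ω) (Cont Ω (β - Fin.val ∘ τ)) else 0 := by
    ext σ
    simp only [chi, V, cf_mul_alt, Finset.sum_apply, Pi.smul_apply, smul_eq_mul, Int.cast_sum,
      Int.cast_mul]
    refine sum_congr rfl fun τ _ => ?_
    split_ifs <;> simp [cf_pM_pt]
  rw [this]
  refine H3.IsGeneralized_sum _ fun τ _ => H3.IsGeneralized_intCast_smul _ ?_
  split_ifs
  exacts [H3.IsCharacter_isGeneralized (H3.isCharacter_permChar _), H3.isGeneralized_zero]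

theorem exists_perm {β γ : ι → ℕ} (hβ : Injective β) (hγ : Injective γ)
    (h : Set.range β = Set.range γ) : ∃ τ : Perm ι, β = γ ∘ τ :=
  ⟨(ofInjective β hβ).trans ((Equiv.setCongr h).trans (ofInjective γ hγ).symm), funext fun i => by
    simp [apply_ofInjective_symm hγ]⟩

/-- The increasing enumeration of a bead configuration. -/
noncomputable def rep (N : ℕ) (S : Finset ℕ) : Fin N → ℕ :=
  if h : S.card = N then S.orderEmbOfFin h else 0

theorem rep_strictMono {N : ℕ} {S : Finset ℕ} (h : S.card = N) : StrictMono (rep N S) := by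
  rw [rep, dif_pos h]; exact (S.orderEmbOfFin h).strictMono

theorem rep_inj {N : ℕ} {S : Finset ℕ} (h : S.card = N) : Injective (rep N S) :=
  (rep_strictMono h).injective

theorem range_rep {N : ℕ} {S : Finset ℕ} (h : S.card = N) : Set.range (rep N S) = S := by
  rw [rep, dif_pos h]; exact range_orderEmbOfFin S h

theorem image_rep {N : ℕ} {S : Finset ℕ} (h : S.card = N) : univ.image (rep N S) = S := by
  apply Finset.coe_injective; rw [coe_image, coe_univ, Set.image_univ, range_rep h]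

theorem sum_rep {N : ℕ} {S : Finset ℕ} (h : S.card = N) {A : Type*} [AddCommMonoid A]
    (F : ℕ → A) : ∑ i, F (rep N S i) = ∑ s ∈ S, F s := by
  conv_rhs => rw [← image_rep h, sum_image (rep_inj h).injOn]

theorem exists_rep {N : ℕ} {β : Fin N → ℕ} (h : Injective β) :
    ∃ τ : Perm (Fin N), β = rep N (univ.image β) ∘ τ := by
  have h1 : (univ.image β).card = N := by simp [card_image_of_injective _ h]
  exact exists_perm h (rep_inj h1) (by simp [range_rep h1])

/-- Bead configurations of given weight. -/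
def Cfg (N n : ℕ) : Finset (Finset ℕ) :=
  (powersetCard N (range (N.choose 2 + n + 1))).filter fun S => ∑ s ∈ S, s = N.choose 2 + n

theorem mem_Cfg {N n : ℕ} {S : Finset ℕ} :
    S ∈ Cfg N n ↔ S.card = N ∧ ∑ s ∈ S, s = N.choose 2 + n := by
  simp only [Cfg, mem_filter, mem_powersetCard, and_assoc, and_iff_right_iff_imp]
  rintro ⟨-, h⟩ s hs
  have := single_le_sum (f := fun s => s) (fun _ _ => Nat.zero_le _) hs
  exact mem_range.2 (by omega)

theorem image_mem_Cfg {N n : ℕ} {β : Fin N → ℕ} (h : Injective β)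
    (h1 : ∑ i, β i = N.choose 2 + n) : univ.image β ∈ Cfg N n :=
  mem_Cfg.2 ⟨by simp [card_image_of_injective _ h], by rwa [sum_image h.injOn]⟩

theorem ipw_eq_sum_Cfg {N n : ℕ} {w : (Fin N → ℕ) → ℤ} (hw : ∀ β (τ : Perm (Fin N)), w (β ∘ τ) = w β)
    {u v : MvPolynomial (Fin N) ℤ} (hu : Anti u) (hv : Anti v) (hd : Hom (N.choose 2 + n) u) :
    ipw w v u = N.factorial *
      ∑ S ∈ Cfg N n, w (rep N S) * (cf u (rep N S) * cf v (rep N S)) := by
  rw [ipw_eq_sum w u v ((Cfg N n ×ˢ univ).image fun x : _ × Perm (Fin N) => rep N x.1 ∘ x.2),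
    sum_image, sum_product, mul_sum]
  · refine sum_congr rfl fun S _ => ?_
    simp only [hw, hu _ _, hv _ _]
    rw [sum_congr rfl fun τ _ => by
      rw [mul_mul_mul_comm, ← Units.val_mul, Int.units_mul_self, Units.val_one, one_mul]]
    simp [Fintype.card_perm]
  · rintro ⟨S, τ⟩ h ⟨S', τ'⟩ h' h1
    have hS := (mem_Cfg.1 (mem_product.1 h).1).1
    have hS' := (mem_Cfg.1 (mem_product.1 h').1).1
    have h2 := congrArg Set.range h1
    simp only [EquivLike.range_comp, range_rep hS, range_rep hS', Finset.coe_inj] at h2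
    subst h2
    exact Prod.ext rfl (Equiv.ext fun i => rep_inj hS (congrFun h1 i))
  · intro β hβ
    obtain ⟨τ, hτ⟩ := exists_rep (hu.inj hβ)
    exact mem_image.2 ⟨(_, τ), mem_product.2 ⟨image_mem_Cfg (hu.inj hβ) (hd β hβ), mem_univ _⟩,
      hτ.symm⟩

/-- The Frobenius character of a bead configuration. -/
noncomputable def ch (N : ℕ) (S : Finset ℕ) (σ : Perm Ω) : ℤ := chi N (rep N S) σ

theorem hom_V_pt (N : ℕ) (σ : Perm Ω) : Hom (N.choose 2 + Fintype.card Ω) (V N (pt σ)) :=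
  sum_pt σ ▸ hom_V N (pt σ)

theorem sum_ch_mul {N : ℕ} (hN : Fintype.card Ω ≤ N) (x y : Perm Ω) :
    ∑ S ∈ Cfg N (Fintype.card Ω), (ch N S x : ℂ) * ch N S y =
      ∑ χ : IrrCharacter (Perm Ω), χ.1 x * conj (χ.1 y) := by
  have h := ipw_eq_sum_Cfg (w := 1) (fun _ _ => rfl) (anti_V N (pt x)) (anti_V N (pt y))
    (hom_V_pt N x)
  rw [ipw_V_V _ _ (pt_pos x) (pt_pos y) (by rwa [sum_pt])] at h
  have hN : (N.factorial : ℤ) ≠ 0 := by exact_mod_cast N.factorial_ne_zero
  simp only [Pi.one_apply, one_mul, pt_eq_iff] at h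
  split_ifs at h with hxy
  · rw [H3.column_orthogonality_of_isConj hxy, ← zz_pt]
    push_cast at h
    exact_mod_cast (mul_left_cancel₀ hN h).symm
  · rw [H3.column_orthogonality_of_not_isConj hxy]
    exact_mod_cast (mul_eq_zero.1 h.symm).resolve_left hN

/-- Coefficients of powers of power sums. -/
theorem cf_psum_pow {k : ℕ} (hk : k ≠ 0) (w : ℕ) {η : ι → ℕ} (h : ∑ i, η i = k * w) :
    (cf (psum ι ℤ k ^ w) η : ℚ) =
      w.factorial * ∏ i, if k ∣ η i then (((η i / k).factorial : ℚ))⁻¹ else 0 := by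
  have h1 : psum ι ℤ k ^ w = expand k ((∑ i, X i) ^ w) := by simp [psum]
  rw [h1, cf]
  by_cases h2 : ∀ i, k ∣ η i
  · choose η' hη using h2
    obtain rfl : η = fun i => k * η' i := funext hη
    have h3 : ∑ i, η' i = w := by rwa [← mul_sum, mul_right_inj' hk] at h
    have h4 : ex (fun i => k * η' i) = k • ex η' := by ext; simp
    rw [h4, coeff_expand_smul _ hk, coeff_sum_X_pow_of_fintype, Finsupp.sum_fintype _ _ (by simp),
      if_pos (by simpa using h3), Finsupp.multinomial_eq_of_support_subset (subset_univ _)]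
    simp only [dvd_mul_right, if_true, Nat.mul_div_cancel_left _ (Nat.pos_of_ne_zero hk),
      prod_inv_distrib]
    rw [← h3, ← Nat.multinomial_spec univ η']
    have : (∏ i, ((η' i).factorial : ℚ)) ≠ 0 := by positivity
    push_cast
    field_simp
    rfl
  · push Not at h2
    obtain ⟨i, hi⟩ := h2
    rw [coeff_expand_of_not_dvd _ (i := i) hi, prod_eq_zero (mem_univ i) (if_neg hi)]
    simp

/-- Entries of the determinantal formula. -/
def ent (k b c : ℕ) : ℚ := if c ≤ b ∧ k ∣ b - c then ((((b - c) / k).factorial : ℚ))⁻¹ else 0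

theorem cf_psum_pow_alt {k : ℕ} (hk : k ≠ 0) (w : ℕ) {β γ : ι → ℕ}
    (h : ∑ i, β i = ∑ i, γ i + k * w) :
    (cf (psum ι ℤ k ^ w * alt γ) β : ℚ) =
      w.factorial * (Matrix.of fun i j => ent k (β i) (γ j)).det := by
  rw [cf_mul_alt, ← Matrix.det_transpose, Matrix.det_apply', mul_sum]
  push_cast
  refine sum_congr rfl fun τ _ => ?_
  rw [mul_left_comm]
  congr 1
  split_ifs with h1
  · rw [cf_psum_pow hk]
    · simp [ent, h1]
    · simp only [Pi.sub_apply, comp_apply]
      rw [sum_tsub_distrib _ fun i _ => h1 i, h, Equiv.sum_comp τ γ, Nat.add_sub_cancel_left]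
  · push Not at h1
    obtain ⟨i, hi⟩ := h1
    rw [prod_eq_zero (mem_univ i), mul_zero]
    simp [ent, hi.not_ge]

theorem chi_one_mul {N : ℕ} {β : Fin N → ℕ} (h : ∑ i, β i = N.choose 2 + Fintype.card Ω) :
    (chi N β (1 : Perm Ω) : ℚ) * ∏ i, ((β i).factorial : ℚ) =
      (Fintype.card Ω).factorial * ∏ i, ∏ j ∈ Ioi i, ((β j : ℚ) - β i) := by
  rw [chi, pt_one, V, pM_replicate, cf_psum_pow_alt one_ne_zero _ (by rw [h, sum_val, one_mul]),
    mul_assoc, mul_comm (Matrix.det _), ← Matrix.det_mul_column, ← Matrix.det_vandermonde,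
    Matrix.det_eval_matrixOfPolynomials_eq_det_vandermonde _ (fun i => descPochhammer ℚ i)
      (fun i => descPochhammer_natDegree ℚ i) fun i => monic_descPochhammer ℚ i]
  congr 2
  ext i j
  simp only [Matrix.of_apply, ent, one_dvd, and_true, Nat.div_one,
    descPochhammer_eval_eq_descFactorial]
  split_ifs with h1
  · rw [← Nat.factorial_mul_descFactorial h1]
    have : (((β i - j).factorial : ℕ) : ℚ) ≠ 0 := by positivity
    push_cast; field_simp
  · simp [Nat.descFactorial_of_lt (not_le.1 h1)]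

theorem chi_one_ne_zero {N : ℕ} {β : Fin N → ℕ} (hβ : Injective β)
    (h : ∑ i, β i = N.choose 2 + Fintype.card Ω) : chi N β (1 : Perm Ω) ≠ 0 := by
  intro h0
  have h1 := chi_one_mul h
  rw [h0, Int.cast_zero, zero_mul, eq_comm, mul_eq_zero] at h1
  refine h1.elim (by exact_mod_cast Nat.factorial_ne_zero _) (prod_ne_zero_iff.2 fun i _ =>
    prod_ne_zero_iff.2 fun j hj => sub_ne_zero.2 ?_)
  exact_mod_cast hβ.ne (mem_Ioi.1 hj).ne'

theorem ch_one_ne_zero {N : ℕ} {S : Finset ℕ} (h : S ∈ Cfg N (Fintype.card Ω)) :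
    ch N S (1 : Perm Ω) ≠ 0 :=
  chi_one_ne_zero (rep_inj (mem_Cfg.1 h).1) (by
    rw [sum_rep (mem_Cfg.1 h).1 fun s => s, (mem_Cfg.1 h).2])

/-- `χ` is, up to sign, the Frobenius character of `S`. -/
def IsCh (N : ℕ) (S : Finset ℕ) (χ : IrrCharacter (Perm Ω)) : Prop :=
  ∃ ε : ℤ, ε * ε = 1 ∧ ∀ σ, χ.1 σ = ε * ch N S σ

theorem exists_equiv_cfg {N : ℕ} (hN : Fintype.card Ω ≤ N) :
    ∃ e : IrrCharacter (Perm Ω) ≃ Cfg N (Fintype.card Ω), ∀ χ, IsCh N (e χ) χ := by
  classical
  let φ : Cfg N (Fintype.card Ω) → Perm Ω → ℂ := fun S σ => ch N S σ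
  have hφ : ∀ S, IsGeneralizedCharacter _ (φ S) := fun S => isGen_chi N _
  let m : Cfg N (Fintype.card Ω) → IrrCharacter (Perm Ω) → ℤ := fun S χ => H4.zmult (φ S) χ
  have hm : ∀ S χ, (m S χ : ℂ) = classInner (φ S) χ := fun S χ => H4.zmult_cast_irr (hφ S) χ
  have h1 : ∀ χ : IrrCharacter (Perm Ω), ∑ S, (m S χ : ℂ) • φ S = χ := by
    intro χ
    ext y
    have h2 : ∑ S, φ S y • φ S = ∑ ψ : IrrCharacter (Perm Ω), conj (ψ.1 y) • ψ.1 := by
      ext x
      simp only [Finset.sum_apply, Pi.smul_apply, smul_eq_mul, mul_comm _ (φ _ x),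
        mul_comm (conj _)]
      rw [← sum_ch_mul hN, ← sum_coe_sort (Cfg N _)]
    have h3 := congrArg (fun f => conj (classInner f χ.1)) h2
    simp only [H3.classInner_sum_irr] at h3
    simp only [H3.classInner_sum_left, H3.classInner_smul_left, ← hm,
      map_sum, map_mul, Complex.conj_conj, φ, map_intCast] at h3
    simpa [φ, mul_comm] using h3
  have h2 : ∀ χ ψ : IrrCharacter (Perm Ω), ∑ S, m S χ * m S ψ = if χ = ψ then 1 else 0 := by
    intro χ ψ
    have h3 := congrArg (fun f => classInner f ψ.1) (h1 χ)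
    simp only [H3.classInner_sum_left, H3.classInner_smul_left, ← hm, H3.classInner_irr] at h3
    exact_mod_cast h3
  choose a ha ha' using fun χ => H4.int_vec_norm_one (fun S => m S χ) (by rw [h2, if_pos rfl])
  have h3 : ∀ χ, (m (a χ) χ : ℂ) • φ (a χ) = χ := fun χ => by
    rw [← h1 χ, sum_eq_single (a χ) (fun S _ hS => by simp [ha' χ S hS]) (by simp)]
  refine ⟨Equiv.ofBijective a ⟨fun χ ψ h => ?_, fun S => ?_⟩, fun χ => ⟨m (a χ) χ, ?_, fun σ => ?_⟩⟩
  · by_contra hne
    have h4 := h2 χ ψ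
    rw [if_neg hne, sum_eq_single (a χ) (fun S _ hS => by simp [ha' χ S hS]) (by simp)] at h4
    have h5 := ha χ
    have h6 := ha ψ
    rw [← h] at h6
    rcases h5 with h5 | h5 <;> rcases h6 with h6 | h6 <;> simp [h5, h6] at h4
  · obtain ⟨χ, hχ⟩ := H3.IsClassFunction_exists_irr (H3.IsGeneralized_isClassFunction (hφ S))
      fun h => ch_one_ne_zero S.2 (by simpa [φ] using congrFun h 1)
    refine ⟨χ, by_contra fun h => hχ ?_⟩
    rw [← hm, ha' χ S (Ne.symm h), Int.cast_zero]
  · rcases ha χ with h | h <;> simp [h]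
  · exact (congrFun (h3 χ) σ).symm

end Cfsg.Agent.H2.Sym
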