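import Cfsg.Agent.Lib.H2.SymChar2

/-! Characters of symmetric groups, III: degrees and the abacus (helper2). -/

set_option autoImplicit false
set_option linter.style.haveILetI false
set_option linter.unusedSectionVars false

namespace Cfsg.Agent.H2.Sym

open Equiv Equiv.Perm Function Finset Cfsg Nat

variable {Ω : Type*} [Fintype Ω] [DecidableEq Ω]

/-- Product of factorials. -/
def fc (S : Finset ℕ) : ℕ := ∏ t ∈ S, t !

/-- Product of differences. -/
def vd (S : Finset ℕ) : ℕ := ∏ t ∈ S, ∏ s ∈ S with s < t, (t - s)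

/-- Size of the partition. -/
def wt (S : Finset ℕ) : ℕ := ∑ s ∈ S, s - S.card.choose 2

/-- Valuation of the hook product. -/
noncomputable def df (p : ℕ) (S : Finset ℕ) : ℤ :=
  (fc S).factorization p - (vd S).factorization p

theorem fc_ne_zero (S : Finset ℕ) : fc S ≠ 0 := prod_ne_zero_iff.2 fun _ _ => factorial_ne_zero _

theorem vd_ne_zero (S : Finset ℕ) : vd S ≠ 0 :=
  prod_ne_zero_iff.2 fun _ _ => prod_ne_zero_iff.2 fun _ h =>
    Nat.sub_ne_zero_of_lt (mem_filter.1 h).2

theorem choose_add_wt (S : Finset ℕ) : S.card.choose 2 + wt S = ∑ s ∈ S, s :=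
  Nat.add_sub_cancel' (choose_le_sum S)

theorem mem_Cfg' {N n : ℕ} {S : Finset ℕ} : S ∈ Cfg N n ↔ S.card = N ∧ wt S = n := by
  rw [mem_Cfg, ← choose_add_wt]
  exact and_congr_right fun h => by rw [h, add_right_inj]

theorem mem_of_wt {S : Finset ℕ} {j : ℕ} (h : j + wt S < S.card) : j ∈ S := by
  by_contra h2
  have := choose_le_sum (insert j S)
  rw [card_insert_of_notMem h2, sum_insert h2, Nat.choose_succ_succ' _ 1, Nat.choose_one_right,
    ← choose_add_wt] at this
  simp only [Nat.reduceAdd] at this
  omega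

theorem eq_range_of_wt {S : Finset ℕ} (h : wt S = 0) : S = range S.card :=
  (eq_of_subset_of_card_le (fun j hj => mem_of_wt (by simpa [h] using hj)) (by simp)).symm

theorem ch_one_mul {N : ℕ} {S : Finset ℕ} (h : S ∈ Cfg N (Fintype.card Ω)) :
    ch N S (1 : Perm Ω) * fc S = (Fintype.card Ω)! * vd S := by
  obtain ⟨h1, h2⟩ := mem_Cfg.1 h
  have h3 := chi_one_mul (Ω := Ω) (β := rep N S) (by rw [sum_rep h1 fun s => s, h2])
  have h4 : (fc S : ℚ) = ∏ i, ((rep N S i)! : ℚ) := by
    conv_lhs => rw [fc, ← image_rep h1, prod_image (rep_inj h1).injOn]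
    push_cast; rfl
  have h5 : (vd S : ℚ) = ∏ i, ∏ j ∈ Ioi i, ((rep N S j : ℚ) - rep N S i) := by
    rw [prod_comm' (t' := univ) (s' := fun j => Iio j) (by simp)]
    conv_lhs => rw [vd, ← image_rep h1, prod_image (rep_inj h1).injOn]
    push_cast
    refine prod_congr rfl fun j _ => ?_
    rw [filter_image, prod_image (rep_inj h1).injOn]
    refine prod_congr (by ext; simp [(rep_strictMono h1).lt_iff_lt]) fun i hi => ?_
    rw [Nat.cast_sub ((rep_strictMono h1).monotone (mem_Iio.1 hi).le)]
  rw [← h4, ← h5] at h3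
  exact_mod_cast h3

theorem ch_one_pos {N : ℕ} {S : Finset ℕ} (h : S ∈ Cfg N (Fintype.card Ω)) :
    0 < ch N S (1 : Perm Ω) := by
  have h1 := ch_one_mul h
  have h2 : (0 : ℤ) < (Fintype.card Ω)! * vd S := by
    have := vd_ne_zero S; positivity
  rw [← h1] at h2
  exact (mul_pos_iff_of_pos_right (by have := fc_ne_zero S; positivity)).1 h2

theorem val_ch_one {N : ℕ} {S : Finset ℕ} (h : S ∈ Cfg N (Fintype.card Ω)) (p : ℕ) {d : ℕ}
    (hd : ch N S (1 : Perm Ω) = d) :
    d.factorization p + df p S = (Fintype.card Ω)!.factorization p := by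
  have h1 := ch_one_mul h
  have h2 := ch_one_pos h
  rw [hd] at h1 h2
  have h3 := congrArg (fun n => n.factorization p) (show d * fc S = _ * vd S by exact_mod_cast h1)
  simp only [Nat.factorization_mul (by omega : d ≠ 0) (fc_ne_zero S), Finsupp.add_apply,
    Nat.factorization_mul (factorial_ne_zero _) (vd_ne_zero S)] at h3
  rw [df]; omega

theorem df_le (p : ℕ) (S : Finset ℕ) : df p S ≤ (wt S)!.factorization p := by
  have h : S ∈ Cfg S.card (Fintype.card (Fin (wt S))) := mem_Cfg'.2 ⟨rfl, by simp⟩
  have := val_ch_one h p (Int.toNat_of_nonneg (ch_one_pos h).le).symm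
  rw [Fintype.card_fin] at this
  omega

/-- The parametrisation of the irreducible characters. -/
theorem exists_equiv_cfg' {N : ℕ} (hN : Fintype.card Ω ≤ N) :
    ∃ e : IrrCharacter (Perm Ω) ≃ Cfg N (Fintype.card Ω), ∀ χ σ, χ.1 σ = ch N (e χ) σ := by
  obtain ⟨e, he⟩ := exists_equiv_cfg hN
  refine ⟨e, fun χ => ?_⟩
  obtain ⟨ε, h1, h2⟩ := he χ
  obtain ⟨d, hd, hd'⟩ := H3.IsIrrCharacter_apply_one χ.2
  have h3 : (d : ℤ) = ε * ch N (e χ) (1 : Perm Ω) := by exact_mod_cast hd'.symm.trans (h2 1)
  have h4 := ch_one_pos (e χ).2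
  rcases Int.eq_one_or_neg_one_of_mul_eq_one h1 with rfl | rfl
  · simpa using h2
  · omega

section abacus

variable {p : ℕ} [hp : Fact p.Prime]

/-- Runners of the abacus. -/
def run (p : ℕ) (S : Finset ℕ) (r : ℕ) : Finset ℕ := (S.filter (· % p = r)).image (· / p)

theorem mem_run {S : Finset ℕ} {r q : ℕ} (hr : r < p) : q ∈ run p S r ↔ p * q + r ∈ S := by
  simp only [run, mem_image, mem_filter]
  refine ⟨?_, fun h => ⟨_, ⟨h, ?_⟩, ?_⟩⟩
  · rintro ⟨t, ⟨h, rfl⟩, rfl⟩; rwa [div_add_mod]
  · rw [mul_add_mod, mod_eq_of_lt hr]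
  · rw [mul_add_div hp.out.pos, div_eq_of_lt hr, add_zero]

theorem sum_run' {A : Type*} [AddCommMonoid A] (S : Finset ℕ) (F : ℕ → A) (r : ℕ) :
    ∑ t ∈ S with t % p = r, F t = ∑ q ∈ run p S r, F (p * q + r) := by
  rw [run, sum_image]
  · exact sum_congr rfl fun t ht => by rw [← (mem_filter.1 ht).2, div_add_mod]
  · intro a ha b hb h
    rw [← div_add_mod a p, ← div_add_mod b p, (mem_filter.1 ha).2, (mem_filter.1 hb).2]
    exact congrArg (p * · + r) h

theorem sum_run {A : Type*} [AddCommMonoid A] (S : Finset ℕ) (F : ℕ → A) :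
    ∑ t ∈ S, F t = ∑ r ∈ range p, ∑ q ∈ run p S r, F (p * q + r) := by
  rw [← sum_fiberwise_of_maps_to (g := (· % p)) (t := range p)
    fun x _ => mem_range.2 (mod_lt _ hp.out.pos)]
  simp only [sum_run']

theorem card_run (S : Finset ℕ) (r : ℕ) : (run p S r).card = #{t ∈ S | t % p = r} := by
  simpa using (sum_run' (p := p) S (fun _ => (1 : ℕ)) r).symm

theorem ext_run {S T : Finset ℕ} (h : ∀ r < p, run p S r = run p T r) : S = T := by
  ext t
  have h1 := mod_lt t hp.out.pos
  rw [← div_add_mod t p, ← mem_run h1, ← mem_run h1, h _ h1]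

theorem exists_run (T : ℕ → Finset ℕ) : ∃ S, ∀ r < p, run p S r = T r := by
  refine ⟨(range p).biUnion fun r => (T r).image (p * · + r), fun r hr => ?_⟩
  ext q
  simp only [mem_run hr, mem_biUnion, Finset.mem_range, mem_image]
  refine ⟨?_, fun h => ⟨r, hr, q, h, rfl⟩⟩
  rintro ⟨r', hr', q', h, h1⟩
  have h2 := congrArg (· % p) h1
  simp only [mul_add_mod, mod_eq_of_lt hr, mod_eq_of_lt hr'] at h2
  subst h2
  rwa [← Nat.eq_of_mul_eq_mul_left hp.out.pos (add_right_cancel h1)]

theorem card_eq_sum_run (S : Finset ℕ) : S.card = ∑ r ∈ range p, (run p S r).card := by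
  simpa using sum_run (p := p) S fun _ => (1 : ℕ)

/-- The weight. -/
def wp (p : ℕ) (S : Finset ℕ) : ℕ := ∑ r ∈ range p, wt (run p S r)

theorem sum_eq_wp (S : Finset ℕ) : ∑ s ∈ S, s = p * wp p S +
    ∑ r ∈ range p, (p * (run p S r).card.choose 2 + r * (run p S r).card) := by
  rw [sum_run (p := p), wp, mul_sum, ← sum_add_distrib]
  refine sum_congr rfl fun r _ => ?_
  rw [sum_add_distrib, ← mul_sum, ← choose_add_wt, sum_const, smul_eq_mul]
  ring

theorem val_factorial (q : ℕ) {r : ℕ} (hr : r < p) :
    (p * q + r)!.factorization p = q + (q)!.factorization p := by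
  rw [factorization_def _ hp.out, factorization_def _ hp.out, padicValNat_factorial_mul_add _ hr,
    padicValNat_factorial_mul, add_comm]

theorem sum_card_lt (T : Finset ℕ) : ∑ t ∈ T, #{s ∈ T | s < t} = T.card.choose 2 := by
  induction T using Finset.induction_on_max with
  | empty => simp
  | insert a s ha ih =>
    have h : a ∉ s := fun h => lt_irrefl _ (ha a h)
    rw [card_insert_of_notMem h, sum_insert h, Nat.choose_succ_succ' _ 1, Nat.choose_one_right,
      ← ih, filter_insert, if_neg (lt_irrefl _), filter_true_of_mem ha]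
    congr 1
    exact sum_congr rfl fun t ht => by rw [filter_insert, if_neg (ha t ht).not_gt]

theorem val_vd (S : Finset ℕ) : (vd S).factorization p =
    ∑ t ∈ S, ∑ s ∈ S, if s < t then (t - s).factorization p else 0 := by
  have h : ∀ t, ∀ s ∈ S.filter (· < t), t - s ≠ 0 := fun t s h =>
    Nat.sub_ne_zero_of_lt (mem_filter.1 h).2
  rw [vd, factorization_prod_apply fun t _ => prod_ne_zero_iff.2 (h t)]
  exact sum_congr rfl fun t _ => by rw [factorization_prod_apply (h t), sum_filter]

theorem df_eq (S : Finset ℕ) : df p S = wp p S + ∑ r ∈ range p, df p (run p S r) := by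
  have h1 : (fc S).factorization p =
      ∑ r ∈ range p, (∑ q ∈ run p S r, q + (fc (run p S r)).factorization p) := by
    simp only [fc, factorization_prod_apply fun t _ => factorial_ne_zero t]
    rw [sum_run (p := p)]
    refine sum_congr rfl fun r hr => ?_
    simp only [val_factorial _ (mem_range.1 hr), sum_add_distrib]
  have h2 : (vd S).factorization p =
      ∑ r ∈ range p, ((run p S r).card.choose 2 + (vd (run p S r)).factorization p) := by
    simp only [val_vd]
    rw [sum_run (p := p)]
    refine sum_congr rfl fun r hr => ?_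
    rw [← sum_card_lt, ← sum_add_distrib]
    refine sum_congr rfl fun q _ => ?_
    rw [sum_run (p := p), sum_eq_single_of_mem r hr, card_filter, ← sum_add_distrib]
    · refine sum_congr rfl fun q' _ => ?_
      simp only [add_lt_add_iff_right, Nat.mul_lt_mul_left hp.out.pos, Nat.add_sub_add_right,
        ← Nat.mul_sub]
      split_ifs with h
      · rw [Nat.factorization_mul hp.out.ne_zero (Nat.sub_ne_zero_of_lt h), Finsupp.add_apply,
          hp.out.factorization_self]
      · rfl
    · refine fun r' hr' hne => sum_eq_zero fun q' _ => ?_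
      split_ifs with h
      · refine factorization_eq_zero_of_not_dvd fun h1 => hne ?_
        have h2 := (modEq_iff_dvd' h.le).2 h1
        simpa [ModEq, mod_eq_of_lt (mem_range.1 hr), mod_eq_of_lt (mem_range.1 hr')] using h2
      · rfl
  rw [df, h1, h2, wp]
  simp only [df, ← choose_add_wt]
  push_cast
  simp only [sum_add_distrib, sum_sub_distrib]
  ring

theorem df_nonneg (S : Finset ℕ) : 0 ≤ df p S := by
  induction h : ∑ s ∈ S, s using Nat.strong_induction_on generalizing S with
  | _ n ih =>
    by_cases h0 : n = 0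
    · have h1 : S ⊆ {0} := fun s hs => by simpa using sum_eq_zero_iff.1 (h.trans h0) s hs
      rcases subset_singleton_iff.1 h1 with rfl | rfl <;> simp [df, fc, vd]
    rw [df_eq]
    refine add_nonneg (by positivity) (sum_nonneg fun r hr => ih _ ?_ _ rfl)
    have h1 := single_le_sum (f := fun r => ∑ q ∈ run p S r, (p * q + r))
      (fun _ _ => Nat.zero_le _) hr
    rw [← sum_run S fun s => s, h, sum_add_distrib, ← mul_sum] at h1
    have := hp.out.two_le
    have := Nat.mul_le_mul_right (∑ q ∈ run p S r, q) this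
    omega

theorem df_le_wp (S : Finset ℕ) : df p S ≤ (p * wp p S)!.factorization p := by
  have h1 : ∑ r ∈ range p, df p (run p S r) ≤ (wp p S)!.factorization p := by
    refine (sum_le_sum fun r _ => df_le p _).trans ?_
    rw [← Nat.cast_sum, Nat.cast_le, ← factorization_prod_apply fun _ _ => factorial_ne_zero _]
    exact (factorization_le_iff_dvd (prod_ne_zero_iff.2 fun _ _ => factorial_ne_zero _)
      (factorial_ne_zero _)).2 (prod_factorial_dvd_factorial_sum _ _) p
  have h2 := val_factorial (wp p S) hp.out.pos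
  rw [add_zero] at h2
  rw [df_eq, h2]; push_cast; omega

theorem wp_le_df (S : Finset ℕ) : wp p S ≤ df p S := by
  have : 0 ≤ ∑ r ∈ range p, df p (run p S r) := sum_nonneg fun _ _ => df_nonneg _
  rw [df_eq]; omega

theorem wt_range (c : ℕ) : wt (range c) = 0 := by
  rw [wt, card_range, sum_range_id, Nat.choose_two_right, Nat.sub_self]

theorem df_of_wt {S : Finset ℕ} (h : wt S = 0) : df p S = 0 :=
  le_antisymm (by simpa [h] using df_le p S) (df_nonneg S)

theorem exists_shift (T : Finset ℕ) {c : ℕ} (hc : T.card ≤ c) :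
    ∃ T' : Finset ℕ, T'.card = c ∧ wt T' = wt T ∧ df p T' = df p T := by
  induction c, hc using Nat.le_induction with
  | base => exact ⟨T, rfl, rfl, rfl⟩
  | succ c _ ih =>
    obtain ⟨T, rfl, h1, h2⟩ := ih
    have h0 : 0 ∉ T.image (· + 1) := by simp
    have hi : Set.InjOn (· + 1) (T : Set ℕ) := (add_left_injective 1).injOn
    have hc : (insert 0 (T.image (· + 1))).card = T.card + 1 := by
      rw [card_insert_of_notMem h0, Finset.card_image_of_injOn hi]
    refine ⟨insert 0 (T.image (· + 1)), hc, h1 ▸ ?_, h2 ▸ ?_⟩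
    · rw [wt, hc, sum_insert h0, sum_image hi, sum_add_distrib, ← choose_add_wt,
        Nat.choose_succ_succ' _ 1]
      simp only [sum_const, smul_eq_mul, Nat.choose_one_right, Nat.reduceAdd]
      omega
    · have h3 : fc (insert 0 (T.image (· + 1))) = (∏ t ∈ T, (t + 1)) * fc T := by
        simp only [fc, prod_insert h0, prod_image hi, factorial_succ, prod_mul_distrib,
          factorial_zero, one_mul]
      have h4 : vd (insert 0 (T.image (· + 1))) = (∏ t ∈ T, (t + 1)) * vd T := by
        rw [vd, prod_insert h0, prod_image hi, vd, ← prod_mul_distrib]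
        simp only [Nat.not_lt_zero, filter_false, prod_empty, one_mul]
        refine prod_congr rfl fun t _ => ?_
        rw [filter_insert, if_pos t.succ_pos, prod_insert (by simp), filter_image,
          prod_image (add_left_injective 1).injOn]
        simp
      have h5 : ∏ t ∈ T, (t + 1) ≠ 0 := by positivity
      simp only [df, h3, h4, Nat.factorization_mul h5 (fc_ne_zero _),
        Nat.factorization_mul h5 (vd_ne_zero _), Finsupp.add_apply]
      push_cast; ring

theorem wt_singleton (u : ℕ) : wt {u} = u := by simp [wt]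

theorem df_singleton (u : ℕ) : df p {u} = (u)!.factorization p := by
  simp [df, fc, vd, filter_singleton]

/-- Same number of beads on each runner. -/
def SameCnt (p : ℕ) (S T : Finset ℕ) : Prop := ∀ r < p, (run p S r).card = (run p T r).card

theorem SameCnt.card_eq {S T : Finset ℕ} (h : SameCnt p S T) : S.card = T.card := by
  rw [card_eq_sum_run (p := p), card_eq_sum_run (p := p)]
  exact sum_congr rfl fun r hr => h r (mem_range.1 hr)

theorem SameCnt.wt_add {S T : Finset ℕ} (h : SameCnt p S T) :
    wt S + p * wp p T = wt T + p * wp p S := by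
  have h1 := choose_add_wt S
  have h2 := choose_add_wt T
  rw [sum_eq_wp (p := p)] at h1 h2
  rw [h.card_eq, sum_congr rfl fun r hr => by rw [h r (mem_range.1 hr)]] at h1
  omega

theorem SameCnt.wp_eq {S T : Finset ℕ} (h : SameCnt p S T) (h1 : wt S = wt T) :
    wp p S = wp p T := by
  have := h.wt_add
  exact Nat.eq_of_mul_eq_mul_left hp.out.pos (by omega)

theorem exists_sameCnt (S : Finset ℕ) (T : ℕ → Finset ℕ)
    (h : ∀ r < p, (T r).card ≤ (run p S r).card) : ∃ S', SameCnt p S S' ∧
      ∀ r < p, wt (run p S' r) = wt (T r) ∧ df p (run p S' r) = df p (T r) := by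
  choose T' h1 h2 h3 using fun r (hr : r < p) => exists_shift (p := p) (T r) (h r hr)
  obtain ⟨S', hS⟩ := exists_run (p := p) fun r => if hr : r < p then T' r hr else ∅
  exact ⟨S', fun r hr => by rw [hS r hr, dif_pos hr, h1],
    fun r hr => by rw [hS r hr, dif_pos hr, h2, h3]; exact ⟨rfl, rfl⟩⟩

theorem exists_core (S : Finset ℕ) : ∃ K, SameCnt p S K ∧ wp p K = 0 := by
  obtain ⟨K, h, h1⟩ := exists_sameCnt (p := p) S (fun _ => ∅) (by simp)
  exact ⟨K, h, sum_eq_zero fun r hr => (h1 r (mem_range.1 hr)).1⟩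

theorem run_core {K : Finset ℕ} (h : wp p K = 0) {r : ℕ} (hr : r < p) :
    run p K r = range (run p K r).card :=
  eq_range_of_wt (sum_eq_zero_iff.1 h r (mem_range.2 hr))

theorem core_unique {K K' : Finset ℕ} (h : SameCnt p K K') (h1 : wp p K = 0) (h2 : wp p K' = 0) :
    K = K' := ext_run fun r hr => by rw [run_core h1 hr, run_core h2 hr, h r hr]

theorem df_core {K : Finset ℕ} (h : wp p K = 0) : df p K = 0 :=
  le_antisymm (by simpa [h] using df_le_wp (p := p) K) (df_nonneg K)

theorem le_card_run {S : Finset ℕ} {k : ℕ} (h : p * k + wt S ≤ S.card) {r : ℕ} (hr : r < p) :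
    k ≤ (run p S r).card := by
  rw [← card_range k]
  refine card_le_card fun q hq => (mem_run hr).2 (mem_of_wt ?_)
  have := Nat.mul_le_mul_left p (Nat.succ_le_of_lt (mem_range.1 hq))
  rw [Nat.mul_succ] at this
  omega

theorem exists_three (w : ℕ) (hw : p ≤ w) : ∃ a b c, a + b + c = w ∧
    (a)!.factorization p + (b)!.factorization p + (c)!.factorization p + 1 = (w)!.factorization p := by
  induction w using Nat.strong_induction_on with
  | _ w ih =>
    have h2 := hp.out.two_le
    have h0 : ∀ r < p, (r)!.factorization p = 0 := fun r hr => by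
      simpa using val_factorial 0 hr
    have hr := mod_lt w hp.out.pos
    have hq : w / p < w := Nat.div_lt_self (by omega) h2
    have hq' : 0 < w / p := Nat.div_pos hw hp.out.pos
    rw [← div_add_mod w p, val_factorial _ hr]
    generalize w / p = q at *
    generalize w % p = r at *
    by_cases h : p ≤ q
    · obtain ⟨a, b, c, rfl, h1⟩ := ih q hq h
      refine ⟨p * a + r, p * b + 0, p * c + 0, by ring, ?_⟩
      rw [val_factorial _ hr, val_factorial _ hp.out.pos, val_factorial _ hp.out.pos]
      omega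
    · obtain ⟨q, rfl⟩ := Nat.exists_eq_succ_of_ne_zero hq'.ne'
      refine ⟨p * q + (p - 1), 1, r, by rw [Nat.mul_succ]; omega, ?_⟩
      rw [val_factorial _ (by omega), h0 q (by omega), h0 r hr, h0 1 (by omega),
        h0 q.succ (by omega)]

theorem exists_height_one_odd (h2 : p ≠ 2) {S : Finset ℕ} (hS : p + wt S ≤ S.card)
    (hw : p ≤ wp p S) : ∃ S', SameCnt p S S' ∧ wt S' = wt S ∧
      df p S' + 1 = (p * wp p S)!.factorization p := by
  obtain ⟨a, b, c, h1, h3⟩ := exists_three _ hw
  obtain ⟨m, hm⟩ : ∃ m, p = 3 + m := Nat.exists_eq_add_of_le (by have := hp.out.two_le; omega)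
  let u : ℕ → ℕ := fun r => if r = 0 then a else if r = 1 then b else if r = 2 then c else 0
  have hu : ∀ F : ℕ → ℕ, F 0 = 0 → ∑ r ∈ range p, F (u r) = F a + F b + F c := fun F hF => by
    rw [hm, sum_range_add, sum_eq_zero (s := range m), add_zero]
    · simp [u, sum_range_succ]
    · intro r _
      simp only [u]
      rw [if_neg (by omega), if_neg (by omega), if_neg (by omega), hF]
  obtain ⟨S', h4, h5⟩ := exists_sameCnt (p := p) S (fun r => {u r}) fun r hr =>
    le_card_run (by simpa using hS) hr
  have h6 : wp p S' = wp p S := by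
    rw [wp, sum_congr rfl fun r hr => by rw [(h5 r (mem_range.1 hr)).1, wt_singleton],
      hu (fun a => a) rfl, h1]
  refine ⟨S', h4, by have := h4.wt_add; rw [h6] at this; omega, ?_⟩
  rw [df_eq, sum_congr rfl fun r hr => by rw [(h5 r (mem_range.1 hr)).2, df_singleton],
    ← Nat.cast_sum, hu (fun a => (a)!.factorization p) (by simp), h6,
    ← add_zero (p * _), val_factorial _ hp.out.pos, ← h3]
  push_cast; ring

theorem exists_height_zero {S : Finset ℕ} (hS : p + wt S ≤ S.card) :
    ∃ S', SameCnt p S S' ∧ wt S' = wt S ∧ df p S' = (p * wp p S)!.factorization p := by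
  let u : ℕ → ℕ := fun r => if r = 0 then wp p S else 0
  have hu : ∀ F : ℕ → ℕ, F 0 = 0 → ∑ r ∈ range p, F (u r) = F (wp p S) := fun F hF => by
    rw [sum_eq_single_of_mem 0 (mem_range.2 hp.out.pos) fun r _ hr => by simp [u, hr, hF]]
    rfl
  obtain ⟨S', h4, h5⟩ := exists_sameCnt (p := p) S (fun r => {u r}) fun r hr =>
    le_card_run (by simpa using hS) hr
  have h6 : wp p S' = wp p S := by
    rw [wp, sum_congr rfl fun r hr => by rw [(h5 r (mem_range.1 hr)).1, wt_singleton],
      hu (fun a => a) rfl]
  refine ⟨S', h4, by have := h4.wt_add; rw [h6] at this; omega, ?_⟩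
  rw [df_eq, sum_congr rfl fun r hr => by rw [(h5 r (mem_range.1 hr)).2, df_singleton],
    ← Nat.cast_sum, hu (fun a => (a)!.factorization p) (by simp), h6,
    ← add_zero (p * _), val_factorial _ hp.out.pos]
  push_cast; ring

end abacus

theorem two_mul_choose (c : ℕ) : 2 * c.choose 2 + c = c * c := by
  induction c with
  | zero => rfl
  | succ c ih => rw [Nat.choose_succ_succ' _ 1, Nat.choose_one_right]; nlinarith

theorem exists_degree_two (w : ℕ) (hw : 3 ≤ w) :
    ∃ T : Finset ℕ, T.card ≤ w ∧ wt T = w ∧ df 2 T + 1 = (w)!.factorization 2 := by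
  induction w using Nat.strong_induction_on with
  | _ w ih =>
    by_cases h : w < 6
    · interval_cases w
      · exact ⟨{1, 3}, by simp, by simp [wt], by
          simp [df, fc, vd, filter_insert, filter_singleton, factorial,
            ← primeFactorsList_count_eq]⟩
      · exact ⟨{2, 3}, by simp, by simp [wt], by
          simp [df, fc, vd, filter_insert, filter_singleton, factorial,
            ← primeFactorsList_count_eq]⟩
      · exact ⟨{1, 2, 5}, by simp, by simp [wt], by
          simp [df, fc, vd, filter_insert, filter_singleton, factorial,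
            ← primeFactorsList_count_eq]⟩
    obtain ⟨T, h1, h2, h3⟩ := ih (w / 2) (by omega) (by omega)
    obtain ⟨S, hS⟩ := exists_run (p := 2) fun r => if r = 0 then T else range (T.card + w % 2)
    have h4 := hS 0 (by omega)
    have h5 := hS 1 (by omega)
    simp only [if_true, one_ne_zero, if_false] at h4 h5
    have h6 := card_eq_sum_run (p := 2) S
    have h7 := sum_eq_wp (p := 2) S
    have h8 := df_eq (p := 2) S
    have h9 := choose_add_wt S
    simp only [wp, sum_range_succ, sum_range_zero, h4, h5, card_range, wt_range, zero_add,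
      add_zero, df_of_wt (p := 2) (wt_range _), zero_mul, one_mul] at h6 h7 h8
    refine ⟨S, by omega, ?_, ?_⟩
    · have e1 := two_mul_choose T.card
      have e2 := two_mul_choose (T.card + w % 2)
      have e3 := two_mul_choose S.card
      rw [h6] at e3 h9
      have e4 := div_add_mod w 2
      rcases Nat.mod_two_eq_zero_or_one w with h0 | h0 <;>
        simp only [h0, add_zero] at e2 e3 e4 h7 h9 <;> linarith
    · conv_rhs => rw [← div_add_mod w 2, val_factorial _ (mod_lt w two_pos)]
      push_cast; omega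

theorem exists_height_one_two {S : Finset ℕ} (hS : 2 * wt S + wt S ≤ S.card)
    (hw : 3 ≤ wp 2 S) : ∃ S', SameCnt 2 S S' ∧ wt S' = wt S ∧ wt (run 2 S' 0) ≠ 0 ∧
      wt (run 2 S' 1) = 0 ∧ df 2 S' + 1 = (2 * wp 2 S)!.factorization 2 := by
  obtain ⟨T, h1, h2, h3⟩ := exists_degree_two _ hw
  obtain ⟨K, hK, hK'⟩ := exists_core (p := 2) S
  have h0 := hK.wt_add
  obtain ⟨S', h4, h5⟩ := exists_sameCnt (p := 2) S (fun r => if r = 0 then T else ∅) fun r hr => by
    have := le_card_run hS hr
    split_ifs
    · omega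
    · simp
  have h6 := h5 0 (by omega)
  have h7 := h5 1 (by omega)
  simp only [if_true, one_ne_zero, if_false] at h6 h7
  have h8 : wp 2 S' = wp 2 S := by
    rw [wp, sum_range_succ, sum_range_one, h6.1, h7.1, h2]; rfl
  refine ⟨S', h4, by have := h4.wt_add; rw [h8] at this; omega, by omega, h7.1, ?_⟩
  rw [df_eq, sum_range_succ, sum_range_one, h6.2, h7.2, h8, df_of_wt (S := ∅) rfl,
    ← add_zero (2 * _), val_factorial _ two_pos]
  push_cast; omega

end Cfsg.Agent.H2.Sym
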