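import Cfsg.Agent.Lib.H2.SymChar3
import Cfsg.Agent.Lib.H2.SymBlock1

/-! Characters of symmetric groups, IV: blocks (helper2). -/

set_option autoImplicit false
set_option linter.style.haveILetI false
set_option linter.unusedSectionVars false

namespace Cfsg.Agent.H2.Sym

open Equiv Equiv.Perm Function Finset Cfsg Nat MvPolynomial
open Cfsg.Agent.H3 Cfsg.Agent.H5
open scoped ComplexConjugate

variable {Ω : Type*} [Fintype Ω] [DecidableEq Ω] {p : ℕ} [hp : Fact p.Prime]

theorem card_run_image {ι : Type*} [Fintype ι] {β : ι → ℕ} (h : Injective β) (r : ℕ) :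
    (run p (univ.image β) r).card = #{i | β i % p = r} := by
  rw [card_run, filter_image, Finset.card_image_of_injective _ h]

theorem card_run_rep {N : ℕ} {S : Finset ℕ} (h : S.card = N) (r : ℕ) :
    (run p S r).card = #{i | rep N S i % p = r} := by
  rw [← card_run_image (rep_inj h), image_rep h]

open Classical in
theorem sum_sameCnt_eq_zero {N : ℕ} (hN : Fintype.card Ω ≤ N) (S₀ : Finset ℕ) {x y : Perm Ω}
    (hx : p ∣ orderOf x) (hy : ¬ p ∣ orderOf y) :
    ∑ S ∈ Cfg N (Fintype.card Ω), (if SameCnt p S₀ S then ch N S x * ch N S y else 0) = 0 := by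
  obtain ⟨k, hk, hpk⟩ : ∃ k ∈ x.cycleType, p ∣ k := by
    rw [← lcm_cycleType] at hx
    exact hp.out.prime.exists_mem_multiset_dvd
      (hx.trans (Multiset.lcm_dvd.2 fun _ h => Multiset.dvd_prod h))
  let w : (Fin N → ℕ) → ℤ := fun β =>
    if ∀ r < p, (run p S₀ r).card = #{i | β i % p = r} then 1 else 0
  have h1 := ipw_V_V_eq_zero (w := w) (k := k) (fun β i => by
      have : ∀ j, update β i (β i + k) j % p = β j % p := fun j => by
        by_cases hj : j = i
        · subst hj; simp [Nat.add_mod, (Nat.dvd_iff_mod_eq_zero ..).1 hpk]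
        · simp [hj]
      simp only [w, this])
    (lt_of_lt_of_le two_pos (two_le_of_mem_cycleType hk)) (μ := pt x) (ν := pt y)
    (Multiset.mem_add.2 (.inl hk)) (fun h => by
      rcases Multiset.mem_add.1 h with h | h
      · exact hy (hpk.trans (dvd_of_mem_cycleType h))
      · exact hp.out.not_dvd_one (Multiset.eq_of_mem_replicate h ▸ hpk)) (by rwa [sum_pt])
  rw [ipw_eq_sum_Cfg (fun β τ => by
    have : ∀ r, #{i | (β ∘ τ) i % p = r} = #{i | β i % p = r} := fun r => card_equiv τ (by simp)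
    simp only [w, this]) (anti_V N _) (anti_V N _) (hom_V_pt N x), _root_.mul_eq_zero] at h1
  refine Eq.trans (sum_congr rfl fun S hS => ?_)
    (h1.resolve_left (by exact_mod_cast N.factorial_ne_zero))
  simp only [w, ← card_run_rep (mem_Cfg.1 hS).1, ite_mul, one_mul, zero_mul]
  exact if_congr Iff.rfl rfl rfl

theorem expand_anti {N n : ℕ} {v : MvPolynomial (Fin N) ℤ} (hv : Anti v)
    (hd : Hom (N.choose 2 + n) v) : v = ∑ S ∈ Cfg N n, cf v (rep N S) • alt (rep N S) := by
  refine cf_ext fun β => ?_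
  simp only [cf_sum, cf_smul]
  by_cases h : Injective β ∧ ∑ i, β i = N.choose 2 + n
  · obtain ⟨τ, hτ⟩ := exists_rep h.1
    have h1 := image_mem_Cfg h.1 h.2
    generalize univ.image β = S₀ at *
    subst hτ
    rw [sum_eq_single_of_mem S₀ h1, hv, anti_alt, cf_alt_self (rep_inj (mem_Cfg.1 h1).1), mul_one,
      mul_comm]
    intro S hS hne
    rw [anti_alt, cf_alt, sum_eq_zero, mul_zero, mul_zero]
    refine fun σ _ => if_neg fun h2 => hne ?_
    have := congrArg Set.range h2
    simpa [range_rep (mem_Cfg.1 h1).1, range_rep (mem_Cfg.1 hS).1] using this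
  · rw [sum_eq_zero, ← not_ne_iff]
    · exact fun h1 => h ⟨hv.inj h1, hd _ h1⟩
    · intro S hS
      rw [not_ne_iff.1 fun h1 => h ⟨(anti_alt _).inj h1, ?_⟩, mul_zero]
      rw [hom_alt _ _ h1, sum_rep (mem_Cfg.1 hS).1 fun s => s, (mem_Cfg.1 hS).2]

theorem ent_eq (b c : ℕ) : ent p b c = if c % p = b % p then
    ((b / p).descFactorial (c / p) : ℚ) / (b / p)! else 0 := by
  rw [ent]
  have h1 := div_add_mod b p
  have h2 := div_add_mod c p
  by_cases h : c % p = b % p
  · rw [if_pos h]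
    by_cases h3 : c / p ≤ b / p
    · have h4 : b - c = p * (b / p - c / p) := by rw [Nat.mul_sub]; omega
      have := Nat.mul_le_mul_left p h3
      rw [if_pos ⟨by omega, h4 ▸ dvd_mul_right _ _⟩, h4, Nat.mul_div_cancel_left _ hp.out.pos,
        ← factorial_mul_descFactorial h3]
      have : ((b / p).descFactorial (c / p) : ℚ) ≠ 0 := by
        exact_mod_cast (descFactorial_pos.2 h3).ne'
      push_cast; field_simp
    · have := Nat.mul_lt_mul_of_pos_left (not_le.1 h3) hp.out.pos
      rw [if_neg (by omega), descFactorial_of_lt (not_le.1 h3)]; simp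
  · rw [if_neg h, if_neg fun h3 => h ((modEq_iff_dvd' h3.1).2 h3.2)]

theorem det_ent_ne_zero {N : ℕ} {S K : Finset ℕ} (hS : S.card = N) (hK : K.card = N)
    (h : SameCnt p S K) (h0 : wp p K = 0) :
    (Matrix.of fun i j => ent p (rep N S i) (rep N K j)).det ≠ 0 := by
  rw [Ne, ← Matrix.exists_mulVec_eq_zero_iff]
  rintro ⟨a, ha, h1⟩
  let f : ℕ → Polynomial ℚ := fun r => ∑ j, if rep N K j % p = r then
    Polynomial.C (a j) * descPochhammer ℚ (rep N K j / p) else 0
  have hf : ∀ r (q : ℕ), (f r).eval (q : ℚ) = ∑ j, if rep N K j % p = r then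
      a j * q.descFactorial (rep N K j / p) else 0 := fun r q => by
    simp only [f, Polynomial.eval_finsetSum]
    exact sum_congr rfl fun j _ => by
      split_ifs <;> simp [descPochhammer_eval_eq_descFactorial]
  have h2 : ∀ r < p, f r = 0 := fun r hr => by
    refine Polynomial.eq_zero_of_degree_lt_of_eval_finset_eq_zero
      ((run p S r).image ((↑) : ℕ → ℚ)) ?_ fun x hx => ?_
    · rw [Finset.card_image_of_injective _ Nat.cast_injective, h r hr]
      refine (Polynomial.degree_sum_le _ _).trans_lt ((Finset.sup_lt_iff (WithBot.bot_lt_coe _)).2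
        fun j _ => ?_)
      split_ifs with hj
      · rw [← Polynomial.smul_eq_C_mul]
        refine (Polynomial.degree_smul_le _ _).trans_lt (Polynomial.degree_le_natDegree.trans_lt ?_)
        rw [descPochhammer_natDegree, Nat.cast_lt, ← Finset.mem_range, ← run_core h0 hr,
          mem_run hr, ← hj, div_add_mod, ← Finset.mem_coe, ← range_rep hK]
        exact ⟨j, rfl⟩
      · exact WithBot.bot_lt_coe _
    · obtain ⟨q, hq, rfl⟩ := mem_image.1 hx
      rw [mem_run hr, ← Finset.mem_coe, ← range_rep hS] at hq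
      obtain ⟨i, hi⟩ := hq
      have h3 := congrFun h1 i
      simp only [Matrix.mulVec, dotProduct, Matrix.of_apply, ent_eq, hi, mul_add_mod,
        mod_eq_of_lt hr, mul_add_div hp.out.pos, div_eq_of_lt hr, add_zero, Pi.zero_apply] at h3
      rw [hf]
      refine Eq.trans ?_ ((congrArg (((q)! : ℚ) * ·) h3).trans (mul_zero _))
      rw [mul_sum]
      refine sum_congr rfl fun j _ => ?_
      split_ifs
      · field_simp
      · simp
  refine ha (funext fun j => ?_)
  induction ht : rep N K j / p using Nat.strong_induction_on generalizing j with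
  | _ t ih =>
    have h3 := hf (rep N K j % p) t
    rw [h2 _ (mod_lt _ hp.out.pos), Polynomial.eval_zero, sum_eq_single j, if_pos rfl, ht,
      descFactorial_self] at h3
    · exact (mul_eq_zero.1 h3.symm).resolve_right (by positivity)
    · intro j' _ hj
      split_ifs with h4
      · rcases lt_trichotomy (rep N K j' / p) t with h5 | h5 | h5
        · rw [ih _ h5 j' rfl]; simp
        · refine absurd (rep_inj hK ?_) hj
          rw [← div_add_mod (rep N K j') p, h4, h5, ← ht, div_add_mod]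
        · simp [descFactorial_of_lt h5]
      · rfl
    · simp

theorem sameCnt_of_det {N : ℕ} {S K : Finset ℕ} (hS : S.card = N) (hK : K.card = N)
    (h : (Matrix.of fun i j => ent p (rep N S i) (rep N K j)).det ≠ 0) : SameCnt p S K := by
  rw [Matrix.det_apply'] at h
  obtain ⟨τ, -, hτ⟩ := exists_ne_zero_of_sum_ne_zero h
  have h1 : ∀ i, rep N K i % p = rep N S (τ i) % p := fun i => by
    by_contra h1
    exact prod_ne_zero_iff.1 (right_ne_zero_of_mul hτ) i (mem_univ i) (by simp [ent_eq, h1])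
  intro r _
  rw [card_run_rep hS, card_run_rep hK]
  exact (card_equiv τ (by simp [h1])).symm

theorem SameCnt.symm {S T : Finset ℕ} (h : SameCnt p S T) : SameCnt p T S :=
  fun r hr => (h r hr).symm

theorem SameCnt.trans {S T U : Finset ℕ} (h : SameCnt p S T) (h' : SameCnt p T U) :
    SameCnt p S U := fun r hr => (h r hr).trans (h' r hr)

theorem exists_coset {N : ℕ} {S K : Finset ℕ} (hS : S ∈ Cfg N (Fintype.card Ω))
    (h : SameCnt p S K) (h0 : wp p K = 0) {π : Perm Ω}
    (hπ : π.cycleType = Multiset.replicate (wp p S) p) :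
    K ∈ Cfg N (Fintype.card (fixedPoints π)) ∧ ∃ c : ℤ, c ≠ 0 ∧
      ∀ y : Perm (fixedPoints π), ch N S (π * ofSubtype y) = c * ch N K y := by
  obtain ⟨h1, h2⟩ := mem_Cfg'.1 hS
  have h3 := h.wt_add
  have h4 : Fintype.card (fixedPoints π) = wt K := by
    rw [card_fixedPoints, hπ, Multiset.sum_replicate, smul_eq_mul, mul_comm, ← h2]
    rw [h0] at h3; omega
  have hK := h.card_eq.symm.trans h1
  have h5 : ∀ K' ∈ Cfg N (wt K), (cf (psum _ ℤ p ^ wp p S * alt (rep N K')) (rep N S) : ℚ) =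
      (wp p S)! * (Matrix.of fun i j => ent p (rep N S i) (rep N K' j)).det := fun K' hK' => by
    refine cf_psum_pow_alt hp.out.ne_zero _ ?_
    rw [sum_rep h1 fun s => s, sum_rep (mem_Cfg.1 hK').1 fun s => s, (mem_Cfg.1 hK').2,
      (mem_Cfg.1 hS).2, ← h2]
    rw [h0] at h3; omega
  have h6 : K ∈ Cfg N (wt K) := mem_Cfg'.2 ⟨hK, rfl⟩
  refine ⟨h4 ▸ h6, cf (psum _ ℤ p ^ wp p S * alt (rep N K)) (rep N S), fun h7 => ?_, fun y => ?_⟩
  · have := h5 K h6
    rw [h7, Int.cast_zero, eq_comm, _root_.mul_eq_zero] at this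
    exact this.elim (by positivity) (det_ent_ne_zero h1 hK h h0)
  have h7 : pt (π * ofSubtype y) = Multiset.replicate (wp p S) p + pt y := by
    rw [pt, pt, (disjoint_ofSubtype_of_memFixedPoints_self y).symm.cycleType_mul,
      cycleType_ofSubtype, Multiset.sum_add, card_fixedPoints, hπ, add_assoc, Nat.sub_sub]
  have h8 := hom_V_pt N y
  rw [h4] at h8
  rw [ch, chi, h7, V_add, pM_replicate, expand_anti (anti_V N _) h8, mul_sum, cf_sum,
    sum_eq_single_of_mem K h6, mul_smul_comm, cf_smul, mul_comm]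
  · rfl
  intro K' hK' hne
  rw [mul_smul_comm, cf_smul]
  refine mul_eq_zero_of_right _ (by_contra fun h9 => hne ?_)
  have h10 : SameCnt p S K' := sameCnt_of_det h1 (mem_Cfg.1 hK').1 fun h10 => h9 (by
    have := h5 K' hK'
    rw [h10, mul_zero] at this
    exact_mod_cast this)
  have h11 := h10.symm.trans h
  exact core_unique h11 (by rw [h11.wp_eq (mem_Cfg'.1 hK').2, h0]) h0

theorem exists_odd_ne_zero {N : ℕ} {S : Finset ℕ} (hS : S ∈ Cfg N (Fintype.card Ω))
    (h0 : wt (run 2 S 0) ≠ 0) (h1 : wt (run 2 S 1) = 0) :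
    ∃ σ : Perm Ω, sign σ = -1 ∧ ch N S σ ≠ 0 := by
  obtain ⟨hc, hs⟩ := mem_Cfg.1 hS
  have hne : (run 2 S 0).Nonempty := by
    rw [nonempty_iff_ne_empty]; intro h; rw [h] at h0; exact h0 rfl
  have hex : ∃ g, g ∉ run 2 S 0 := Infinite.exists_notMem_finset _
  set t := (run 2 S 0).max' hne
  set g := Nat.find hex
  have ht : t ∈ run 2 S 0 := max'_mem _ _
  have ht' : ∀ q ∈ run 2 S 0, q ≤ t := fun q hq => le_max' _ _ hq
  have hg : g ∉ run 2 S 0 := Nat.find_spec hex
  have hg' : ∀ q < g, q ∈ run 2 S 0 := fun q hq => not_not.1 (Nat.find_min hex hq)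
  have hgt : g < t := by
    by_contra! h
    refine h0 ?_
    rw [show run 2 S 0 = range g from Finset.ext fun q => ⟨fun hq => Finset.mem_range.2
      (lt_of_le_of_ne ((ht' q hq).trans h) fun h2 => hg (h2 ▸ hq)),
      fun hq => hg' q (Finset.mem_range.1 hq)⟩, wt_range]
  have hm : ∀ s, s ∈ S ↔ ∃ i, rep N S i = s := fun s => by
    rw [← Finset.mem_coe, ← range_rep hc]; rfl
  obtain ⟨i₀, hi₀⟩ := (hm _).1 ((mem_run two_pos).1 ht)
  set β := update (rep N S) i₀ (2 * g) with hβ
  have h2g : ∀ i, rep N S i ≠ 2 * g := fun i h => hg ((mem_run two_pos).2 ((hm _).2 ⟨i, h⟩))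
  have hβi : Injective β := fun i j hij => by
    by_cases hi : i = i₀ <;> by_cases hj : j = i₀
    · rw [hi, hj]
    · rw [hβ, hi, update_self, update_of_ne hj] at hij; exact absurd hij.symm (h2g j)
    · rw [hβ, hj, update_self, update_of_ne hi] at hij; exact absurd hij (h2g i)
    · rw [hβ, update_of_ne hi, update_of_ne hj] at hij; exact rep_inj hc hij
  have h2 := sum_update' (rep N S) i₀ (2 * g)
  have h3 := choose_le_of_inj hβi
  rw [sum_rep hc fun s => s, hs, ← hβ, hi₀] at h2
  rw [Fintype.card_fin] at h3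
  obtain ⟨σ, hσ⟩ := (exists_with_cycleType_iff Ω (m := {2 * (t - g)})).2
    ⟨by simp; omega, by simp; omega⟩
  refine ⟨σ, by rw [sign_of_cycleType, hσ]; simp [pow_succ, pow_mul], ?_⟩
  have h4 : pt σ = (2 * (t - g)) ::ₘ pt (1 : Perm (Fin (Fintype.card Ω - 2 * (t - g)))) := by
    simp [pt, hσ]
  rw [ch, chi, h4, V_cons, cf_psum_mul, sum_eq_single i₀, if_pos (by omega),
    show rep N S i₀ - 2 * (t - g) = 2 * g by omega]
  · exact chi_one_ne_zero hβi (by rw [Fintype.card_fin, ← hβ]; omega)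
  · intro i _ hi
    split_ifs with h5
    · by_contra h6
      have h7 : rep N S i ∈ S := (hm _).2 ⟨i, rfl⟩
      have h8 : rep N S i ≠ 2 * t := fun h => hi (rep_inj hc (h.trans hi₀.symm))
      obtain ⟨j, hj⟩ : ∃ j, rep N S j = rep N S i - 2 * (t - g) := by
        rw [← hm]
        generalize rep N S i = s at *
        obtain ⟨q, rfl | rfl⟩ := Nat.even_or_odd' s
        · have := ht' q ((mem_run two_pos).2 h7)
          convert (mem_run two_pos).1 (hg' (q - (t - g)) (by omega)) using 1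
          omega
        · have h9 := (mem_run one_lt_two).2 h7
          rw [eq_range_of_wt h1, Finset.mem_range] at h9
          have : q - (t - g) ∈ run 2 S 1 := by
            rw [eq_range_of_wt h1, Finset.mem_range]; omega
          convert (mem_run one_lt_two).1 this using 1
          omega
      have hij : j ≠ i := by rintro rfl; omega
      exact hij ((anti_V _ _).inj h6 (by rw [update_self, update_of_ne hij, hj]))
    · rfl
  · simp

theorem mem_range_of_coeff {M : Ideal AlgInt} [PMod p M] {π : Perm Ω} (hπ : π ^ p = 1)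
    {B : Set (IrrCharacter (Perm Ω))} (hB : IsPBlock M B) (z : Perm Ω) (hz : Commute π z)
    (h : res M (blockCoeff B z) ≠ 0) :
    z ∈ (ofSubtype : Perm (fixedPoints π) →* Perm Ω).range := by
  have key : ∀ x : Perm Ω, Commute π x → ∀ a, π.SameCycle a (x a) → (x ^ p) a = a := by
    intro x hx a ha
    obtain ⟨k, -, hk⟩ := ha.exists_pow_eq'
    have : ∀ j : ℕ, (x ^ j) a = ((π ^ k) ^ j) a := fun j => by
      induction j with
      | zero => rfl
      | succ j ih =>
        rw [_root_.pow_succ', Perm.mul_apply, ih, ← Perm.mul_apply, ← ((hx.pow_left k).pow_left j).eq,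
          Perm.mul_apply, ← hk, _root_.pow_succ, Perm.mul_apply]
    rw [this, ← pow_mul, mul_comm, pow_mul, hπ, one_pow, Perm.one_apply]
  have hc : ∀ x : Subgroup.centralizer ({π} : Set (Perm Ω)), Commute π x := fun x =>
    (Subgroup.mem_centralizer_singleton_iff.1 x.2).symm
  let E : Subgroup (Subgroup.centralizer ({π} : Set (Perm Ω))) :=
    { carrier := {x | ∀ a, π.SameCycle a (x.1 a)}
      one_mem' := fun a => SameCycle.refl _ _
      mul_mem' := fun {x y} hx hy a => (hy a).trans (hx _)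
      inv_mem' := fun {x} hx a => by simpa using (hx (x.1⁻¹ a)).symm }
  have : E.Normal := ⟨fun x hx g a => by
    obtain ⟨k, hk⟩ := hx (g.1⁻¹ a)
    refine ⟨k, ?_⟩
    simp only [Subgroup.coe_mul, Subgroup.coe_inv, Perm.mul_apply, ← hk]
    rw [← Perm.mul_apply g.1, ← ((hc g).zpow_left k).eq]; simp⟩
  have hE : IsPGroup p E := fun x => ⟨1, Subtype.ext (Subtype.ext (Equiv.ext fun a => by
    simpa using key x.1.1 (hc _) a (x.2 a)))⟩
  have h1 := Blk.mem_centralizer_of_coeff (pElt_iff.2 ⟨1, by rwa [pow_one]⟩) hE hB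
    (z := ⟨z, Subgroup.mem_centralizer_singleton_iff.2 hz.symm.eq⟩) h
  have h2 := pReg_of_res_blockCoeff_ne_zero (p := p) (ZO.og (blk_idem_mem hB)) h
  refine mem_range_ofSubtype_iff.2 fun a ha => by_contra fun h3 => mem_support.1 ha ?_
  have h4 := cycleOf_mem_cycleFactorsFinset_iff.2 (mem_support.2 h3)
  have h5 := h1 ⟨π.cycleOf a, Subgroup.mem_centralizer_singleton_iff.2
    (self_mem_cycle_factors_commute h4).eq⟩ fun b => by
      by_cases hb : π.SameCycle a b
      · rw [hb.cycleOf_apply]; exact sameCycle_apply_right.2 (SameCycle.refl _ _)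
      · rw [cycleOf_apply_of_not_sameCycle hb]
  have h6 : π.SameCycle a (z a) := by
    rw [← mem_support_cycleOf_iff' h3, Perm.mem_support, ← Perm.mul_apply,
      show π.cycleOf a * z = z * π.cycleOf a from congrArg Subtype.val h5, Perm.mul_apply,
      cycleOf_apply_self]
    exact z.injective.ne h3
  have h7 := key z hz a h6
  have h8 : MulAction.period z a ∣ Nat.gcd p (orderOf z) := Nat.dvd_gcd
    (MulAction.pow_smul_eq_iff_period_dvd.1 h7) (MulAction.period_dvd_orderOf _ _)
  rw [(Nat.Prime.coprime_iff_not_dvd hp.out).2 h2, ← MulAction.pow_smul_eq_iff_period_dvd] at h8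
  simpa using h8

theorem sym_block {M : Ideal AlgInt} [PMod p M] {B : Set (IrrCharacter (Perm Ω))}
    (hB : IsPBlock M B) : ∃ (w : ℕ) (π : Perm Ω), #π.support = p * w ∧
      (∃ Q, IsDefectGroup p M B Q ∧ ∀ x ∈ Q, x.support ⊆ π.support) ∧
      blockDefect p B = (p * w)!.factorization p ∧
      (w < p → ∀ χ ∈ B, blockHeight p B χ.1 = 0) ∧
      (p ≠ 2 → p ≤ w → ∃ χ ∈ B, blockHeight p B χ.1 = 1) ∧
      (p = 2 → 3 ≤ w → ∃ χ ∈ B, blockHeight p B χ.1 = 1 ∧ ∃ σ, sign σ = -1 ∧ χ.1 σ ≠ 0) := by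
  classical
  set n := Fintype.card Ω with hn
  set N := p + 3 * n with hN
  obtain ⟨e, he⟩ := exists_equiv_cfg' (Ω := Ω) (N := N) (by omega)
  obtain ⟨χ₀, hχ₀⟩ := blk_nonempty hB
  obtain ⟨S, hS, hS'⟩ : ∃ S, S ∈ Cfg N n ∧ S = (e χ₀).1 := ⟨_, (e χ₀).2, rfl⟩
  have hval : ∀ χ, (charDegree χ.1).factorization p + df p (e χ) = (n)!.factorization p :=
    fun χ => val_ch_one (e χ).2 p (by exact_mod_cast (he χ 1).symm.trans (irr_charDegree χ).symm)
  have h1 : ∀ χ ∈ B, SameCnt p S (e χ) := by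
    intro χ hχ
    refine mem_of_blockIdem_mem_OG (A := {χ | SameCnt p S (e χ)})
      (Blk.blockIdem_mem_of_orth (p := p) fun x y hx hy => ?_) (fun _ _ => by rw [hS'])
      (blk_sameBlock hB hχ₀ hχ)
    have h := congrArg ((↑) : ℤ → ℂ) (sum_sameCnt_eq_zero (N := N) (by omega) S hx hy)
    rw [← sum_coe_sort, ← Equiv.sum_comp e] at h
    rw [Int.cast_zero, Int.cast_sum] at h
    rw [sum_fs_eq_ite]
    refine Eq.trans (sum_congr rfl fun ψ _ => ?_) h
    simp only [Set.mem_ofPred_eq, he]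
    split_ifs <;> simp
  obtain ⟨K, hK, hK0⟩ := exists_core (p := p) S
  have hw : p * wp p S ≤ n := by
    have := hK.wt_add; have := (mem_Cfg'.1 hS).2; rw [hK0] at *; omega
  obtain ⟨π, hπ⟩ := (exists_with_cycleType_iff Ω (m := Multiset.replicate (wp p S) p)).2
    ⟨by simpa [mul_comm] using hw, fun a ha => Multiset.eq_of_mem_replicate ha ▸ hp.out.two_le⟩
  have hπp : π ^ p = 1 := pow_prime_eq_one_iff.2 fun c hc =>
    Multiset.eq_of_mem_replicate (hπ ▸ hc)
  have hπe : ∃ k, orderOf π = p ^ k := pElt_iff.2 ⟨1, by rwa [pow_one]⟩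
  have hsupp : #π.support = p * wp p S := by
    rw [← sum_cycleType, hπ, Multiset.sum_replicate, smul_eq_mul, mul_comm]
  obtain ⟨e', he'⟩ := exists_equiv_cfg' (Ω := fixedPoints π) (N := N)
    ((Fintype.card_subtype_le _).trans (by omega))
  obtain ⟨γ, hγ⟩ := e'.surjective ⟨K, (exists_coset hS hK hK0 hπ).1⟩
  have hγ1 : blockIdem {γ} ∈ OG M _ := blockIdem_singleton_mem (p := p) (by
    have := val_ch_one (e' γ).2 p
      (by exact_mod_cast (he' γ 1).symm.trans (irr_charDegree γ).symm)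
    rw [hγ, df_core hK0, add_zero, Nat.cast_inj] at this
    rw [this, Nat.card_eq_fintype_card, Fintype.card_perm])
  have hcomm : ∀ y : Perm (fixedPoints π), Commute π (ofSubtype y) := fun y =>
    (disjoint_ofSubtype_of_memFixedPoints_self y).commute.symm
  have hwp : ∀ χ, SameCnt p S (e χ) → wp p (e χ) = wp p S := fun χ h =>
    h.symm.wp_eq ((mem_Cfg'.1 (e χ).2).2.trans (mem_Cfg'.1 hS).2.symm)
  have h2 : ∀ χ, SameCnt p S (e χ) → ∀ B', IsPBlock M B' → χ ∈ B' →
      lam M γ (Blk.zB ofSubtype B') ≠ 0 := by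
    intro χ h B' hB' hχ
    obtain ⟨-, c, hc, h3⟩ := exists_coset (e χ).2 (h.symm.trans hK) hK0 (by rw [hπ, hwp χ h])
    exact Blk.lam_zB_ne_zero ofSubtype_injective hπe hcomm hB' (mem_range_of_coeff hπp hB') hγ1 hχ
      (c := c) (by exact_mod_cast hc) fun y => by rw [he, he', hγ, h3]; push_cast; rfl
  have h3 : ∀ χ, SameCnt p S (e χ) → χ ∈ B := fun χ h => by
    rw [Blk.eq_of_lam_zB ofSubtype_injective hπe hcomm hB (isPBlock_blockOf χ)
      (mem_range_of_coeff hπp hB) (mem_range_of_coeff hπp (isPBlock_blockOf χ))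
      (h2 χ₀ (h1 _ hχ₀) B hB hχ₀) (h2 χ h _ (isPBlock_blockOf χ) (self_mem_blockOf χ))]
    exact self_mem_blockOf χ
  have hG : Nat.card (Perm Ω) = (n)! := by rw [Nat.card_eq_fintype_card, Fintype.card_perm]
  have h4 := minDeg_add_blockDefect (p := p) ⟨χ₀, hχ₀⟩
  rw [hG] at h4
  obtain ⟨D, hD⟩ := exists_defectGroup (p := p) hB
  obtain ⟨y, hy, -⟩ := exists_class_of_lam_ne_zero (Blk.zB_mem _ hB) (h2 χ₀ (h1 _ hχ₀) B hB hχ₀)
  obtain ⟨P⟩ : Nonempty (Sylow p (Perm π.support)) := inferInstance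
  have hQ : ∀ x ∈ (P : Subgroup _).map (ofSubtype : Perm π.support →* Perm Ω),
      x.support ⊆ π.support := by
    rintro _ ⟨x, -, rfl⟩
    exact_mod_cast mem_range_ofSubtype_iff.1 ⟨x, rfl⟩
  obtain ⟨x, hx⟩ := le_defectGroup_of_coeff hB hD (h := ofSubtype y) (by simpa [Blk.zB] using hy)
    (P.isPGroup'.map ofSubtype) fun x hx => Subgroup.mem_centralizer_singleton_iff.2
      ((disjoint_ofSubtype_of_memFixedPoints_self y).mono le_rfl (hQ x hx)).commute.symm.eq
  have h5 : Nat.card ((P : Subgroup _).map (ofSubtype : Perm π.support →* Perm Ω)) =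
      p ^ (p * wp p S)!.factorization p := by
    rw [Subgroup.card_map_of_injective ofSubtype_injective, P.card_eq_multiplicity,
      Nat.card_eq_fintype_card, Fintype.card_perm, Fintype.card_coe, hsupp]
  have h6 : blockDefect p B = (p * wp p S)!.factorization p := by
    refine le_antisymm ?_ ?_
    · obtain ⟨χ, hχ, h6⟩ := exists_minDeg (p := p) ⟨χ₀, hχ₀⟩
      have h7 := hval χ
      have h8 := df_le_wp (p := p) (e χ).1
      rw [hwp χ (h1 χ hχ)] at h8
      omega
    · have := Subgroup.card_le_of_le hx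
      rwa [H6.card_cj, h5, card_defectGroup hB hD, Nat.pow_le_pow_iff_right hp.out.one_lt] at this
  have h7 : ∀ S', SameCnt p S S' → wt S' = wt S → df p S' + 1 = (p * wp p S)!.factorization p →
      ∃ χ ∈ B, (e χ).1 = S' ∧ blockHeight p B χ.1 = 1 := fun S' h h8 h9 => by
    obtain ⟨χ, hχ⟩ := e.surjective ⟨S', mem_Cfg'.2 ⟨h.card_eq.symm.trans (mem_Cfg'.1 hS).1,
      h8.trans (mem_Cfg'.1 hS).2⟩⟩
    have h10 := hval χ
    rw [hχ] at h10
    exact ⟨χ, h3 χ (by rwa [hχ]), by rw [hχ], by rw [blockHeight_eq]; dsimp only at h10; omega⟩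
  obtain ⟨hc, hwt⟩ := mem_Cfg'.1 hS
  refine ⟨wp p S, π, hsupp, ⟨_, ?_, hQ⟩, h6, fun h χ hχ => ?_, fun h h' => ?_, fun h h' => ?_⟩
  · have := defectGroup_cj hB hD x⁻¹
    rwa [← Subgroup.eq_of_le_of_card_ge hx (by
      rw [H6.card_cj, h5, card_defectGroup hB hD, h6]), H6.cj_inv_cj] at this
  · have h8 := hval χ
    have h9 := wp_le_df (p := p) (e χ).1
    have h10 := val_factorial (wp p S) hp.out.pos
    have h11 := val_factorial 0 h
    simp only [add_zero, mul_zero, zero_add, factorial_zero, Nat.factorization_one,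
      Finsupp.zero_apply] at h10 h11
    rw [hwp χ (h1 χ hχ)] at h9
    rw [blockHeight_eq]; omega
  · obtain ⟨S', h8, h9, h10⟩ := exists_height_one_odd h (S := S) (by omega) h'
    obtain ⟨χ, hχ, -, h11⟩ := h7 S' h8 h9 h10
    exact ⟨χ, hχ, h11⟩
  · subst h
    obtain ⟨S', h8, h9, h10, h11, h12⟩ := exists_height_one_two (S := S) (by omega) h'
    obtain ⟨χ, hχ, rfl, h13⟩ := h7 S' h8 h9 h12
    obtain ⟨σ, hσ, hσ'⟩ := exists_odd_ne_zero (e χ).2 h10 h11
    exact ⟨χ, hχ, h13, σ, hσ, by rw [he]; exact_mod_cast hσ'⟩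

end Cfsg.Agent.H2.Sym
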