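import Cfsg.Agent.Lib.H2.AltFus2
import Cfsg.Agent.Lib.H2.SymChar4
import Cfsg.Agent.Lib.H1.Frattini

/-! Character degrees of Sylow subgroups of symmetric and alternating groups (helper2). -/

set_option autoImplicit false
set_option linter.style.haveILetI false
set_option linter.unusedSectionVars false

namespace Cfsg.Agent.H2.Sym

open Cfsg Equiv Equiv.Perm Subgroup Alt Cfsg.Agent.H3
open scoped Nat

variable {p : ℕ} [hp : Fact p.Prime] {D : Type*} [Group D] [Finite D]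

theorem irr_of_linear {M : Subgroup D} [M.Normal] (hM : M.index = p) (l : M →* ℂˣ) {x : D}
    {m m' : M} (h : (m' : D) = x * m * x⁻¹) (h' : l m' ≠ l m) :
    ∃ ρ : IrrCharacter D, charDegree ρ.1 = p := by
  have := Fintype.ofFinite D
  have := Fintype.ofFinite M
  have h1 := isIrrCharacter_linear l
  refine ⟨⟨_, H4.isIrr_indFun_of_inertia_le h1 ?_⟩, ?_⟩
  · refine (((H1.isCoatom_of_index_prime hp.out hM).le_iff.1
      (H4.le_inertia (IsIrrCharacter_isClassFunction h1))).resolve_left fun h2 => h' ?_).le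
    exact Units.ext (H4.mem_inertia_iff.1 (h2.ge (mem_top x)) m m' h)
  · rw [H4.charDegree_indFun _ (IsIrrCharacter_isCharacter h1), hM,
      H4.charDegree_eq_of_apply_one (n := 1) (by simp), mul_one]

variable {W : Type*} [Fintype W] [DecidableEq W]

theorem wr_irr (hD : IsPGroup p D) (s : D →* Perm W) (f : D → W → ZMod p)
    (hf : ∀ x y i, f (x * y) i = f x (s y i) + f y i) {i : W} {x e : D} (hx : s x i ≠ i)
    (he : s e = 1) (h1 : f e i ≠ 0) (h2 : ∀ y, s y i ≠ i → f e (s y i) = 0) :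
    ∃ ρ : IrrCharacter D, charDegree ρ.1 = p := by
  classical
  obtain ⟨M, hM, hle⟩ := (eq_top_or_exists_le_coatom
    ((MulAction.stabilizer (Perm W) i).comap s)).resolve_left fun h => hx (h.ge (mem_top x))
  have := hD.isNilpotent
  have hn := H1.coatom_normal_of_isNilpotent hM
  obtain ⟨z, -, hz⟩ := SetLike.exists_of_lt hM.1.lt_top
  set J : Finset W := {j | ∃ m ∈ M, s m i = j} with hJ
  have h3 : ∀ m ∈ M, ∀ g : W → ZMod p, ∑ j ∈ J, g (s m j) = ∑ j ∈ J, g j := fun m hm g =>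
    Finset.sum_equiv (s m) (fun j => by
      simp only [hJ, Finset.mem_filter_univ]
      exact ⟨fun ⟨a, ha, h⟩ => ⟨m * a, mul_mem hm ha, by simp [h]⟩,
        fun ⟨a, ha, h⟩ => ⟨m⁻¹ * a, mul_mem (inv_mem hm) ha, by simp [h]⟩⟩) fun _ _ => rfl
  have h4 : e ∈ M := hle (by simp [he])
  refine irr_of_linear (H1.index_eq_prime_of_isCoatom hD hM) (Circle.toUnits.comp (MonoidHom.mk'
    (fun m : M => ZMod.toCircle (∑ j ∈ J, f m j)) fun a b => by
      simp [hf, Finset.sum_add_distrib, h3 b b.2 (f a), AddChar.map_add_eq_mul]))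
    (x := z⁻¹) (m := ⟨e, h4⟩) (m' := ⟨_, hn.conj_mem' e h4 z⟩) (by simp) fun h => h1 ?_
  have h5 : ∑ j ∈ J, f e j = ∑ j ∈ J, f (z⁻¹ * e * z) j :=
    ZMod.injective_toCircle (Circle.ext (congrArg Units.val h.symm))
  have h6 : ∀ j, f z⁻¹ (s z j) + f z j = 0 := fun j => by
    have := hf 1 1 j
    rw [← hf, inv_mul_cancel]
    simpa using this
  rw [Finset.sum_eq_single_of_mem i (by simpa [hJ] using ⟨1, one_mem M, by simp⟩)] at h5
  · rw [h5]
    refine Finset.sum_eq_zero fun j hj => ?_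
    obtain ⟨m, hm, rfl⟩ := (Finset.mem_filter.1 hj).2
    have h7 := h2 (z * m) fun h => hz ((mul_mem_cancel_right hm).1 (hle h))
    rw [map_mul, Perm.mul_apply] at h7
    simp [hf, he, h7, h6]
  · intro j hj h
    obtain ⟨m, -, rfl⟩ := (Finset.mem_filter.1 hj).2
    exact h2 m h

variable (p) in
/-- The wreath product of `ZMod p` with a permutation group. -/
def Wp (Q : Subgroup (Perm W)) : Subgroup (Perm (W × ZMod p)) where
  carrier := {g | ∃ π ∈ Q, ∃ f, pm p π * tr f = g}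
  one_mem' := ⟨1, one_mem _, 0, by simp [tr_zero]⟩
  mul_mem' := by
    rintro _ _ ⟨π, hπ, f, rfl⟩ ⟨σ, hσ, g, rfl⟩
    exact ⟨_, mul_mem hπ hσ, f ∘ σ + g, by ext x <;> simp [add_assoc, add_comm (g _)]⟩
  inv_mem' := by
    rintro _ ⟨π, hπ, f, rfl⟩
    exact ⟨_, inv_mem hπ, -f ∘ ⇑π⁻¹, eq_inv_of_mul_eq_one_left (by ext x <;> simp [-map_inv])⟩

theorem pm_tr_inj {π σ : Perm W} {f g : W → ZMod p} (h : pm p π * tr f = pm p σ * tr g) :
    π = σ ∧ f = g :=
  have h1 := fun i => Prod.ext_iff.1 (DFunLike.congr_fun h (i, 0))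
  ⟨Equiv.ext fun i => (h1 i).1, funext fun i => by simpa using (h1 i).2⟩

theorem card_Wp (Q : Subgroup (Perm W)) :
    Nat.card (Wp p Q) = Nat.card Q * p ^ Fintype.card W := by
  rw [← Nat.card_congr (Equiv.ofBijective (fun x : Q × (W → ZMod p) =>
    (⟨_, x.1, x.1.2, x.2, rfl⟩ : Wp p Q)) ⟨?_, ?_⟩)]
  · simp
  · exact fun x y h => Prod.ext (Subtype.ext (pm_tr_inj (congrArg Subtype.val h)).1)
      (pm_tr_inj (congrArg Subtype.val h)).2
  · rintro ⟨_, π, hπ, f, rfl⟩
    exact ⟨⟨⟨π, hπ⟩, f⟩, rfl⟩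

variable {A : Type*} [Fintype A] [DecidableEq A] {w : ℕ} {ρ : D →* Perm A}

theorem card_Wp_sylow (Q : Sylow p (Perm (Fin w))) :
    Nat.card (Wp p (Q : Subgroup (Perm (Fin w)))) = p ^ (p * w)!.factorization p := by
  have := val_factorial w hp.out.pos
  rw [add_zero] at this
  rw [card_Wp, Q.card_eq_multiplicity, this, pow_add, mul_comm]
  simp [Fintype.card_perm]

theorem exists_model (hA : Fintype.card A = p * w) (hD : IsPGroup p D) (hρ : Function.Injective ρ)
    (Q : Sylow p (Perm (Fin w))) : ∃ (s : D →* (Q : Subgroup (Perm (Fin w))))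
      (f : D → Fin w → ZMod p), (∀ x y i, f (x * y) i = f x ((s y).1 i) + f y i) ∧
      (∀ x y, s x = s y → f x = f y → x = y) ∧ ∀ H : Subgroup (Perm (Fin w × ZMod p)),
        (∀ x, ∀ g ∈ Wp p (Q : Subgroup (Perm (Fin w))), sign g = sign (ρ x) → g ∈ H) →
        Nat.card H ≤ Nat.card D → ∀ π g, pm p π * tr g ∈ H → ∃ x, (s x).1 = π ∧ f x = g := by
  let e : A ≃ Fin w × ZMod p := Fintype.equivOfCardEq (by simp [hA, mul_comm])
  obtain ⟨g, hg⟩ := H6.exists_cj_le_sylow (Sylow.ofCard _ ((card_Wp_sylow Q).trans (by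
    simp [Fintype.card_perm, mul_comm]))) (hD.of_surjective _
    ((e.permCongrHom : Perm A →* _).comp ρ).rangeRestrict_surjective)
  let ψ := (MulAut.conj g).toMonoidHom.comp ((e.permCongrHom : Perm A →* _).comp ρ)
  have hψ : Function.Injective ψ :=
    (MulAut.conj g).injective.comp (e.permCongrHom.injective.comp hρ)
  have h1 x : ψ x ∈ Wp p (Q : Subgroup (Perm (Fin w))) := H6.cj_le_iff.1 hg _ ⟨x, rfl⟩
  choose s hs f h2 using h1
  have h3 x y i := congrArg (fun a : Perm _ => a (i, 0)) (map_mul ψ x y)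
  simp only [← h2, Perm.mul_apply, pm_apply, tr_apply, Prod.mk.injEq, zero_add] at h3
  refine ⟨MonoidHom.mk' (fun x => ⟨s x, hs x⟩) fun x y => Subtype.ext (Equiv.ext fun i =>
    (h3 x y i).1), f, fun x y i => (h3 x y i).2.trans (add_comm _ _), fun x y h h' => hψ ?_,
    fun H h h' π g h4 => ?_⟩
  · rw [← h2, ← h2, h', show s x = s y from congrArg Subtype.val h]
  · obtain ⟨x, hx⟩ := (eq_of_le_of_card_ge (H := ψ.range) (K := H) (by
      rintro _ ⟨x, rfl⟩
      exact h x _ ⟨_, hs x, _, h2 x⟩ (by simp [ψ, mul_right_comm _ (sign (ρ x))]))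
      (h'.trans_eq (Nat.card_congr (MonoidHom.ofInjective hψ).toEquiv))).ge h4
    exact ⟨x, pm_tr_inj ((h2 x).trans hx)⟩

theorem exists_moved (Q : Sylow p (Perm (Fin w))) (hw : p ≤ w) :
    ∃ π ∈ (Q : Subgroup (Perm (Fin w))), ∃ i, π i ≠ i := by
  obtain ⟨π, hπ, h⟩ := (bot_or_exists_ne_one _).resolve_left (Q.ne_bot_of_dvd_card (by
    simpa [Fintype.card_perm] using hp.out.dvd_factorial.2 hw))
  exact ⟨π, hπ, not_forall.1 fun h1 => h (Equiv.ext h1)⟩

theorem sylow_irr (hA : Fintype.card A = p * w) (hρ : Function.Injective ρ)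
    (hc : Nat.card D = p ^ (p * w)!.factorization p) (hw : p ≤ w) :
    ∃ χ : IrrCharacter D, charDegree χ.1 = p := by
  obtain ⟨Q⟩ : Nonempty (Sylow p (Perm (Fin w))) := inferInstance
  obtain ⟨s, f, h1, -, h2⟩ := exists_model hA (.of_card hc) hρ Q
  replace h2 := h2 _ (fun _ _ h _ => h) (by rw [card_Wp_sylow, hc])
  obtain ⟨π, hπ, i, hi⟩ := exists_moved Q hw
  obtain ⟨x, rfl, -⟩ := h2 π 0 ⟨π, hπ, 0, rfl⟩
  obtain ⟨e, he, he'⟩ := h2 1 (Pi.single i 1) ⟨1, one_mem _, _, rfl⟩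
  exact wr_irr (.of_card hc) ((Subgroup.subtype _).comp s) f h1 hi he (by simp [he'])
    fun y hy => by rw [he', Pi.single_eq_of_ne hy]

theorem comm_of_lt (hA : Fintype.card A = p * w) (hD : IsPGroup p D) (hρ : Function.Injective ρ)
    (hw : w < p) : IsMulCommutative D := by
  obtain ⟨Q⟩ : Nonempty (Sylow p (Perm (Fin w))) := inferInstance
  obtain ⟨s, f, h1, h2, -⟩ := exists_model hA hD hρ Q
  have h3 := val_factorial 0 hw
  have : Subsingleton (Q : Subgroup (Perm (Fin w))) := by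
    rw [← Finite.card_le_one_iff_subsingleton, Q.card_eq_multiplicity]
    simp_all [Fintype.card_perm]
  refine ⟨⟨fun x y => h2 _ _ (Subsingleton.elim _ _) (funext fun i => ?_)⟩⟩
  simp [h1, Subsingleton.elim (s _) 1, add_comm]

theorem alt_irr (hA : Fintype.card A = 2 * w) (hρ : Function.Injective ρ)
    (hs : ∀ x, sign (ρ x) = 1) {k : ℕ} (hc : Nat.card D = 2 ^ k)
    (hk : (2 * w)!.factorization 2 ≤ k + 1) (hw : 3 ≤ w) :
    ∃ χ : IrrCharacter D, charDegree χ.1 = 2 := by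
  obtain ⟨Q⟩ : Nonempty (Sylow 2 (Perm (Fin w))) := inferInstance
  obtain ⟨s, f, h1, -, h2⟩ := exists_model hA (.of_card hc) hρ Q
  obtain ⟨π, hπ, i, hi⟩ := exists_moved Q (by omega)
  replace h2 := h2 (_ ⊓ alternatingGroup _) (fun x _ h h' => ⟨h, h'.trans (hs x)⟩) (by
    obtain ⟨m, hm⟩ := ((IsPGroup.of_card (card_Wp_sylow Q)).to_inf_left
      (K := alternatingGroup _)).exists_card_eq
    have h3 := (card_le_of_le (inf_le_left (a := Wp 2 (Q : Subgroup (Perm (Fin w))))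
      (b := alternatingGroup _))).lt_of_ne fun h => by
        have h4 := mem_alternatingGroup.1 ((eq_of_le_of_card_ge inf_le_left h.ge).ge
          ⟨1, one_mem _, Pi.single i 1, rfl⟩).2
        rw [map_one, one_mul, tr, sign_prodCongrRight,
          Finset.prod_eq_single i (fun j _ hj => by simp [hj]) (by simp), Pi.single_eq_same] at h4
        exact absurd h4 (by decide)
    rw [hm, card_Wp_sylow, Nat.pow_lt_pow_iff_right one_lt_two] at h3
    rw [hm, hc]
    exact Nat.pow_le_pow_right two_pos (by omega))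
  have h3 : ∀ π ∈ (Q : Subgroup (Perm (Fin w))), ∃ x, (s x).1 = π := fun π hπ =>
    (h2 π 0 ⟨⟨π, hπ, 0, rfl⟩, by simp [tr_zero, sign_pm]⟩).imp fun _ h => h.1
  rcases Nat.even_or_odd' w with ⟨v, rfl | rfl⟩
  · obtain ⟨χ, hχ⟩ := sylow_irr (p := 2) (w := v) (Fintype.card_fin _) (subtype_injective _)
      (Q.card_eq_multiplicity.trans (by simp [Fintype.card_perm])) (by omega)
    exact ⟨inflIrr s (fun π => (h3 π π.2).imp fun _ => Subtype.ext) χ,
      (H4.charDegree_comp s χ.1).trans hχ⟩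
  · obtain ⟨l, hl⟩ := Q.isPGroup'.nonempty_fixed_point_of_prime_not_dvd_card (Fin (2 * v + 1))
      (by simp)
    have hil : i ≠ l := by rintro rfl; exact hi (hl ⟨π, hπ⟩)
    obtain ⟨x, rfl⟩ := h3 π hπ
    obtain ⟨e, he, he'⟩ := h2 1 _ ⟨⟨1, one_mem _, _, rfl⟩, by simpa using (tr2_mem hil 1).2⟩
    refine wr_irr (.of_card hc) ((Subgroup.subtype _).comp s) f h1 hi he (by simp [he', hil])
      fun y hy => ?_
    rw [he', Pi.add_apply, Pi.single_eq_of_ne hy, Pi.single_eq_of_ne, add_zero]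
    exact fun h => hil ((s y).1.injective (h.trans (hl (s y)).symm))

end Cfsg.Agent.H2.Sym
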